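import Mathlib
import Cfsg.Agent.Helper14.HF

set_option autoImplicit false

namespace Cfsg.Agent.Helper14.JA

open Classical

open Cfsg.Agent.Helper14.Mat2 Cfsg.Agent.Helper14.SL2Odd Cfsg.Agent.Helper14.PSL2
  Cfsg.Agent.Helper14.SL2Conj Cfsg.Agent.Helper14.Torus Cfsg.Agent.Helper14.TorusB
  Cfsg.Agent.Helper14.TorusC Cfsg.Agent.Helper14.TorusD Cfsg.Agent.Helper14.TorusE
  Cfsg.Agent.Helper14.SL2T Cfsg.Agent.Helper14.SubA Cfsg.Agent.Helper14.SubD
  Cfsg.Agent.Helper14.SubP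
  Cfsg.Agent.Helper14.CE3 Cfsg.Agent.Helper14.A4Sub Cfsg.Agent.Helper14.EvA
  Cfsg.Agent.Helper14.DA Cfsg.Agent.Helper14.DB Cfsg.Agent.Helper14.DC
  Cfsg.Agent.Helper14.DF
  Cfsg.Agent.Helper14.DI Cfsg.Agent.Helper14.GA Cfsg.Agent.Helper14.GB Cfsg.Agent.Helper14.GC
  Cfsg.Agent.Helper14.GD Cfsg.Agent.Helper14.GE Cfsg.Agent.Helper14.GF Cfsg.Agent.Helper14.HA
  Cfsg.Agent.Helper14.HB Cfsg.Agent.Helper14.HC Cfsg.Agent.Helper14.HD Cfsg.Agent.Helper14.HE
  Cfsg.Agent.Helper14.HF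

section general

/-- the sign of an element of a dihedral group -/
def dsgn (n : ℕ) : DihedralGroup n → ℤˣ
  | DihedralGroup.r _ => 1
  | DihedralGroup.sr _ => -1

theorem dsgn_mul (n : ℕ) (a b : DihedralGroup n) : dsgn n (a * b) = dsgn n a * dsgn n b := by
  cases a <;> cases b <;> simp [dsgn]

/-- the sign homomorphism -/
def dsgnHom (n : ℕ) : DihedralGroup n →* ℤˣ := MonoidHom.mk' (dsgn n) (dsgn_mul n)

theorem neg_one_ne : (-1 : ℤˣ) ≠ 1 := by
  intro h
  have h1 := congrArg (fun u : ℤˣ => (u : ℤ)) h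
  simp only [Units.val_neg, Units.val_one] at h1
  omega

theorem dih_solvable (n : ℕ) : Group.IsSolvable (DihedralGroup n) := by
  haveI hk : Group.IsSolvable (dsgnHom n).ker := by
    apply Group.isSolvable_of_comm
    rintro ⟨a, ha⟩ ⟨b, hb⟩
    apply Subtype.ext
    show a * b = b * a
    rw [MonoidHom.mem_ker] at ha hb
    cases a with
    | r i =>
      cases b with
      | r j => rw [DihedralGroup.r_mul_r, DihedralGroup.r_mul_r, add_comm]
      | sr j =>
        exfalso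
        have h5 : (-1 : ℤˣ) = 1 := hb
        exact neg_one_ne h5
    | sr i =>
      exfalso
      have h5 : (-1 : ℤˣ) = 1 := ha
      exact neg_one_ne h5
  exact Group.isSolvable_of_ker_le_range (dsgnHom n).ker.subtype (dsgnHom n)
    (by rw [Subgroup.range_subtype])

theorem solv_map {G H : Type*} [Group G] [Group H] (f : G ≃* H) (x y : G)
    (h : Group.IsSolvable (Subgroup.closure ({x, y} : Set G))) :
    Group.IsSolvable (Subgroup.closure ({f x, f y} : Set H)) := by
  have e : (Subgroup.closure ({x, y} : Set G)).map f.toMonoidHom =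
      Subgroup.closure ({f x, f y} : Set H) := by
    rw [MonoidHom.map_closure, Set.image_pair] <;> rfl
  rw [← e]
  have e2 := (Subgroup.closure ({x, y} : Set G)).equivMapOfInjective f.toMonoidHom f.injective
  exact Group.isSolvable_of_isSolvable_injective (f := e2.symm.toMonoidHom) e2.symm.injective

theorem solv_equiv {G H : Type*} [Group G] [Group H] (f : G ≃* H) (x y : G) :
    Group.IsSolvable (Subgroup.closure ({f x, f y} : Set H)) ↔
      Group.IsSolvable (Subgroup.closure ({x, y} : Set G)) := by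
  constructor
  · intro h
    have h1 := solv_map f.symm (f x) (f y) h
    rwa [f.symm_apply_apply, f.symm_apply_apply] at h1
  · exact solv_map f x y

theorem solv_mono {G : Type*} [Group G] (H K : Subgroup G) (h : H ≤ K)
    (hK : Group.IsSolvable K) : Group.IsSolvable H :=
  Group.isSolvable_of_isSolvable_injective (f := Subgroup.inclusion h)
    (Subgroup.inclusion_injective h)

theorem closure_pair_le {G : Type*} [Group G] (x y : G) (K : Subgroup G) (hx : x ∈ K)
    (hy : y ∈ K) : Subgroup.closure ({x, y} : Set G) ≤ K := by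
  rw [Subgroup.closure_le]
  intro z hz
  rcases hz with rfl | rfl
  · exact hx
  · exact hy

theorem zpowers_solvable {G : Type*} [Group G] (v : G) :
    Group.IsSolvable (Subgroup.zpowers v) := by
  apply Group.isSolvable_of_comm
  rintro ⟨a, ha⟩ ⟨b, hb⟩
  apply Subtype.ext
  obtain ⟨i, rfl⟩ := Subgroup.mem_zpowers_iff.mp ha
  obtain ⟨j, rfl⟩ := Subgroup.mem_zpowers_iff.mp hb
  show v ^ i * v ^ j = v ^ j * v ^ i
  rw [← zpow_add, ← zpow_add, add_comm]

theorem two_invol_solvable {G : Type*} [Group G] (u v : G) (hu : u * u = 1) (hv : v * v = 1) :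
    Group.IsSolvable (Subgroup.closure ({u, v} : Set G)) := by
  by_cases hu1 : u = 1
  · exact solv_mono _ _ (closure_pair_le u v (Subgroup.zpowers v)
      (by rw [hu1]; exact one_mem _) (Subgroup.mem_zpowers v)) (zpowers_solvable v)
  by_cases hv1 : v = 1
  · exact solv_mono _ _ (closure_pair_le u v (Subgroup.zpowers u) (Subgroup.mem_zpowers u)
      (by rw [hv1]; exact one_mem _)) (zpowers_solvable u)
  by_cases huv : u = v
  · exact solv_mono _ _ (closure_pair_le u v (Subgroup.zpowers v)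
      (by rw [huv]; exact Subgroup.mem_zpowers v) (Subgroup.mem_zpowers v)) (zpowers_solvable v)
  obtain ⟨e⟩ := Cfsg.Agent.Helper4.closure_pair_mulEquiv_dihedral u v hu hv hu1 hv1 huv
  haveI := dih_solvable (orderOf (u * v))
  exact Group.isSolvable_of_isSolvable_injective (f := e.toMonoidHom) e.injective

theorem dih_elems {G : Type*} [Group G] (n : ℕ) (hn : Odd n) (e : G ≃* DihedralGroup n)
    (x y : G) :
    (x * x = 1 → x ≠ 1 → (y * y = 1 ∨ x * y * (x * y) = 1)) ∧
    (x * x ≠ 1 → (y * x = x * y ∨ (y * y = 1 ∧ y * x * (y * x) = 1))) := by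
  have hinj : ∀ a b : G, e a = e b → a = b := fun a b h => e.injective h
  have key : ∀ i : ZMod n, i + i = 0 → i = 0 := by
    intro i hi
    have h2u : IsUnit (2 : ZMod n) := by
      have h5 := (ZMod.isUnit_iff_coprime 2 n).mpr (Nat.coprime_two_left.mpr hn)
      exact_mod_cast h5
    have h3 : (2 : ZMod n) * i = 0 := by
      rw [two_mul]
      exact hi
    exact (IsUnit.mul_right_eq_zero h2u).mp h3
  constructor
  · intro hx hx1
    have hx' : e x * e x = 1 := by rw [← map_mul, hx, map_one]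
    have hx1' : e x ≠ 1 := fun h => hx1 (hinj _ _ (by rw [h, map_one]))
    rcases hex : e x with i | i
    · exfalso
      rw [hex, DihedralGroup.r_mul_r, DihedralGroup.one_def] at hx'
      have h5 := key i (DihedralGroup.r.inj hx')
      apply hx1'
      rw [hex, h5, DihedralGroup.one_def]
    · rcases hey : e y with j | j
      · right
        apply hinj
        rw [map_mul, map_mul, hex, hey, map_one, DihedralGroup.sr_mul_r,
          DihedralGroup.sr_mul_sr, sub_self, DihedralGroup.one_def]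
      · left
        apply hinj
        rw [map_mul, hey, map_one, DihedralGroup.sr_mul_sr, sub_self, DihedralGroup.one_def]
  · intro hx
    rcases hex : e x with i | i
    · rcases hey : e y with j | j
      · left
        apply hinj
        rw [map_mul, map_mul, hex, hey, DihedralGroup.r_mul_r, DihedralGroup.r_mul_r, add_comm]
      · right
        constructor
        · apply hinj
          rw [map_mul, hey, map_one, DihedralGroup.sr_mul_sr, sub_self, DihedralGroup.one_def]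
        · apply hinj
          rw [map_mul, map_mul, hex, hey, map_one, DihedralGroup.sr_mul_r,
            DihedralGroup.sr_mul_sr, sub_self, DihedralGroup.one_def]
    · exfalso
      apply hx
      apply hinj
      rw [map_mul, hex, map_one, DihedralGroup.sr_mul_sr, sub_self, DihedralGroup.one_def]

theorem card_or {α : Type*} [Finite α] (p q : α → Prop) (h : ∀ a, p a → ¬ q a) :
    Nat.card {a // p a ∨ q a} = Nat.card {a // p a} + Nat.card {a // q a} := by
  have hd : Disjoint p q := fun r hrp hrq a hra => h a (hrp a hra) (hrq a hra)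
  rw [Nat.card_congr (subtypeOrEquiv p q hd), Nat.card_sum]

theorem count_equiv {G H : Type*} [Group G] [Group H] (f : G ≃* H) (x : G) :
    Nat.card {y : H // Group.IsSolvable (Subgroup.closure ({f x, y} : Set H))} =
      Nat.card {y : G // Group.IsSolvable (Subgroup.closure ({x, y} : Set G))} := by
  apply Nat.card_congr
  exact (f.symm.toEquiv).subtypeEquiv (fun y => by
    have h := solv_equiv f x (f.symm y)
    rw [MulEquiv.apply_symm_apply] at h
    exact h)

theorem count_conj {G : Type*} [Group G] (g x : G) :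
    Nat.card {y : G // Group.IsSolvable (Subgroup.closure ({g * x * g⁻¹, y} : Set G))} =
      Nat.card {y : G // Group.IsSolvable (Subgroup.closure ({x, y} : Set G))} :=
  count_equiv (MulAut.conj g) x

theorem pow_two_even (p : ℕ) (hp : 1 ≤ p) : ∃ N, 1 ≤ N ∧ 2 ^ p = 2 * N := by
  obtain ⟨k, rfl⟩ : ∃ k, p = k + 1 := ⟨p - 1, by omega⟩
  exact ⟨2 ^ k, Nat.one_le_two_pow, by rw [pow_succ, mul_comm]⟩

end general

variable {F : Type*} [Field F]

local notation "SL2" => Matrix.SpecialLinearGroup (Fin 2) F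
local notation "M2" => Matrix (Fin 2) (Fin 2) F

theorem ye_00 (v : F) : ((ye v : SL2) : M2) 0 0 = 1 := rfl
theorem ye_01 (v : F) : ((ye v : SL2) : M2) 0 1 = 0 := rfl
theorem ye_10 (v : F) : ((ye v : SL2) : M2) 1 0 = v := rfl
theorem ye_11 (v : F) : ((ye v : SL2) : M2) 1 1 = 1 := rfl

theorem upper_solvable (H : Subgroup SL2) (hH : ∀ h ∈ H, (h : M2) 1 0 = 0) :
    Group.IsSolvable H := by
  have hne : ∀ h : H, ((h : SL2) : M2) 0 0 ≠ 0 := fun h =>
    left_ne_zero_of_mul_eq_one (upper_diag (h : SL2) (hH _ h.2))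
  obtain ⟨g, hg⟩ : ∃ g : H →* Fˣ, ∀ h : H, ((g h : Fˣ) : F) = ((h : SL2) : M2) 0 0 :=
    ⟨MonoidHom.mk' (fun h => Units.mk0 (((h : SL2) : M2) 0 0) (hne h)) (by
      intro a b
      apply Units.ext
      show (((a * b : H) : SL2) : M2) 0 0 = ((a : SL2) : M2) 0 0 * ((b : SL2) : M2) 0 0
      rw [Subgroup.coe_mul]
      exact upper_mul_00 _ _ (hH _ b.2)), fun h => rfl⟩
  haveI hk : Group.IsSolvable g.ker := by
    apply Group.isSolvable_of_comm
    rintro ⟨a, ha⟩ ⟨b, hb⟩
    apply Subtype.ext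
    apply Subtype.ext
    have ha1 : ((a : SL2) : M2) 0 0 = 1 := by
      rw [← hg, MonoidHom.mem_ker.mp ha, Units.val_one]
    have hb1 : ((b : SL2) : M2) 0 0 = 1 := by
      rw [← hg, MonoidHom.mem_ker.mp hb, Units.val_one]
    have ea := upper_one_form (a : SL2) (hH _ a.2) ha1
    have eb := upper_one_form (b : SL2) (hH _ b.2) hb1
    show ((a : SL2) * (b : SL2)) = (b : SL2) * (a : SL2)
    rw [ea, eb, xe_add, xe_add, add_comm]
  exact Group.isSolvable_of_ker_le_range g.ker.subtype g (by rw [Subgroup.range_subtype])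

theorem lower_solvable (H : Subgroup SL2) (hH : ∀ h ∈ H, (h : M2) 0 1 = 0) :
    Group.IsSolvable H := by
  have hd : ∀ h : H, ((h : SL2) : M2) 0 0 * ((h : SL2) : M2) 1 1 = 1 := by
    intro h
    have h1 := det_ent (h : SL2)
    rw [hH _ h.2] at h1
    linear_combination h1
  have hne : ∀ h : H, ((h : SL2) : M2) 0 0 ≠ 0 := fun h => left_ne_zero_of_mul_eq_one (hd h)
  obtain ⟨g, hg⟩ : ∃ g : H →* Fˣ, ∀ h : H, ((g h : Fˣ) : F) = ((h : SL2) : M2) 0 0 :=
    ⟨MonoidHom.mk' (fun h => Units.mk0 (((h : SL2) : M2) 0 0) (hne h)) (by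
      intro a b
      apply Units.ext
      show (((a * b : H) : SL2) : M2) 0 0 = ((a : SL2) : M2) 0 0 * ((b : SL2) : M2) 0 0
      rw [Subgroup.coe_mul, mul_ent, hH _ a.2]
      ring), fun h => rfl⟩
  have form : ∀ c : H, ((c : SL2) : M2) 0 0 = 1 → (c : SL2) = ye (((c : SL2) : M2) 1 0) := by
    intro c hc
    have h1 := hd c
    rw [hc, one_mul] at h1
    apply ext4
    · rw [hc, ye_00]
    · rw [hH _ c.2, ye_01]
    · rw [ye_10]
    · rw [h1, ye_11]
  haveI hk : Group.IsSolvable g.ker := by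
    apply Group.isSolvable_of_comm
    rintro ⟨a, ha⟩ ⟨b, hb⟩
    apply Subtype.ext
    apply Subtype.ext
    have ha1 : ((a : SL2) : M2) 0 0 = 1 := by
      rw [← hg, MonoidHom.mem_ker.mp ha, Units.val_one]
    have hb1 : ((b : SL2) : M2) 0 0 = 1 := by
      rw [← hg, MonoidHom.mem_ker.mp hb, Units.val_one]
    show ((a : SL2) * (b : SL2)) = (b : SL2) * (a : SL2)
    rw [form a ha1, form b hb1, ye_add, ye_add, add_comm]
  exact Group.isSolvable_of_ker_le_range g.ker.subtype g (by rw [Subgroup.range_subtype])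

/-- the upper triangular subgroup -/
def upperB : Subgroup SL2 where
  carrier := {g | (g : M2) 1 0 = 0}
  mul_mem' := fun {a b} ha hb => upper_mul_10 a b ha hb
  one_mem' := by
    show ((1 : SL2) : M2) 1 0 = 0
    simp
  inv_mem' := fun {a} ha => upper_inv_10 a ha

theorem mem_upperB (g : SL2) : g ∈ (upperB : Subgroup SL2) ↔ (g : M2) 1 0 = 0 := Iff.rfl

/-- the lower triangular subgroup -/
def lowerB : Subgroup SL2 where
  carrier := {g | (g : M2) 0 1 = 0}
  mul_mem' := fun {a b} ha hb => by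
    have ha' : (a : M2) 0 1 = 0 := ha
    have hb' : (b : M2) 0 1 = 0 := hb
    show ((a * b : SL2) : M2) 0 1 = 0
    rw [mul_ent, ha', hb']
    ring
  one_mem' := by
    show ((1 : SL2) : M2) 0 1 = 0
    simp
  inv_mem' := fun {a} ha => by
    have ha' : (a : M2) 0 1 = 0 := ha
    show ((a⁻¹ : SL2) : M2) 0 1 = 0
    rw [(inv_ent a).2.1, ha', neg_zero]

theorem mem_lowerB (g : SL2) : g ∈ (lowerB : Subgroup SL2) ↔ (g : M2) 0 1 = 0 := Iff.rfl

theorem upper_pair_solvable (x y : SL2) (hx : (x : M2) 1 0 = 0) (hy : (y : M2) 1 0 = 0) :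
    Group.IsSolvable (Subgroup.closure ({x, y} : Set SL2)) :=
  solv_mono _ _ (closure_pair_le x y upperB hx hy) (upper_solvable upperB (fun _ hh => hh))

theorem lower_pair_solvable (x y : SL2) (hx : (x : M2) 0 1 = 0) (hy : (y : M2) 0 1 = 0) :
    Group.IsSolvable (Subgroup.closure ({x, y} : Set SL2)) :=
  solv_mono _ _ (closure_pair_le x y lowerB hx hy) (lower_solvable lowerB (fun _ hh => hh))

theorem sl2_not_solvable [Fintype F] [CharP F 2] (h4 : 4 ≤ Fintype.card F) :
    ¬ Group.IsSolvable SL2 := by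
  have h2 : (2 : F) = 0 := CharTwo.two_eq_zero
  intro hs
  obtain ⟨e⟩ := sl_psl F h2
  haveI : IsSimpleGroup (Matrix.ProjectiveSpecialLinearGroup (Fin 2) F) :=
    Matrix.ProjectiveSpecialLinearGroup.rank_two_simple
      (by rw [Nat.card_eq_fintype_card]; exact h4)
  haveI : Group.IsSolvable (Matrix.ProjectiveSpecialLinearGroup (Fin 2) F) :=
    Group.isSolvable_of_isSolvable_injective (f := e.symm.toMonoidHom) e.symm.injective
  have hc := (IsSimpleGroup.comm_iff_isSolvable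
    (G := Matrix.ProjectiveSpecialLinearGroup (Fin 2) F)).mpr inferInstance
  have h5 : xe (1 : F) * ye 1 = ye 1 * xe 1 := by
    apply e.injective
    rw [map_mul, map_mul]
    exact hc _ _
  have h6 := congrArg (fun x : SL2 => (x : M2) 0 0) h5
  simp only [mul_ent, xe_00, xe_01, xe_10, xe_11, ye_00, ye_01, ye_10, ye_11] at h6
  have h7 : (1 : F) = 0 := by linear_combination h6
  exact one_ne_zero h7

theorem exists_coatom [Fintype F] [CharP F 2] (h4 : 4 ≤ Fintype.card F) (x y : SL2)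
    (hs : Group.IsSolvable (Subgroup.closure ({x, y} : Set SL2))) :
    ∃ M : Subgroup SL2, IsCoatom M ∧ x ∈ M ∧ y ∈ M := by
  have hne : Subgroup.closure ({x, y} : Set SL2) ≠ ⊤ := by
    intro h
    apply sl2_not_solvable h4
    rw [h] at hs
    exact Group.isSolvable_of_isSolvable_injective
      (f := (Subgroup.topEquiv (G := SL2)).symm.toMonoidHom) (Subgroup.topEquiv.symm.injective)
  rcases eq_top_or_exists_le_coatom (Subgroup.closure ({x, y} : Set SL2)) with h | ⟨M, hM, hle⟩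
  · exact absurd h hne
  · exact ⟨M, hM, hle (Subgroup.subset_closure (by simp)),
      hle (Subgroup.subset_closure (by simp))⟩

theorem conj10 (g m : SL2) : ((g * m * g⁻¹ : SL2) : M2) 1 0 =
    (g : M2) 1 0 * (g : M2) 1 1 * (m : M2) 0 0 - (g : M2) 1 0 ^ 2 * (m : M2) 0 1 +
      (g : M2) 1 1 ^ 2 * (m : M2) 1 0 - (g : M2) 1 0 * (g : M2) 1 1 * (m : M2) 1 1 := by
  obtain ⟨i00, i01, i10, i11⟩ := inv_ent g
  simp only [mul_ent, i00, i10] <;> ring

theorem torus_w [Fintype F] [CharP F 2] (w : SL2) (hτw : (w : M2).trace ≠ 0) :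
    ∃ A n : SL2, (∀ h : SL2, h * w = w * h → h ∈ Subgroup.zpowers A) ∧
      n * A * n⁻¹ = A⁻¹ ∧ n * n = 1 ∧
      (orderOf A = Fintype.card F - 1 ∨ orderOf A = Fintype.card F + 1) := by
  have h2 : (2 : F) = 0 := CharTwo.two_eq_zero
  have hw1 : w ≠ 1 := by
    intro h
    apply hτw
    rw [h, Matrix.SpecialLinearGroup.coe_one, Matrix.trace_one, Fintype.card_fin]
    exact_mod_cast h2
  have hns : NS (w : M2) := NS_of_char_two h2 w hw1
  obtain ⟨P, hP, hPc⟩ := exists_conj_compSL w hns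
  obtain ⟨τ, hτdef⟩ : ∃ τ : F, τ = (w : M2).trace := ⟨_, rfl⟩
  have hτ : τ ≠ 0 := by
    rw [hτdef]
    exact hτw
  rw [← hτdef] at hPc
  obtain ⟨s, hs⟩ := sq_surj h2 (P.det)⁻¹
  have hdet : (s • P).det = 1 := by
    rw [Matrix.det_smul, Fintype.card_fin, hs, inv_mul_cancel₀ hP]
  obtain ⟨g, hg⟩ : ∃ g : SL2, (g : M2) = s • P := ⟨⟨s • P, hdet⟩, rfl⟩
  have hgw : w * g = g * compSL τ := by
    apply Subtype.ext
    rw [Matrix.SpecialLinearGroup.coe_mul, Matrix.SpecialLinearGroup.coe_mul, hg,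
      Matrix.mul_smul, hPc, Matrix.smul_mul]
  obtain ⟨A, n, hcent, hinv, hn2, hord⟩ := torus_data h2 τ hτ
  have hcent' : ∀ h : SL2, h * w = w * h → h ∈ Subgroup.zpowers (g * A * g⁻¹) := by
    intro h hh
    have e2 : compSL τ = g⁻¹ * w * g := by
      calc compSL τ = g⁻¹ * (g * compSL τ) := by group
        _ = g⁻¹ * (w * g) := by rw [hgw]
        _ = g⁻¹ * w * g := by group
    have hc : (g⁻¹ * h * g) * compSL τ = compSL τ * (g⁻¹ * h * g) := by
      rw [e2]
      calc g⁻¹ * h * g * (g⁻¹ * w * g) = g⁻¹ * (h * w) * g := by group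
        _ = g⁻¹ * (w * h) * g := by rw [hh]
        _ = g⁻¹ * w * g * (g⁻¹ * h * g) := by group
    obtain ⟨k, hk⟩ := Subgroup.mem_zpowers_iff.mp (hcent _ hc)
    rw [Subgroup.mem_zpowers_iff]
    refine ⟨k, ?_⟩
    rw [conj_zpow, hk]
    group
  have hinv' : (g * n * g⁻¹) * (g * A * g⁻¹) * (g * n * g⁻¹)⁻¹ = (g * A * g⁻¹)⁻¹ := by
    calc (g * n * g⁻¹) * (g * A * g⁻¹) * (g * n * g⁻¹)⁻¹ = g * (n * A * n⁻¹) * g⁻¹ := by group
      _ = (g * A * g⁻¹)⁻¹ := by rw [hinv]; group
  have hn2' : (g * n * g⁻¹) * (g * n * g⁻¹) = 1 := by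
    calc (g * n * g⁻¹) * (g * n * g⁻¹) = g * (n * n) * g⁻¹ := by group
      _ = 1 := by rw [hn2]; group
  have hordeq : orderOf (g * A * g⁻¹) = orderOf A := by
    have h3 := MulEquiv.orderOf_eq (MulAut.conj g) A
    rwa [MulAut.conj_apply] at h3
  refine ⟨g * A * g⁻¹, g * n * g⁻¹, hcent', hinv', hn2', ?_⟩
  rw [hordeq]
  exact hord

/-- the refined target property -/
def T2 [Fintype F] (M : Subgroup SL2) : Prop :=
  (∃ g : SL2, ∀ m : SL2, m ∈ M ↔ ((g * m * g⁻¹ : SL2) : M2) 1 0 = 0) ∨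
  Nonempty (M ≃* DihedralGroup (Fintype.card F - 1)) ∨
  Nonempty (M ≃* DihedralGroup (Fintype.card F + 1)) ∨
  (∃ (F₀ : Type) (_ : Field F₀) (_ : Fintype F₀) (r : ℕ), r.Prime ∧ Fintype.card F₀ ≠ 2 ∧
      Fintype.card F = Fintype.card F₀ ^ r ∧
      Nonempty (M ≃* Matrix.SpecialLinearGroup (Fin 2) F₀))

theorem t2_conj [Fintype F] (M : Subgroup SL2) (g : SL2)
    (h : T2 (M.map (MulAut.conj g).toMonoidHom)) : T2 M := by
  have e : M ≃* M.map (MulAut.conj g).toMonoidHom :=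
    M.equivMapOfInjective _ (MulAut.conj g).injective
  rcases h with ⟨g', hg'⟩ | h | h | ⟨F₀, i1, i2, r, hr, h2, hc, h⟩
  · left
    refine ⟨g' * g, fun m => ?_⟩
    have e1 : g' * g * m * (g' * g)⁻¹ = g' * (g * m * g⁻¹) * g'⁻¹ := by group
    rw [e1, ← hg']
    constructor
    · intro hm
      exact mem_conj M g m hm
    · rintro ⟨m', hm', hmm⟩
      have h5 : g * m' * g⁻¹ = g * m * g⁻¹ := hmm
      have h6 : m' = m := by
        calc m' = g⁻¹ * (g * m' * g⁻¹) * g := by group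
          _ = g⁻¹ * (g * m * g⁻¹) * g := by rw [h5]
          _ = m := by group
      rw [← h6]
      exact hm'
  · obtain ⟨e1⟩ := h
    right; left
    exact ⟨e.trans e1⟩
  · obtain ⟨e1⟩ := h
    right; right; left
    exact ⟨e.trans e1⟩
  · obtain ⟨e1⟩ := h
    right; right; right
    exact ⟨F₀, i1, i2, r, hr, h2, hc, ⟨e.trans e1⟩⟩

theorem borel_iff (M : Subgroup SL2) (hM : IsCoatom M)
    (hup : ∀ m ∈ M, (m : M2) 1 0 = 0) (m : SL2) : m ∈ M ↔ (m : M2) 1 0 = 0 := by
  have hMB : M ≤ upperB := fun m hm => hup m hm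
  have hBtop : (upperB : Subgroup SL2) ≠ ⊤ := by
    intro h
    have h1 : ye (1 : F) ∈ (upperB : Subgroup SL2) := by
      rw [h]
      trivial
    rw [mem_upperB, ye_10] at h1
    exact one_ne_zero h1
  have hEq : M = upperB := by
    by_contra hne
    exact hBtop (hM.2 upperB (lt_of_le_of_ne hMB hne))
  rw [hEq, mem_upperB]

theorem main2 [Fintype F] [CharP F 2] (h4 : 4 ≤ Fintype.card F) (M : Subgroup SL2)
    (hM : IsCoatom M) : T2 M := by
  have h2 : (2 : F) = 0 := CharTwo.two_eq_zero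
  haveI : Fintype M := Fintype.ofFinite M
  have hdih : ∀ (M' : Subgroup SL2), IsCoatom M' →
      (∃ w ∈ M', (w : M2).trace ≠ 0 ∧
        ∀ m ∈ M', (m * w * m⁻¹) * w = w * (m * w * m⁻¹)) → T2 M' := by
    rintro M' hM' ⟨w, hw, htr, hn⟩
    rcases dih_main h4 M' hM' w hw htr hn with h | h
    · exact Or.inr (Or.inl h)
    · exact Or.inr (Or.inr (Or.inl h))
  by_cases hodd : 2 ∣ Nat.card M
  swap
  · exact hdih M hM (odd_case M (coatom_ne_bot h4 M hM) hodd)
  obtain ⟨u, hu⟩ := exists_prime_orderOf_dvd_card 2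
    (by rwa [← Nat.card_eq_fintype_card] : 2 ∣ Fintype.card M)
  have hu1 : (u : SL2) ≠ 1 := by
    intro h
    have h5 : u = 1 := Subtype.ext h
    rw [h5, orderOf_one] at hu
    omega
  have hu2 : (u : SL2) ^ 2 = 1 := by
    have h5 := pow_orderOf_eq_one u
    rw [hu] at h5
    exact congrArg Subtype.val h5
  have htr : ((u : SL2) : M2).trace = 2 := unip_tr 2 (u : SL2) hu2
  obtain ⟨g1, v0, hv0, hconj⟩ := conj_unip (u : SL2) hu1 htr
  obtain ⟨t, ht⟩ := sq_surj h2 v0⁻¹
  have ht0 : t ≠ 0 := by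
    intro h
    rw [h] at ht
    have h5 : v0⁻¹ = 0 := by
      rw [← ht]
      ring
    exact inv_ne_zero hv0 h5
  obtain ⟨g2, hg2⟩ : ∃ g2 : SL2, g2 = mk2 t 0 0 t⁻¹ (by rw [mul_inv_cancel₀ ht0]; ring) :=
    ⟨_, rfl⟩
  have hg2_10 : (g2 : M2) 1 0 = 0 := by
    rw [hg2]
    rfl
  have hg2_00 : (g2 : M2) 0 0 = t := by
    rw [hg2]
    rfl
  have hx1 : (g2 * g1) * (u : SL2) * (g2 * g1)⁻¹ = xe 1 := by
    calc (g2 * g1) * (u : SL2) * (g2 * g1)⁻¹ = g2 * (g1 * (u : SL2) * g1⁻¹) * g2⁻¹ := by group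
      _ = g2 * xe v0 * g2⁻¹ := by rw [hconj]
      _ = xe ((g2 : M2) 0 0 ^ 2 * v0) := conj_upper g2 hg2_10 v0
      _ = xe 1 := by rw [hg2_00, ht, inv_mul_cancel₀ hv0]
  apply t2_conj M (g2 * g1)
  obtain ⟨M1, hM1def⟩ : ∃ M1 : Subgroup SL2,
      M1 = M.map (MulAut.conj (g2 * g1)).toMonoidHom := ⟨_, rfl⟩
  rw [← hM1def]
  have hM1 : IsCoatom M1 := by
    rw [hM1def]
    exact coatom_conj M _ hM
  have h1 : xe (1 : F) ∈ M1 := by
    rw [hM1def, ← hx1]
    exact mem_conj M _ _ u.2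
  by_cases hup : ∀ m ∈ M1, (m : M2) 1 0 = 0
  · exact Or.inl ⟨1, fun m => by rw [one_mul, inv_one, mul_one]; exact borel_iff M1 hM1 hup m⟩
  push Not at hup
  obtain ⟨g, hg, hg10⟩ := hup
  by_cases hdiag : ∃ b ∈ M1, (b : M2) 1 0 = 0 ∧ (b : M2) 0 0 ^ 2 ≠ 1
  · obtain ⟨b, hb, hb10, hb00⟩ := hdiag
    have hbd := upper_diag b hb10
    have hbne : (b : M2) 0 0 - (b : M2) 1 1 ≠ 0 := by
      intro h
      apply hb00
      have h5 : (b : M2) 0 0 = (b : M2) 1 1 := sub_eq_zero.mp h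
      rw [← h5] at hbd
      rw [pow_two]
      exact hbd
    obtain ⟨t1, ht1⟩ : ∃ t1 : F, t1 * ((b : M2) 0 0 - (b : M2) 1 1) = (b : M2) 0 1 :=
      ⟨(b : M2) 0 1 * ((b : M2) 0 0 - (b : M2) 1 1)⁻¹,
        by rw [mul_assoc, inv_mul_cancel₀ hbne, mul_one]⟩
    obtain ⟨i00, i01, i10, i11⟩ := inv_ent (xe t1)
    rw [xe_11] at i00
    rw [xe_01] at i01
    rw [xe_10] at i10
    rw [xe_00] at i11
    apply t2_conj M1 (xe t1)
    obtain ⟨M2', hM2def⟩ : ∃ M2' : Subgroup SL2,
        M2' = M1.map (MulAut.conj (xe t1)).toMonoidHom := ⟨_, rfl⟩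
    rw [← hM2def]
    have hM2 : IsCoatom M2' := by
      rw [hM2def]
      exact coatom_conj M1 _ hM1
    have h1' : xe (1 : F) ∈ M2' := by
      have h5 : xe t1 * xe 1 * (xe t1)⁻¹ = xe 1 := by
        rw [xe_add, add_comm, ← xe_add]
        group
      rw [hM2def, ← h5]
      exact mem_conj M1 _ _ h1
    obtain ⟨d0, hd0def⟩ : ∃ d0 : SL2, d0 = xe t1 * b * (xe t1)⁻¹ := ⟨_, rfl⟩
    have hd0 : d0 ∈ M2' := by
      rw [hM2def, hd0def]
      exact mem_conj M1 _ _ hb
    have hd10 : (d0 : M2) 1 0 = 0 := by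
      rw [hd0def]
      simp only [mul_ent, i00, i01, i10, i11, xe_00, xe_01, xe_10, xe_11, hb10] <;> ring
    have hd01 : (d0 : M2) 0 1 = 0 := by
      rw [hd0def]
      simp only [mul_ent, i00, i01, i10, i11, xe_00, xe_01, xe_10, xe_11, hb10] <;>
        linear_combination -ht1
    have hd00 : (d0 : M2) 0 0 ^ 2 ≠ 1 := by
      have h5 : (d0 : M2) 0 0 = (b : M2) 0 0 := by
        rw [hd0def]
        simp only [mul_ent, i00, i01, i10, i11, xe_00, xe_01, xe_10, xe_11, hb10] <;> ring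
      rw [h5]
      exact hb00
    obtain ⟨g', hg'def⟩ : ∃ g' : SL2, g' = xe t1 * g * (xe t1)⁻¹ := ⟨_, rfl⟩
    have hg' : g' ∈ M2' := by
      rw [hM2def, hg'def]
      exact mem_conj M1 _ _ hg
    have hg'10 : (g' : M2) 1 0 ≠ 0 := by
      have h5 : (g' : M2) 1 0 = (g : M2) 1 0 := by
        rw [hg'def]
        simp only [mul_ent, i00, i01, i10, i11, xe_00, xe_01, xe_10, xe_11] <;> ring
      rw [h5]
      exact hg10
    rcases class_eq2 M2' 1 one_ne_zero h1' g' hg' hg'10 with hw | ⟨hP4, hk, hβ⟩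
    · exact hdih M2' hM2 hw
    · obtain ⟨K, hKc, hMK⟩ :=
        struct_main M2' h1' d0 hd0 hd10 hd01 hd00 g' hg' hg'10 hP4 hk hβ
      exact Or.inr (Or.inr (Or.inr (sub_final h4 M2' hM2 K (by rw [hKc]; exact hP4) hMK)))
  · push Not at hdiag
    rcases class_eq2 M1 1 one_ne_zero h1 g hg hg10 with hw | ⟨hP4, hk, hβ⟩
    · exact hdih M1 hM1 hw
    · exfalso
      obtain ⟨b, hb10, hbalt⟩ := beta_bound M1
      rcases hbalt with ⟨hb00, -⟩ | ⟨-, hβP⟩
      · exact hb00 (hdiag (b : SL2) b.2 hb10)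
      · have h5 := hβP h2
        rw [hβ] at h5
        have h6 : Nat.card {v : F // xe v ∈ M1} * 3 ≤
            Nat.card {v : F // xe v ∈ M1} * (Nat.card {v : F // xe v ∈ M1} - 1) :=
          Nat.mul_le_mul_left _ (by omega)
        omega


theorem coatom_nice [Fintype F] [CharP F 2] (p : ℕ) (hp : p.Prime)
    (hF : Fintype.card F = 2 ^ p) (M : Subgroup SL2) (hM : IsCoatom M) :
    (∃ g : SL2, ∀ m : SL2, m ∈ M ↔ ((g * m * g⁻¹ : SL2) : M2) 1 0 = 0) ∨
    (∃ n : ℕ, Odd n ∧ Nonempty (M ≃* DihedralGroup n)) := by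
  have h4 : 4 ≤ Fintype.card F := by
    rw [hF]
    calc 4 = 2 ^ 2 := rfl
      _ ≤ 2 ^ p := Nat.pow_le_pow_right (by norm_num) hp.two_le
  obtain ⟨N, hN1, hN⟩ := pow_two_even p hp.pos
  rcases main2 h4 M hM with h | h | h | ⟨F₀, i1, i2, r, hr, hc2, hc, -⟩
  · exact Or.inl h
  · right
    refine ⟨Fintype.card F - 1, ?_, h⟩
    rw [hF, hN]
    exact Nat.odd_iff.mpr (by omega)
  · right
    refine ⟨Fintype.card F + 1, ?_, h⟩
    rw [hF, hN]
    exact Nat.odd_iff.mpr (by omega)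
  · exfalso
    rw [hF] at hc
    have hr0 : r ≠ 0 := hr.ne_zero
    have hd : Fintype.card F₀ ∣ 2 ^ p := by
      rw [hc]
      exact dvd_pow_self _ hr0
    obtain ⟨s, -, hs⟩ := (Nat.dvd_prime_pow Nat.prime_two).mp hd
    rw [hs, ← pow_mul] at hc
    have h5 : p = s * r := Nat.pow_right_injective (le_refl 2) hc
    have h6 : r ∣ p := ⟨s, by rw [h5, mul_comm]⟩
    have h7 : r = p := (Nat.prime_dvd_prime_iff_eq hr hp).mp h6
    have h8 : s = 1 := by
      rw [h7] at h5
      have hp0 := hp.pos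
      have h9 : s * p = 1 * p := by omega
      exact Nat.eq_of_mul_eq_mul_right hp0 h9
    apply hc2
    rw [hs, h8, pow_one]

end Cfsg.Agent.Helper14.JA
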