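import Mathlib
import Cfsg.Agent.Helper14.JA

set_option autoImplicit false

namespace Cfsg.Agent.Helper14.JB

open Classical

open Cfsg.Agent.Helper14.Mat2 Cfsg.Agent.Helper14.SL2Odd Cfsg.Agent.Helper14.PSL2
  Cfsg.Agent.Helper14.SL2Conj Cfsg.Agent.Helper14.Torus Cfsg.Agent.Helper14.TorusB
  Cfsg.Agent.Helper14.TorusC Cfsg.Agent.Helper14.TorusD Cfsg.Agent.Helper14.TorusE
  Cfsg.Agent.Helper14.SL2T Cfsg.Agent.Helper14.SubA Cfsg.Agent.Helper14.SubD
  Cfsg.Agent.Helper14.SubP
  Cfsg.Agent.Helper14.CE3 Cfsg.Agent.Helper14.A4Sub Cfsg.Agent.Helper14.EvA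
  Cfsg.Agent.Helper14.DA Cfsg.Agent.Helper14.DB Cfsg.Agent.Helper14.DC
  Cfsg.Agent.Helper14.DF
  Cfsg.Agent.Helper14.DI Cfsg.Agent.Helper14.GA Cfsg.Agent.Helper14.GB Cfsg.Agent.Helper14.GC
  Cfsg.Agent.Helper14.GD Cfsg.Agent.Helper14.GE Cfsg.Agent.Helper14.GF Cfsg.Agent.Helper14.HA
  Cfsg.Agent.Helper14.HB Cfsg.Agent.Helper14.HC Cfsg.Agent.Helper14.HD Cfsg.Agent.Helper14.HE
  Cfsg.Agent.Helper14.HF Cfsg.Agent.Helper14.JA

variable {F : Type*} [Field F]

local notation "SL2" => Matrix.SpecialLinearGroup (Fin 2) F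
local notation "M2" => Matrix (Fin 2) (Fin 2) F

theorem four_le [Fintype F] (p : ℕ) (hp : p.Prime) (hF : Fintype.card F = 2 ^ p) :
    4 ≤ Fintype.card F := by
  rw [hF]
  calc 4 = 2 ^ 2 := rfl
    _ ≤ 2 ^ p := Nat.pow_le_pow_right (by norm_num) hp.two_le

theorem card_upper [Fintype F] :
    Nat.card {y : SL2 // (y : M2) 1 0 = 0} = Fintype.card F * (Fintype.card F - 1) := by
  have hb : Function.Bijective (fun y : {y : SL2 // (y : M2) 1 0 = 0} =>
      (((y : SL2) : M2) 0 1, Units.mk0 (((y : SL2) : M2) 0 0)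
        (left_ne_zero_of_mul_eq_one (upper_diag (y : SL2) y.2)))) := by
    constructor
    · rintro ⟨y, hy⟩ ⟨z, hz⟩ h
      have h01 : (y : M2) 0 1 = (z : M2) 0 1 := congrArg Prod.fst h
      have h00 : (y : M2) 0 0 = (z : M2) 0 0 := congrArg (fun u : F × Fˣ => (u.2 : F)) h
      have h11 : (y : M2) 1 1 = (z : M2) 1 1 := by
        have d1 := upper_diag y hy
        have d2 := upper_diag z hz
        have hne : (z : M2) 0 0 ≠ 0 := left_ne_zero_of_mul_eq_one d2
        rw [h00] at d1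
        exact mul_left_cancel₀ hne (d1.trans d2.symm)
      apply Subtype.ext
      exact ext4 y z h00 h01 (hy.trans hz.symm) h11
    · rintro ⟨b, a⟩
      refine ⟨⟨mk2 (a : F) b 0 ((a : F)⁻¹) (by rw [mul_inv_cancel₀ a.ne_zero]; ring), rfl⟩, ?_⟩
      apply Prod.ext
      · rfl
      · apply Units.ext
        rfl
  rw [Nat.card_eq_of_bijective _ hb, Nat.card_prod, Nat.card_units, Nat.card_eq_fintype_card]

theorem card_slice [Fintype F] (t : F) :
    Nat.card {y : SL2 // (y : M2) 1 0 ≠ 0 ∧ (y : M2) 1 1 = (y : M2) 0 0 + t * (y : M2) 1 0} =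
      Fintype.card F * (Fintype.card F - 1) := by
  have hb : Function.Bijective (fun y : {y : SL2 // (y : M2) 1 0 ≠ 0 ∧
      (y : M2) 1 1 = (y : M2) 0 0 + t * (y : M2) 1 0} =>
      (((y : SL2) : M2) 0 0, Units.mk0 (((y : SL2) : M2) 1 0) y.2.1)) := by
    constructor
    · rintro ⟨y, hy1, hy2⟩ ⟨z, hz1, hz2⟩ h
      have h00 : (y : M2) 0 0 = (z : M2) 0 0 := congrArg Prod.fst h
      have h10 : (y : M2) 1 0 = (z : M2) 1 0 := congrArg (fun u : F × Fˣ => (u.2 : F)) h
      have h11 : (y : M2) 1 1 = (z : M2) 1 1 := by rw [hy2, hz2, h00, h10]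
      have h01 : (y : M2) 0 1 = (z : M2) 0 1 := by
        have d1 := det_ent y
        have d2 := det_ent z
        have h5 : ((y : M2) 0 1 - (z : M2) 0 1) * (z : M2) 1 0 = 0 := by
          rw [h00, h11, h10] at d1
          linear_combination d2 - d1
        rcases mul_eq_zero.mp h5 with h6 | h6
        · exact sub_eq_zero.mp h6
        · exact absurd h6 hz1
      apply Subtype.ext
      exact ext4 y z h00 h01 h10 h11
    · rintro ⟨a, c⟩
      have hc : (c : F) ≠ 0 := c.ne_zero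
      have hdet : a * (a + t * (c : F)) - (a * (a + t * (c : F)) - 1) * (c : F)⁻¹ * (c : F) = 1 := by
        rw [mul_assoc, inv_mul_cancel₀ hc, mul_one]
        ring
      refine ⟨⟨mk2 a ((a * (a + t * (c : F)) - 1) * (c : F)⁻¹) (c : F) (a + t * (c : F)) hdet,
        hc, rfl⟩, ?_⟩
      apply Prod.ext
      · rfl
      · apply Units.ext
        rfl
  rw [Nat.card_eq_of_bijective _ hb, Nat.card_prod, Nat.card_units, Nat.card_eq_fintype_card]

theorem card_lower_nz [Fintype F] :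
    Nat.card {y : SL2 // (y : M2) 1 0 ≠ 0 ∧ (y : M2) 0 1 = 0} =
      (Fintype.card F - 1) * (Fintype.card F - 1) := by
  have hd : ∀ y : {y : SL2 // (y : M2) 1 0 ≠ 0 ∧ (y : M2) 0 1 = 0},
      ((y : SL2) : M2) 0 0 * ((y : SL2) : M2) 1 1 = 1 := by
    intro y
    have h1 := det_ent (y : SL2)
    rw [y.2.2] at h1
    linear_combination h1
  have hb : Function.Bijective (fun y : {y : SL2 // (y : M2) 1 0 ≠ 0 ∧ (y : M2) 0 1 = 0} =>
      (Units.mk0 (((y : SL2) : M2) 0 0) (left_ne_zero_of_mul_eq_one (hd y)),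
        Units.mk0 (((y : SL2) : M2) 1 0) y.2.1)) := by
    constructor
    · rintro ⟨y, hy1, hy2⟩ ⟨z, hz1, hz2⟩ h
      have h00 : (y : M2) 0 0 = (z : M2) 0 0 := congrArg (fun u : Fˣ × Fˣ => (u.1 : F)) h
      have h10 : (y : M2) 1 0 = (z : M2) 1 0 := congrArg (fun u : Fˣ × Fˣ => (u.2 : F)) h
      have h11 : (y : M2) 1 1 = (z : M2) 1 1 := by
        have d1 : (y : M2) 0 0 * (y : M2) 1 1 = 1 := hd ⟨y, hy1, hy2⟩
        have d2 : (z : M2) 0 0 * (z : M2) 1 1 = 1 := hd ⟨z, hz1, hz2⟩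
        rw [h00] at d1
        exact mul_left_cancel₀ (left_ne_zero_of_mul_eq_one d2) (d1.trans d2.symm)
      apply Subtype.ext
      exact ext4 y z h00 (hy2.trans hz2.symm) h10 h11
    · rintro ⟨a, c⟩
      refine ⟨⟨mk2 (a : F) 0 (c : F) ((a : F)⁻¹)
        (by rw [mul_inv_cancel₀ a.ne_zero]; ring), c.ne_zero, rfl⟩, ?_⟩
      apply Prod.ext
      · apply Units.ext
        rfl
      · apply Units.ext
        rfl
  rw [Nat.card_eq_of_bijective _ hb, Nat.card_prod, Nat.card_units, Nat.card_eq_fintype_card]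

theorem card_anti [Fintype F] :
    Nat.card {y : SL2 // (y : M2) 0 0 = 0 ∧ (y : M2) 1 1 = 0} = Fintype.card F - 1 := by
  have hd : ∀ y : {y : SL2 // (y : M2) 0 0 = 0 ∧ (y : M2) 1 1 = 0},
      ((y : SL2) : M2) 0 1 * (-((y : SL2) : M2) 1 0) = 1 := by
    intro y
    have h1 := det_ent (y : SL2)
    rw [y.2.1, y.2.2] at h1
    linear_combination h1
  have hb : Function.Bijective (fun y : {y : SL2 // (y : M2) 0 0 = 0 ∧ (y : M2) 1 1 = 0} =>
      Units.mk0 (((y : SL2) : M2) 0 1) (left_ne_zero_of_mul_eq_one (hd y))) := by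
    constructor
    · rintro ⟨y, hy1, hy2⟩ ⟨z, hz1, hz2⟩ h
      have h01 : (y : M2) 0 1 = (z : M2) 0 1 := congrArg (fun u : Fˣ => (u : F)) h
      have h10 : (y : M2) 1 0 = (z : M2) 1 0 := by
        have d1 : (y : M2) 0 1 * (-(y : M2) 1 0) = 1 := hd ⟨y, hy1, hy2⟩
        have d2 : (z : M2) 0 1 * (-(z : M2) 1 0) = 1 := hd ⟨z, hz1, hz2⟩
        rw [h01] at d1
        exact neg_injective
          (mul_left_cancel₀ (left_ne_zero_of_mul_eq_one d2) (d1.trans d2.symm))
      apply Subtype.ext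
      exact ext4 y z (hy1.trans hz1.symm) h01 h10 (hy2.trans hz2.symm)
    · intro b
      refine ⟨⟨mk2 0 (b : F) (-(b : F)⁻¹) 0
        (by rw [mul_neg, mul_inv_cancel₀ b.ne_zero]; ring), rfl, rfl⟩, ?_⟩
      apply Units.ext
      rfl
  rw [Nat.card_eq_of_bijective _ hb, Nat.card_units, Nat.card_eq_fintype_card]

theorem invol_char [Fintype F] [CharP F 2] (p : ℕ) (hp : p.Prime)
    (hF : Fintype.card F = 2 ^ p) (y : SL2) :
    Group.IsSolvable (Subgroup.closure ({xe (1 : F), y} : Set SL2)) ↔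
      ((y : M2) 1 0 = 0 ∨
        (((y : M2) 1 0 ≠ 0 ∧ (y : M2) 1 1 = (y : M2) 0 0 + 0 * (y : M2) 1 0) ∨
        ((y : M2) 1 0 ≠ 0 ∧ (y : M2) 1 1 = (y : M2) 0 0 + 1 * (y : M2) 1 0))) := by
  have h2 : (2 : F) = 0 := CharTwo.two_eq_zero
  have h4 : 4 ≤ Fintype.card F := four_le p hp hF
  have hxx : xe (1 : F) * xe 1 = 1 := by
    rw [xe_add, (by linear_combination h2 : (1 : F) + 1 = 0), xe_zero]
  have hx1 : xe (1 : F) ≠ 1 := by
    intro h'
    have h5 := congrArg (fun x : SL2 => (x : M2) 0 1) h'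
    simp only [xe_01] at h5
    simp at h5
  constructor
  · intro hs
    obtain ⟨M, hM, hxM, hyM⟩ := exists_coatom h4 _ _ hs
    have hfin : (y : M2) 1 0 = 0 ∨ y * y = 1 ∨ xe (1 : F) * y * (xe 1 * y) = 1 := by
      rcases coatom_nice p hp hF M hM with ⟨g, hg⟩ | ⟨n, hn, ⟨e⟩⟩
      · left
        have hx := (hg (xe 1)).mp hxM
        have hy := (hg y).mp hyM
        rw [conj10] at hx hy
        rw [xe_00, xe_01, xe_10, xe_11] at hx
        have hg10 : (g : M2) 1 0 = 0 := by
          have h5 : (g : M2) 1 0 ^ 2 = 0 := by linear_combination -hx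
          exact (pow_eq_zero_iff (two_ne_zero)).mp h5
        rw [hg10] at hy
        have hg11 : (g : M2) 1 1 ≠ 0 := right_ne_zero_of_mul_eq_one (upper_diag g hg10)
        have h5 : (g : M2) 1 1 ^ 2 * (y : M2) 1 0 = 0 := by linear_combination hy
        rcases mul_eq_zero.mp h5 with h6 | h6
        · exact absurd ((pow_eq_zero_iff (two_ne_zero)).mp h6) hg11
        · exact h6
      · right
        have h5 := (dih_elems n hn e ⟨xe 1, hxM⟩ ⟨y, hyM⟩).1 (Subtype.ext hxx)
          (fun h => hx1 (congrArg Subtype.val h))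
        rcases h5 with h5 | h5
        · left
          exact congrArg Subtype.val h5
        · right
          exact congrArg Subtype.val h5
    rcases hfin with h | h | h
    · left
      exact h
    · by_cases h10 : (y : M2) 1 0 = 0
      · left
        exact h10
      · right; left
        refine ⟨h10, ?_⟩
        have htr := unip_tr 2 y (by rw [pow_two]; exact h)
        rw [Matrix.trace_fin_two] at htr
        linear_combination htr - (y : M2) 0 0 * h2 + h2
    · by_cases h10 : (y : M2) 1 0 = 0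
      · left
        exact h10
      · right; right
        refine ⟨h10, ?_⟩
        have htr := unip_tr 2 (xe (1 : F) * y) (by rw [pow_two]; exact h)
        rw [Matrix.trace_fin_two] at htr
        simp only [mul_ent, xe_00, xe_01, xe_10, xe_11] at htr
        linear_combination htr - ((y : M2) 0 0 + (y : M2) 1 0) * h2 + h2
  · rintro (h | ⟨h10, h11⟩ | ⟨h10, h11⟩)
    · exact upper_pair_solvable _ _ (xe_10 1) h
    · have htr : (y : M2).trace = 0 := by
        rw [Matrix.trace_fin_two, h11]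
        linear_combination (y : M2) 0 0 * h2
      exact two_invol_solvable _ _ hxx (sq_of_tr_zero h2 y htr)
    · have htr : ((xe (1 : F) * y : SL2) : M2).trace = 0 := by
        rw [Matrix.trace_fin_two]
        simp only [mul_ent, xe_00, xe_01, xe_10, xe_11]
        rw [h11]
        linear_combination ((y : M2) 0 0 + (y : M2) 1 0) * h2
      have h5 := two_invol_solvable _ _ hxx (sq_of_tr_zero h2 (xe 1 * y) htr)
      refine solv_mono _ _ (closure_pair_le _ _ _ (Subgroup.subset_closure (by simp)) ?_) h5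
      have h6 : (xe (1 : F))⁻¹ * (xe 1 * y) ∈
          Subgroup.closure ({xe (1 : F), xe 1 * y} : Set SL2) :=
        Subgroup.mul_mem _ (Subgroup.inv_mem _ (Subgroup.subset_closure (by simp)))
          (Subgroup.subset_closure (by simp))
      have h7 : (xe (1 : F))⁻¹ * (xe 1 * y) = y := by group
      rw [h7] at h6
      exact h6

theorem invol_count [Fintype F] [CharP F 2] (p : ℕ) (hp : p.Prime)
    (hF : Fintype.card F = 2 ^ p) :
    Nat.card {y : SL2 // Group.IsSolvable (Subgroup.closure ({xe (1 : F), y} : Set SL2))} =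
      3 * 2 ^ p * (2 ^ p - 1) := by
  have hd1 : ∀ a : SL2, (a : M2) 1 0 = 0 →
      ¬ (((a : M2) 1 0 ≠ 0 ∧ (a : M2) 1 1 = (a : M2) 0 0 + 0 * (a : M2) 1 0) ∨
        ((a : M2) 1 0 ≠ 0 ∧ (a : M2) 1 1 = (a : M2) 0 0 + 1 * (a : M2) 1 0)) := by
    rintro a h1 (⟨h3, -⟩ | ⟨h3, -⟩)
    · exact h3 h1
    · exact h3 h1
  have hd2 : ∀ a : SL2,
      ((a : M2) 1 0 ≠ 0 ∧ (a : M2) 1 1 = (a : M2) 0 0 + 0 * (a : M2) 1 0) →
        ¬ ((a : M2) 1 0 ≠ 0 ∧ (a : M2) 1 1 = (a : M2) 0 0 + 1 * (a : M2) 1 0) := by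
    rintro a ⟨h1, h3⟩ ⟨-, h5⟩
    apply h1
    linear_combination h3 - h5
  rw [Nat.card_congr (Equiv.subtypeEquivRight (invol_char p hp hF)),
    card_or _ _ hd1, card_or _ _ hd2, card_upper, card_slice, card_slice, hF]
  ring

theorem diag_char [Fintype F] [CharP F 2] (p : ℕ) (hp : p.Prime)
    (hF : Fintype.card F = 2 ^ p) (d : SL2) (hd10 : (d : M2) 1 0 = 0)
    (hd01 : (d : M2) 0 1 = 0) (hne : (d : M2) 0 0 ≠ (d : M2) 1 1) (y : SL2) :
    Group.IsSolvable (Subgroup.closure ({d, y} : Set SL2)) ↔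
      ((y : M2) 1 0 = 0 ∨ (((y : M2) 1 0 ≠ 0 ∧ (y : M2) 0 1 = 0) ∨
        ((y : M2) 0 0 = 0 ∧ (y : M2) 1 1 = 0))) := by
  have h2 : (2 : F) = 0 := CharTwo.two_eq_zero
  have h4 : 4 ≤ Fintype.card F := four_le p hp hF
  have hdd : d * d ≠ 1 := by
    intro h
    have htr := unip_tr 2 d (by rw [pow_two]; exact h)
    rw [Matrix.trace_fin_two] at htr
    apply hne
    linear_combination htr - (d : M2) 1 1 * h2 + h2
  constructor
  · intro hs
    obtain ⟨M, hM, hxM, hyM⟩ := exists_coatom h4 _ _ hs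
    rcases coatom_nice p hp hF M hM with ⟨g, hg⟩ | ⟨n, hn, ⟨e⟩⟩
    · have hx := (hg d).mp hxM
      have hy := (hg y).mp hyM
      rw [conj10] at hx hy
      rw [hd10, hd01] at hx
      have h5 : (g : M2) 1 0 * (g : M2) 1 1 * ((d : M2) 0 0 - (d : M2) 1 1) = 0 := by
        linear_combination hx
      have h6 : (g : M2) 1 0 * (g : M2) 1 1 = 0 := by
        rcases mul_eq_zero.mp h5 with h | h
        · exact h
        · exact absurd (sub_eq_zero.mp h) hne
      have hdet := det_ent g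
      rcases mul_eq_zero.mp h6 with hg10 | hg11
      · left
        rw [hg10] at hy hdet
        have hg11 : (g : M2) 1 1 ≠ 0 := by
          intro h
          rw [h] at hdet
          have h9 : (0 : F) = 1 := by linear_combination hdet
          exact zero_ne_one h9
        have h7 : (g : M2) 1 1 ^ 2 * (y : M2) 1 0 = 0 := by linear_combination hy
        rcases mul_eq_zero.mp h7 with h8 | h8
        · exact absurd ((pow_eq_zero_iff (two_ne_zero)).mp h8) hg11
        · exact h8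
      · by_cases h10 : (y : M2) 1 0 = 0
        · left
          exact h10
        · right; left
          refine ⟨h10, ?_⟩
          rw [hg11] at hy hdet
          have hg10 : (g : M2) 1 0 ≠ 0 := by
            intro h
            rw [h] at hdet
            have h9 : (0 : F) = 1 := by linear_combination hdet
            exact zero_ne_one h9
          have h7 : (g : M2) 1 0 ^ 2 * (y : M2) 0 1 = 0 := by linear_combination -hy
          rcases mul_eq_zero.mp h7 with h8 | h8
          · exact absurd ((pow_eq_zero_iff (two_ne_zero)).mp h8) hg10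
          · exact h8
    · have h5 := (dih_elems n hn e ⟨d, hxM⟩ ⟨y, hyM⟩).2
        (fun h => hdd (congrArg Subtype.val h))
      rcases h5 with h5 | ⟨h5, h6⟩
      · left
        exact comm_upper d y hd10 hne (congrArg Subtype.val h5)
      · right; right
        have h5' : y * y = 1 := congrArg Subtype.val h5
        have h6' : y * d * (y * d) = 1 := congrArg Subtype.val h6
        have htr1 := unip_tr 2 y (by rw [pow_two]; exact h5')
        have htr2 := unip_tr 2 (y * d) (by rw [pow_two]; exact h6')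
        rw [Matrix.trace_fin_two] at htr1 htr2
        simp only [mul_ent, hd10, hd01] at htr2
        have h7 : (y : M2) 0 0 * ((d : M2) 0 0 - (d : M2) 1 1) = 0 := by
          linear_combination htr2 - (d : M2) 1 1 * htr1 - ((d : M2) 1 1 - 1) * h2
        have h8 : (y : M2) 0 0 = 0 := by
          rcases mul_eq_zero.mp h7 with h | h
          · exact h
          · exact absurd (sub_eq_zero.mp h) hne
        refine ⟨h8, ?_⟩
        rw [h8] at htr1
        linear_combination htr1 + h2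
  · rintro (h | ⟨-, h⟩ | ⟨h00, h11⟩)
    · exact upper_pair_solvable _ _ hd10 h
    · exact lower_pair_solvable _ _ hd01 h
    · have htr1 : (y : M2).trace = 0 := by
        rw [Matrix.trace_fin_two, h00, h11, add_zero]
      have htr2 : ((y * d : SL2) : M2).trace = 0 := by
        rw [Matrix.trace_fin_two]
        simp only [mul_ent, hd10, hd01, h00, h11] <;> ring
      have h5 := two_invol_solvable _ _ (sq_of_tr_zero h2 y htr1)
        (sq_of_tr_zero h2 (y * d) htr2)
      refine solv_mono _ _ (closure_pair_le _ _ _ ?_ (Subgroup.subset_closure (by simp))) h5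
      have h6 : y⁻¹ * (y * d) ∈ Subgroup.closure ({y, y * d} : Set SL2) :=
        Subgroup.mul_mem _ (Subgroup.inv_mem _ (Subgroup.subset_closure (by simp)))
          (Subgroup.subset_closure (by simp))
      have h7 : y⁻¹ * (y * d) = d := by group
      rw [h7] at h6
      exact h6

theorem diag_count [Fintype F] [CharP F 2] (p : ℕ) (hp : p.Prime)
    (hF : Fintype.card F = 2 ^ p) (d : SL2) (hd10 : (d : M2) 1 0 = 0)
    (hd01 : (d : M2) 0 1 = 0) (hne : (d : M2) 0 0 ≠ (d : M2) 1 1) :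
    Nat.card {y : SL2 // Group.IsSolvable (Subgroup.closure ({d, y} : Set SL2))} =
      2 * 2 ^ p * (2 ^ p - 1) := by
  have hd1 : ∀ a : SL2, (a : M2) 1 0 = 0 →
      ¬ (((a : M2) 1 0 ≠ 0 ∧ (a : M2) 0 1 = 0) ∨ ((a : M2) 0 0 = 0 ∧ (a : M2) 1 1 = 0)) := by
    rintro a h1 (⟨h3, -⟩ | ⟨h00, h11⟩)
    · exact h3 h1
    · have hdet := det_ent a
      rw [h00, h11, h1] at hdet
      have h9 : (0 : F) = 1 := by linear_combination hdet
      exact zero_ne_one h9
  have hd2 : ∀ a : SL2, ((a : M2) 1 0 ≠ 0 ∧ (a : M2) 0 1 = 0) →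
      ¬ ((a : M2) 0 0 = 0 ∧ (a : M2) 1 1 = 0) := by
    rintro a ⟨-, h01⟩ ⟨h00, h11⟩
    have hdet := det_ent a
    rw [h00, h11, h01] at hdet
    have h9 : (0 : F) = 1 := by linear_combination hdet
    exact zero_ne_one h9
  rw [Nat.card_congr (Equiv.subtypeEquivRight (diag_char p hp hF d hd10 hd01 hne)),
    card_or _ _ hd1, card_or _ _ hd2, card_upper, card_lower_nz, card_anti, hF]
  obtain ⟨k, hk⟩ : ∃ k, 2 ^ p = k + 1 :=
    ⟨2 ^ p - 1, by have h5 := Nat.one_le_two_pow (n := p); omega⟩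
  rw [hk, Nat.add_sub_cancel]
  ring

theorem nonsplit_count [Fintype F] [CharP F 2] (p : ℕ) (hp : p.Prime)
    (hF : Fintype.card F = 2 ^ p) (x : SL2) (hx1 : x ≠ 1) (hord : orderOf x ∣ 2 ^ p + 1) :
    Nat.card {y : SL2 // Group.IsSolvable (Subgroup.closure ({x, y} : Set SL2))} =
      2 * (2 ^ p + 1) := by
  have h2 : (2 : F) = 0 := CharTwo.two_eq_zero
  have h4 : 4 ≤ Fintype.card F := four_le p hp hF
  obtain ⟨N, hN1, hN⟩ := pow_two_even p hp.pos
  have hodd1 : Odd (2 ^ p + 1) := by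
    rw [hN]
    exact Nat.odd_iff.mpr (by omega)
  have hodd2 : Odd (2 ^ p - 1) := by
    rw [hN]
    exact Nat.odd_iff.mpr (by omega)
  have hcop : Nat.Coprime (2 ^ p - 1) (2 ^ p + 1) := by
    have h5 : 2 ^ p + 1 = 2 + (2 ^ p - 1) := by omega
    rw [h5, Nat.coprime_add_self_right]
    exact (Nat.coprime_two_left.mpr hodd2).symm
  have hxx : x * x ≠ 1 := by
    intro h
    have h5 : orderOf x ∣ 2 := orderOf_dvd_of_pow_eq_one (by rw [pow_two]; exact h)
    have h6 := Nat.eq_one_of_dvd_coprimes (Nat.coprime_two_left.mpr hodd1) h5 hord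
    exact hx1 (orderOf_eq_one_iff.mp h6)
  have htr : (x : M2).trace ≠ 0 := fun h => hxx (sq_of_tr_zero h2 x h)
  obtain ⟨A, n, hcent, hinv, hn2, hordA⟩ := torus_w x htr
  have hxA : x ∈ Subgroup.zpowers A := hcent x rfl
  have hdvd : orderOf x ∣ orderOf A := orderOf_dvd_of_mem_zpowers hxA
  have hA : orderOf A = 2 ^ p + 1 := by
    rcases hordA with h | h
    · exfalso
      rw [h, hF] at hdvd
      have h6 := Nat.eq_one_of_dvd_coprimes hcop hdvd hord
      exact hx1 (orderOf_eq_one_iff.mp h6)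
    · rw [h, hF]
  have hAA : A * A ≠ 1 := by
    intro h
    have h5 : orderOf A ∣ 2 := orderOf_dvd_of_pow_eq_one (by rw [pow_two]; exact h)
    have h6 := Nat.le_of_dvd (by norm_num) h5
    rw [hA] at h6
    omega
  have hni : n⁻¹ = n := inv_eq_of_mul_eq_one_left hn2
  have hinv2 : n * A * n = A⁻¹ := by
    have h5 := hinv
    rw [hni] at h5
    exact h5
  have hv2 : (n * A) * (n * A) = 1 := by
    calc (n * A) * (n * A) = (n * A * n) * A := by group
      _ = 1 := by rw [hinv2, inv_mul_cancel]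
  have hu1 : n ≠ 1 := by
    intro h
    rw [h, one_mul, mul_one] at hinv2
    apply hAA
    calc A * A = A * A⁻¹ := by rw [← hinv2]
      _ = 1 := mul_inv_cancel A
  have hv1 : n * A ≠ 1 := by
    intro h
    apply hAA
    have h5 : A = n := by
      calc A = n⁻¹ * (n * A) := by group
        _ = n := by rw [h, mul_one, hni]
    rw [h5]
    exact hn2
  have huv : n ≠ n * A := by
    intro h
    apply hAA
    have h5 : A = 1 := by
      calc A = n⁻¹ * (n * A) := by group
        _ = n⁻¹ * n := by rw [← h]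
        _ = 1 := inv_mul_cancel n
    rw [h5, one_mul]
  obtain ⟨e⟩ := Cfsg.Agent.Helper4.closure_pair_mulEquiv_dihedral n (n * A) hn2 hv2 hu1 hv1 huv
  have hnnA : n * (n * A) = A := by
    rw [← mul_assoc, hn2, one_mul]
  rw [hnnA, hA] at e
  obtain ⟨D, hDdef⟩ : ∃ D : Subgroup SL2, D = Subgroup.closure ({n, n * A} : Set SL2) :=
    ⟨_, rfl⟩
  rw [← hDdef] at e
  have hnD : n ∈ D := by
    rw [hDdef]
    exact Subgroup.subset_closure (by simp)
  have hnAD : n * A ∈ D := by
    rw [hDdef]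
    exact Subgroup.subset_closure (by simp)
  have hAD : A ∈ D := by
    have h5 := D.mul_mem (D.inv_mem hnD) hnAD
    have h6 : n⁻¹ * (n * A) = A := by group
    rw [h6] at h5
    exact h5
  have hzD : Subgroup.zpowers A ≤ D := Subgroup.zpowers_le.mpr hAD
  have hDs : Group.IsSolvable D := by
    haveI := dih_solvable (2 ^ p + 1)
    exact Group.isSolvable_of_isSolvable_injective (f := e.toMonoidHom) e.injective
  have hcardD : Nat.card D = 2 * (2 ^ p + 1) := by
    rw [Nat.card_congr e.toEquiv, DihedralGroup.nat_card]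
  have hnx : n * x * n⁻¹ = x⁻¹ := by
    obtain ⟨k, hk⟩ := Subgroup.mem_zpowers_iff.mp hxA
    rw [← hk, ← conj_zpow, hinv, inv_zpow]
  have hchar : ∀ y : SL2, Group.IsSolvable (Subgroup.closure ({x, y} : Set SL2)) ↔ y ∈ D := by
    intro y
    constructor
    · intro hs
      obtain ⟨M, hM, hxM, hyM⟩ := exists_coatom h4 _ _ hs
      rcases coatom_nice p hp hF M hM with ⟨g, hg⟩ | ⟨n', hn', ⟨e'⟩⟩
      · exfalso
        have hx := (hg x).mp hxM
        have h5 := upper_order 2 (g * x * g⁻¹) hx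
        have h6 : orderOf (g * x * g⁻¹) ∣ (Fintype.card F - 1) * 2 :=
          orderOf_dvd_of_pow_eq_one h5
        have h7 : orderOf (g * x * g⁻¹) = orderOf x := by
          have h3 := MulEquiv.orderOf_eq (MulAut.conj g) x
          rwa [MulAut.conj_apply] at h3
        rw [h7, hF] at h6
        have hcop2 : Nat.Coprime ((2 ^ p - 1) * 2) (2 ^ p + 1) :=
          Nat.Coprime.mul_left hcop (Nat.coprime_two_left.mpr hodd1)
        exact hx1 (orderOf_eq_one_iff.mp (Nat.eq_one_of_dvd_coprimes hcop2 h6 hord))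
      · have h5 := (dih_elems n' hn' e' ⟨x, hxM⟩ ⟨y, hyM⟩).2
          (fun h => hxx (congrArg Subtype.val h))
        rcases h5 with h5 | ⟨h5, h6⟩
        · exact hzD (hcent y (congrArg Subtype.val h5))
        · have hyy : y * y = 1 := congrArg Subtype.val h5
          have hyx : y * x * (y * x) = 1 := congrArg Subtype.val h6
          have hyi : y⁻¹ = y := inv_eq_of_mul_eq_one_left hyy
          have hyxy : y * x * y = x⁻¹ := by
            apply eq_inv_of_mul_eq_one_left
            calc y * x * y * x = y * x * (y * x) := by group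
              _ = 1 := hyx
          have hc : (n * y) * x = x * (n * y) := by
            calc (n * y) * x = n * (y * x * y) * y⁻¹ := by group
              _ = n * x⁻¹ * y⁻¹ := by rw [hyxy]
              _ = (n * x * n⁻¹)⁻¹ * n * y⁻¹ := by group
              _ = x * n * y⁻¹ := by rw [hnx, inv_inv]
              _ = x * (n * y) := by rw [hyi, mul_assoc]
          have h7 := hzD (hcent _ hc)
          have h8 := D.mul_mem (D.inv_mem hnD) h7
          have h9 : n⁻¹ * (n * y) = y := by group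
          rw [h9] at h8
          exact h8
    · intro hy
      exact solv_mono _ _ (closure_pair_le x y D (hzD hxA) hy) hDs
  rw [Nat.card_congr (Equiv.subtypeEquivRight hchar)]
  exact hcardD

theorem sl_invol [Fintype F] [CharP F 2] (p : ℕ) (hp : p.Prime)
    (hF : Fintype.card F = 2 ^ p) (x : SL2) (hx : orderOf x = 2) :
    Nat.card {y : SL2 // Group.IsSolvable (Subgroup.closure ({x, y} : Set SL2))} =
      3 * 2 ^ p * (2 ^ p - 1) := by
  have h2 : (2 : F) = 0 := CharTwo.two_eq_zero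
  have hx1 : x ≠ 1 := by
    intro h
    rw [h, orderOf_one] at hx
    omega
  have hx2 : x ^ 2 = 1 := by
    have h5 := pow_orderOf_eq_one x
    rw [hx] at h5
    exact h5
  have htr : (x : M2).trace = 2 := unip_tr 2 x hx2
  obtain ⟨g1, v0, hv0, hconj⟩ := conj_unip x hx1 htr
  obtain ⟨t, ht⟩ := sq_surj h2 v0⁻¹
  have ht0 : t ≠ 0 := by
    intro h
    rw [h] at ht
    have h5 : v0⁻¹ = 0 := by
      rw [← ht]
      ring
    exact inv_ne_zero hv0 h5
  obtain ⟨g2, hg2⟩ : ∃ g2 : SL2, g2 = mk2 t 0 0 t⁻¹ (by rw [mul_inv_cancel₀ ht0]; ring) :=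
    ⟨_, rfl⟩
  have hg2_10 : (g2 : M2) 1 0 = 0 := by
    rw [hg2]
    rfl
  have hg2_00 : (g2 : M2) 0 0 = t := by
    rw [hg2]
    rfl
  have hx1' : (g2 * g1) * x * (g2 * g1)⁻¹ = xe 1 := by
    calc (g2 * g1) * x * (g2 * g1)⁻¹ = g2 * (g1 * x * g1⁻¹) * g2⁻¹ := by group
      _ = g2 * xe v0 * g2⁻¹ := by rw [hconj]
      _ = xe ((g2 : M2) 0 0 ^ 2 * v0) := conj_upper g2 hg2_10 v0
      _ = xe 1 := by rw [hg2_00, ht, inv_mul_cancel₀ hv0]
  refine (count_conj (g2 * g1) x).symm.trans ?_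
  rw [hx1']
  exact invol_count p hp hF

theorem sl_split [Fintype F] [CharP F 2] (p : ℕ) (hp : p.Prime)
    (hF : Fintype.card F = 2 ^ p) (x : SL2) (hx1 : x ≠ 1) (hord : orderOf x ∣ 2 ^ p - 1) :
    Nat.card {y : SL2 // Group.IsSolvable (Subgroup.closure ({x, y} : Set SL2))} =
      2 * 2 ^ p * (2 ^ p - 1) := by
  have h2 : (2 : F) = 0 := CharTwo.two_eq_zero
  obtain ⟨N, hN1, hN⟩ := pow_two_even p hp.pos
  have hodd2 : Odd (2 ^ p - 1) := by
    rw [hN]
    exact Nat.odd_iff.mpr (by omega)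
  have hcop : Nat.Coprime (2 ^ p - 1) (2 ^ p + 1) := by
    have h5 : 2 ^ p + 1 = 2 + (2 ^ p - 1) := by omega
    rw [h5, Nat.coprime_add_self_right]
    exact (Nat.coprime_two_left.mpr hodd2).symm
  have ho1 : orderOf x ≠ 1 := fun h => hx1 (orderOf_eq_one_iff.mp h)
  obtain ⟨ℓ, hℓ, hℓd⟩ := Nat.exists_prime_and_dvd ho1
  haveI : Fact ℓ.Prime := ⟨hℓ⟩
  have ho0 : orderOf x ≠ 0 := (orderOf_pos x).ne'
  obtain ⟨x', hx'def⟩ : ∃ x' : SL2, x' = x ^ (orderOf x / ℓ) := ⟨_, rfl⟩
  have hox' : orderOf x' = ℓ := by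
    rw [hx'def]
    exact orderOf_pow_orderOf_div ho0 hℓd
  have hx'1 : x' ≠ 1 := by
    intro h
    rw [h, orderOf_one] at hox'
    exact hℓ.one_lt.ne hox'
  have hx'ℓ : x' ^ ℓ = 1 := by
    have h5 := pow_orderOf_eq_one x'
    rw [hox'] at h5
    exact h5
  have hP : IsPGroup ℓ (Subgroup.zpowers x') := pgroup_zpowers ℓ x' hx'ℓ
  obtain ⟨T, hTdef⟩ : ∃ T : Subgroup SL2, T = (diag : Fˣ →* SL2).range := ⟨_, rfl⟩
  have hT : IsTorus T (Fintype.card F - 1) := by
    rw [hTdef]
    exact torus_split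
  have hℓq : ℓ ∣ 2 ^ p - 1 := dvd_trans hℓd hord
  have hidx : T.index = 2 ^ p * (2 ^ p + 1) := by
    have h5 := Subgroup.card_mul_index T
    rw [hT.2.1, card_SL2, hF] at h5
    have h6 : (2 ^ p) ^ 2 - 1 = (2 ^ p - 1) * (2 ^ p + 1) := by
      obtain ⟨k, hk⟩ : ∃ k, 2 ^ p = k + 1 := ⟨2 ^ p - 1, by omega⟩
      rw [hk, Nat.add_sub_cancel]
      have h7 : (k + 1) ^ 2 = k * (k + 1 + 1) + 1 := by ring
      rw [h7, Nat.add_sub_cancel]
    rw [h6] at h5
    have h8 : (2 ^ p - 1) * T.index = (2 ^ p - 1) * (2 ^ p * (2 ^ p + 1)) := by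
      rw [h5]
      ring
    exact Nat.eq_of_mul_eq_mul_left (by omega) h8
  have hndvd : ¬ ℓ ∣ T.index := by
    rw [hidx]
    intro h
    rcases (Nat.Prime.dvd_mul hℓ).mp h with h5 | h5
    · have h6 : ℓ ∣ 2 := Nat.Prime.dvd_of_dvd_pow hℓ h5
      have h7 : ℓ = 2 := (Nat.prime_dvd_prime_iff_eq hℓ Nat.prime_two).mp h6
      rw [h7] at hℓq
      rcases hodd2 with ⟨m, hm⟩
      omega
    · have h6 := Nat.eq_one_of_dvd_coprimes hcop hℓq h5
      exact hℓ.one_lt.ne' h6
  obtain ⟨g, hg⟩ := sylow_le_conj ℓ T (Subgroup.zpowers x') hP hndvd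
  obtain ⟨t, htT, htx⟩ := hg (Subgroup.mem_zpowers x')
  have htx' : g * t * g⁻¹ = x' := htx
  have ht1 : t ≠ 1 := by
    intro h
    apply hx'1
    rw [← htx', h]
    group
  obtain ⟨d, hddef⟩ : ∃ d : SL2, d = g⁻¹ * x * g := ⟨_, rfl⟩
  have hcomm : d * t = t * d := by
    have h5 : x * x' = x' * x := by
      rw [hx'def]
      exact (Commute.pow_right (Commute.refl x) _).eq
    rw [hddef]
    calc g⁻¹ * x * g * t = g⁻¹ * (x * (g * t * g⁻¹)) * g := by group
      _ = g⁻¹ * ((g * t * g⁻¹) * x) * g := by rw [htx', h5]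
      _ = t * (g⁻¹ * x * g) := by group
  have hdT : d ∈ T := by
    rw [← hT.2.2 t htT (NS_of_char_two h2 t ht1)]
    exact Subgroup.mem_centralizer_singleton_iff.mpr hcomm
  rw [hTdef] at hdT
  obtain ⟨a, ha⟩ := hdT
  have hd10 : (d : M2) 1 0 = 0 := by
    rw [← ha]
    rfl
  have hd01 : (d : M2) 0 1 = 0 := by
    rw [← ha]
    rfl
  have hd1 : d ≠ 1 := by
    intro h
    apply hx1
    have h5 : x = g * d * g⁻¹ := by
      rw [hddef]
      group
    rw [h5, h]
    group
  have hne : (d : M2) 0 0 ≠ (d : M2) 1 1 := by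
    intro h
    apply hd1
    have hdiag := upper_diag d hd10
    rw [← h] at hdiag
    have h5 : ((d : M2) 0 0 - 1) ^ 2 = 0 := by
      linear_combination hdiag - (d : M2) 0 0 * h2 + h2
    have h6 : (d : M2) 0 0 = 1 := sub_eq_zero.mp ((pow_eq_zero_iff (two_ne_zero)).mp h5)
    apply ext4
    · rw [h6]
      simp
    · rw [hd01]
      simp
    · rw [hd10]
      simp
    · rw [← h, h6]
      simp
  have hxd : g⁻¹ * x * g⁻¹⁻¹ = d := by rw [hddef, inv_inv]
  refine (count_conj g⁻¹ x).symm.trans ?_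
  rw [hxd]
  exact diag_count p hp hF d hd10 hd01 hne

theorem psl_result (p : ℕ) (hp : p.Prime) {F : Type*} [Field F] [Fintype F]
    (hF : Fintype.card F = 2 ^ p) (x : Matrix.ProjectiveSpecialLinearGroup (Fin 2) F) :
    (orderOf x = 2 → Nat.card {y : Matrix.ProjectiveSpecialLinearGroup (Fin 2) F // Group.IsSolvable ↥(Subgroup.closure ({x, y} : Set (Matrix.ProjectiveSpecialLinearGroup (Fin 2) F)))} = 3 * 2 ^ p * (2 ^ p - 1)) ∧
    (x ≠ 1 → orderOf x ∣ 2 ^ p - 1 → Nat.card {y : Matrix.ProjectiveSpecialLinearGroup (Fin 2) F // Group.IsSolvable ↥(Subgroup.closure ({x, y} : Set (Matrix.ProjectiveSpecialLinearGroup (Fin 2) F)))} = 2 * 2 ^ p * (2 ^ p - 1)) ∧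
    (x ≠ 1 → orderOf x ∣ 2 ^ p + 1 → Nat.card {y : Matrix.ProjectiveSpecialLinearGroup (Fin 2) F // Group.IsSolvable ↥(Subgroup.closure ({x, y} : Set (Matrix.ProjectiveSpecialLinearGroup (Fin 2) F)))} = 2 * (2 ^ p + 1)) := by
  obtain ⟨c, hc⟩ := CharP.exists F
  haveI := hc
  have hcp : c.Prime := CharP.char_is_prime F c
  haveI : Fact c.Prime := ⟨hcp⟩
  obtain ⟨n, -, hn⟩ := FiniteField.card F c
  have hc2 : c = 2 := by
    have h2q : 2 ∣ Fintype.card F := by
      rw [hF]
      exact dvd_pow_self 2 hp.ne_zero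
    rw [hn] at h2q
    exact ((Nat.prime_dvd_prime_iff_eq Nat.prime_two hcp).mp
      (Nat.prime_two.dvd_of_dvd_pow h2q)).symm
  subst hc2
  have h2 : (2 : F) = 0 := CharTwo.two_eq_zero
  obtain ⟨e⟩ := sl_psl F h2
  obtain ⟨x0, hx0⟩ : ∃ x0, e x0 = x := e.surjective x
  have hcount : Nat.card {y : Matrix.ProjectiveSpecialLinearGroup (Fin 2) F // Group.IsSolvable ↥(Subgroup.closure ({x, y} : Set (Matrix.ProjectiveSpecialLinearGroup (Fin 2) F)))} =
      Nat.card {y : Matrix.SpecialLinearGroup (Fin 2) F // Group.IsSolvable ↥(Subgroup.closure ({x0, y} : Set (Matrix.SpecialLinearGroup (Fin 2) F)))} := by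
    rw [← hx0]
    exact count_equiv e x0
  have hord : orderOf x = orderOf x0 := by
    rw [← hx0]
    exact MulEquiv.orderOf_eq e x0
  have hone : x ≠ 1 → x0 ≠ 1 := by
    intro h h'
    apply h
    rw [← hx0, h', map_one]
  rw [hcount, hord]
  exact ⟨fun h => sl_invol p hp hF x0 h, fun h1 h => sl_split p hp hF x0 (hone h1) h,
    fun h1 h => nonsplit_count p hp hF x0 (hone h1) h⟩

end Cfsg.Agent.Helper14.JB
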