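import Mathlib
import Cfsg.Agent.Lead.NilBound
import Cfsg.Agent.Lead.NilNum
import Cfsg.Agent.Lead.NilN1
import Cfsg.Agent.Lead.NilOrb
import Cfsg.Agent.Lead.NilOrbOdd
import Cfsg.Agent.Helper1.NilPerm
import Cfsg.Agent.Helper13.NilPerm
import Cfsg.Agent.Helper3.NilAlt
import Cfsg.Agent.Helper13.NilAlt
import Cfsg.Agent.Helper24.NilAlt
import Cfsg.Agent.Helper21.NilAlt

set_option autoImplicit false

namespace Cfsg.Agent.Helper14.KC
open Cfsg.Agent

theorem trans_bound (N Ω : Type) [Group N] [Finite N] [Fintype Ω] [MulAction N Ω]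
    [FaithfulSMul N Ω] [MulAction.IsPretransitive N Ω] (h : Group.IsNilpotent N) :
    Nat.card N ≤ Lead.nilBound (Fintype.card Ω) :=
  Cfsg.Agent.Helper13.card_le_nilBound_of N _
    (fun p _ P => Cfsg.Agent.Helper1.nil_sylow_card_dvd h p P)

theorem v3_exact (j : ℕ) (hj : j % 4 = 0) :
    (j + 3).factorial.factorization 2 = j.factorial.factorization 2 + 1 := by
  rw [Lead.nn_fact3]
  have e1 : (j + 1).factorization 2 = 0 := Nat.factorization_eq_zero_of_not_dvd (by omega)
  have e3 : (j + 3).factorization 2 = 0 := Nat.factorization_eq_zero_of_not_dvd (by omega)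
  have e2 : (j + 2).factorization 2 = 1 := by
    obtain ⟨q, rfl⟩ : ∃ q, j = 4 * q := ⟨j / 4, by omega⟩
    rw [show 4 * q + 2 = 2 * (2 * q + 1) by ring, Nat.factorization_mul (by norm_num) (by omega),
      Finsupp.add_apply, Nat.Prime.factorization_self Nat.prime_two,
      Nat.factorization_eq_zero_of_not_dvd (by omega)]
  rw [Nat.factorization_mul (by positivity) (Nat.factorial_ne_zero j),
    Nat.factorization_mul (by positivity) (by omega),
    Nat.factorization_mul (by omega) (by omega)]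
  simp only [Finsupp.add_apply, e1, e2, e3]
  omega

theorem sym3_num (l : Multiset ℕ) (hpos : ∀ m ∈ l, 0 < m) (h : l.sum % 4 = 3) :
    (l.map Lead.nilBound).prod ≤ 3 * 2 ^ ((l.sum - 3).factorial.factorization 2) := by
  obtain ⟨h1, h2⟩ := Lead.nn_main Lead.nilBound Lead.nilBound_le Lead.nilBound_three l hpos
  obtain ⟨j, hj⟩ : ∃ j, l.sum = j + 3 := ⟨l.sum - 3, by omega⟩
  have hj4 : j % 4 = 0 := by omega
  rcases Nat.eq_zero_or_pos (l.count 3) with hk0 | hkpos
  · rw [hk0] at h2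
    simp only [pow_zero, one_mul, Nat.mul_zero, Nat.sub_zero] at h2
    rw [hj, v3_exact j hj4] at h2
    rw [hj, Nat.add_sub_cancel]
    calc (l.map Lead.nilBound).prod ≤ 2 ^ (j.factorial.factorization 2 + 1) := h2
      _ = 2 * 2 ^ (j.factorial.factorization 2) := by rw [pow_succ]; ring
      _ ≤ 3 * 2 ^ (j.factorial.factorization 2) := Nat.mul_le_mul_right _ (by norm_num)
  · obtain ⟨k, hk⟩ : ∃ k, l.count 3 = k + 1 := ⟨l.count 3 - 1, by omega⟩
    rw [hk] at h1 h2
    have h3 := Lead.nn_threes k (l.sum - 3 * (k + 1)) (by omega)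
    have e : l.sum - 3 * (k + 1) + 3 * k = j := by omega
    rw [e] at h3
    rw [hj, Nat.add_sub_cancel]
    rw [hj] at h2
    calc (l.map Lead.nilBound).prod
        ≤ 3 ^ (k + 1) * 2 ^ ((j + 3 - 3 * (k + 1)).factorial.factorization 2) := h2
      _ = 3 * (3 ^ k * 2 ^ ((j + 3 - 3 * (k + 1)).factorial.factorization 2)) := by
          rw [pow_succ]; ring
      _ ≤ 3 * 2 ^ (j.factorial.factorization 2) := by
          apply Nat.mul_le_mul_left
          rw [hj] at h3
          exact h3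

theorem sym3_bound {n : ℕ} (hn : n % 4 = 3) (M : Subgroup (Equiv.Perm (Fin n)))
    (hM : Group.IsNilpotent M) :
    Nat.card M ≤ 3 * 2 ^ ((n - 3).factorial.factorization 2) := by
  obtain ⟨l, hpos, hsum, hle⟩ := Lead.nil_exists_orbit_multiset Lead.nilBound
    (fun N Ω _ _ _ _ _ _ h => trans_bound N Ω h) M hM
  rw [Fintype.card_fin] at hsum
  have h1 := sym3_num l hpos (by rw [hsum]; exact hn)
  rw [hsum] at h1
  exact hle.trans h1

theorem doubling {n : ℕ} (M : Subgroup (Equiv.Perm (Fin n))) (hM : Group.IsNilpotent M)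
    (heven : M ≤ alternatingGroup (Fin n)) (h2 : 2 ∣ Nat.card M) :
    ∃ M' : Subgroup (Equiv.Perm (Fin n)), Group.IsNilpotent M' ∧
      2 * Nat.card M ≤ Nat.card M' := by
  classical
  haveI : Fact (Nat.Prime 2) := ⟨Nat.prime_two⟩
  obtain ⟨P⟩ : Nonempty (Sylow 2 M) := inferInstance
  obtain ⟨Q, hQodd, hcomm, hcard⟩ := Cfsg.Agent.Helper3.nil_two_complement hM P
  let P' : Subgroup (Equiv.Perm (Fin n)) := (P : Subgroup M).map M.subtype
  let Q' : Subgroup (Equiv.Perm (Fin n)) := Q.map M.subtype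
  have hP'card : Nat.card P' = Nat.card P :=
    Subgroup.card_map_of_injective M.subtype_injective
  have hQ'card : Nat.card Q' = Nat.card Q :=
    Subgroup.card_map_of_injective M.subtype_injective
  have hP'2 : IsPGroup 2 P' := P.isPGroup'.map M.subtype
  have hcomm' : ∀ a ∈ P', ∀ q ∈ Q', a * q = q * a := by
    rintro _ ⟨a, ha, rfl⟩ _ ⟨q, hq, rfl⟩
    have h1 := hcomm a ha q hq
    have h3 := congrArg M.subtype h1
    simpa using h3
  have heven' : P' ≤ alternatingGroup (Fin n) := by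
    rintro _ ⟨a, ha, rfl⟩
    exact heven a.2
  have hPdvd : 2 ∣ Nat.card P := by
    rw [Sylow.card_eq_multiplicity]
    have : 0 < (Nat.card M).factorization 2 :=
      Nat.Prime.factorization_pos_of_dvd Nat.prime_two Nat.card_pos.ne' h2
    exact dvd_pow_self 2 this.ne'
  obtain ⟨x, hx⟩ := exists_prime_orderOf_dvd_card' 2 hPdvd
  let x' : Equiv.Perm (Fin n) := ((x : M) : Equiv.Perm (Fin n))
  have hx'mem : x' ∈ P' := ⟨(x : M), x.2, rfl⟩
  have hx1 : x' ≠ 1 := by
    intro h
    have h1 : (x : M) = 1 := Subtype.ext h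
    have h2 : x = 1 := Subtype.ext h1
    rw [h2, orderOf_one] at hx
    omega
  have hx2 : x' * x' = 1 := by
    have h1 : x ^ 2 = 1 := by
      have h0 := pow_orderOf_eq_one x
      rwa [hx] at h0
    have h2 : x * x = 1 := by rw [← pow_two]; exact h1
    have h3 := congrArg (fun z : (P : Subgroup M) => ((z : M) : Equiv.Perm (Fin n))) h2
    simpa using h3
  obtain ⟨t, htQ, ht⟩ := Cfsg.Agent.Helper13.exists_odd_perm_commuting Q' (hQ'card ▸ hQodd) x'
    hx1 hx2 (fun q hq => hcomm' x' hx'mem q hq)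
  have hQ'nil : Group.IsNilpotent Q' := by
    haveI := hM
    have h1 : Group.IsNilpotent Q := inferInstance
    exact Group.nilpotent_of_surjective
      (Q.equivMapOfInjective M.subtype M.subtype_injective).toMonoidHom
      (Q.equivMapOfInjective M.subtype M.subtype_injective).surjective
  obtain ⟨M', hM'nil, hM'card⟩ := Cfsg.Agent.Helper24.nil_double_of_odd_centralizer P' Q' hP'2
    heven' (hQ'card ▸ hQodd) hQ'nil hcomm' t htQ ht
  refine ⟨M', hM'nil, ?_⟩
  rw [hP'card, hQ'card, ← hcard] at hM'card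
  exact hM'card

theorem odd3_bound
    (hF1 : ∀ (c : ℕ → ℕ), (∀ m, 0 < m → m ≠ 3 → c m ≤ 2 ^ (m.factorial.factorization 2)) →
      c 3 = 3 →
      (∀ m, Odd m → m ≠ 1 → m ≠ 3 → m ≠ 5 → m ≠ 9 → 2 * c m ≤ 2 ^ (m.factorial.factorization 2)) →
      ∀ (l : Multiset ℕ), (∀ m ∈ l, Odd m) → l.sum % 4 = 3 → 7 ≤ l.sum →
      2 * (l.map c).prod ≤ 3 * 2 ^ ((l.sum - 3).factorial.factorization 2))
    {n : ℕ} (hn : n % 4 = 3) (h7 : 7 ≤ n) (M : Subgroup (Equiv.Perm (Fin n)))
    (hM : Group.IsNilpotent M) (hodd : Odd (Nat.card M)) :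
    2 * Nat.card M ≤ 3 * 2 ^ ((n - 3).factorial.factorization 2) := by
  obtain ⟨l, hoddl, hsum, hle⟩ := Lead.nil_exists_orbit_multiset_odd Lead.nilBound
    (fun N Ω _ _ _ _ _ _ h => trans_bound N Ω h) M hM hodd
  rw [Fintype.card_fin] at hsum
  have h1 := hF1 Lead.nilBound Lead.nilBound_le Lead.nilBound_three
    Cfsg.Agent.Helper21.nilBound_odd_two_mul_le l hoddl (by rw [hsum]; exact hn)
    (by rw [hsum]; exact h7)
  rw [hsum] at h1
  calc 2 * Nat.card M ≤ 2 * (l.map Lead.nilBound).prod := Nat.mul_le_mul_left 2 hle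
    _ ≤ _ := h1

end Cfsg.Agent.Helper14.KC
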