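import Mathlib
import Cfsg.Agent.Helper14.KC

set_option autoImplicit false

namespace Cfsg.Agent.Helper14.KD
open Cfsg.Agent

theorem alt3_result
    (hF1 : ∀ (c : ℕ → ℕ), (∀ m, 0 < m → m ≠ 3 → c m ≤ 2 ^ (m.factorial.factorization 2)) →
      c 3 = 3 →
      (∀ m, Odd m → m ≠ 1 → m ≠ 3 → m ≠ 5 → m ≠ 9 → 2 * c m ≤ 2 ^ (m.factorial.factorization 2)) →
      ∀ (l : Multiset ℕ), (∀ m ∈ l, Odd m) → l.sum % 4 = 3 → 7 ≤ l.sum →
      2 * (l.map c).prod ≤ 3 * 2 ^ ((l.sum - 3).factorial.factorization 2))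
    (hF3 : ∀ (n : ℕ), 3 ≤ n → ∀ (P : Sylow 2 (alternatingGroup (Fin (n - 3)))),
      ∃ M : Subgroup (alternatingGroup (Fin n)), Group.IsNilpotent M ∧
        Nat.card M = 3 * Nat.card P ∧
        Nonempty (M ≃* (↥(P : Subgroup (alternatingGroup (Fin (n - 3)))) ×
          Multiplicative (ZMod 3))))
    (hF4 : ∀ (n : ℕ), n % 4 = 3 → 7 ≤ n → ∀ (N : Subgroup (Equiv.Perm (Fin n))),
      Group.IsNilpotent N →
      2 * Nat.card N = 3 * 2 ^ ((n - 3).factorial.factorization 2) →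
      ∃ (z : Equiv.Perm (Fin n)) (T : Subgroup (Equiv.Perm (Fin n))), z.cycleType = {3} ∧
        2 * Nat.card T = 2 ^ ((n - 3).factorial.factorization 2) ∧ (∀ t ∈ T, t * z = z * t) ∧
        N = T ⊔ Subgroup.zpowers z)
    (hF5 : ∀ (n : ℕ), 7 ≤ n → ∀ (z₁ z₂ : Equiv.Perm (Fin n))
      (T₁ T₂ : Subgroup (Equiv.Perm (Fin n))),
      z₁.cycleType = {3} → z₂.cycleType = {3} →
      2 * Nat.card T₁ = 2 ^ ((n - 3).factorial.factorization 2) →
      2 * Nat.card T₂ = 2 ^ ((n - 3).factorial.factorization 2) →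
      T₁ ≤ alternatingGroup (Fin n) → T₂ ≤ alternatingGroup (Fin n) →
      (∀ t ∈ T₁, t * z₁ = z₁ * t) → (∀ t ∈ T₂, t * z₂ = z₂ * t) →
      ∃ g : Equiv.Perm (Fin n), Equiv.Perm.sign g = 1 ∧
        (T₂ ⊔ Subgroup.zpowers z₂) = (T₁ ⊔ Subgroup.zpowers z₁).map (MulAut.conj g).toMonoidHom)
    (n : ℕ) (hn : n % 4 = 3) (h7 : 7 ≤ n)
    (P : Sylow 2 (alternatingGroup (Fin (n - 3)))) :
    (∀ N : Subgroup (alternatingGroup (Fin n)), Group.IsNilpotent N → Nat.card N ≤ 3 * Nat.card P) ∧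
    (∃ M : Subgroup (alternatingGroup (Fin n)), Group.IsNilpotent M ∧ Nat.card M = 3 * Nat.card P ∧
      Nonempty (M ≃* (↥(P : Subgroup (alternatingGroup (Fin (n - 3)))) × Multiplicative (ZMod 3)))) ∧
    (∀ N₁ N₂ : Subgroup (alternatingGroup (Fin n)), Group.IsNilpotent N₁ → Group.IsNilpotent N₂ →
      Nat.card N₁ = 3 * Nat.card P → Nat.card N₂ = 3 * Nat.card P →
      ∃ g : alternatingGroup (Fin n), N₂ = N₁.map (MulAut.conj g).toMonoidHom) := by
  classical
  haveI : Fact (Nat.Prime 2) := ⟨Nat.prime_two⟩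
  haveI : Nontrivial (Fin (n - 3)) := Fin.nontrivial_iff_two_le.mpr (by omega)
  have hA : 2 * Nat.card (alternatingGroup (Fin (n - 3))) = (n - 3).factorial := by
    rw [two_mul_nat_card_alternatingGroup, Nat.card_perm, Nat.card_eq_fintype_card,
      Fintype.card_fin]
  have hP : 2 * Nat.card P = 2 ^ ((n - 3).factorial.factorization 2) := by
    rw [Sylow.card_eq_multiplicity, ← hA,
      Nat.factorization_mul two_ne_zero Nat.card_pos.ne', Finsupp.add_apply,
      Nat.Prime.factorization_self Nat.prime_two, pow_add, pow_one]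
  -- images in the symmetric group
  have himg : ∀ N : Subgroup (alternatingGroup (Fin n)), Group.IsNilpotent N →
      Nat.card (N.map (alternatingGroup (Fin n)).subtype) = Nat.card N ∧
      Group.IsNilpotent (N.map (alternatingGroup (Fin n)).subtype) ∧
      N.map (alternatingGroup (Fin n)).subtype ≤ alternatingGroup (Fin n) := by
    intro N hN
    refine ⟨Subgroup.card_map_of_injective (Subgroup.subtype_injective _), ?_, ?_⟩
    · exact Group.nilpotent_of_surjective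
        (N.equivMapOfInjective (alternatingGroup (Fin n)).subtype
          (Subgroup.subtype_injective _)).toMonoidHom
        (N.equivMapOfInjective (alternatingGroup (Fin n)).subtype
          (Subgroup.subtype_injective _)).surjective
    · rintro _ ⟨a, ha, rfl⟩
      exact a.2
  refine ⟨?_, hF3 n (by omega) P, ?_⟩
  · intro N hN
    obtain ⟨hMcard, hMnil, hMeven⟩ := himg N hN
    have hkey : 2 * Nat.card (N.map (alternatingGroup (Fin n)).subtype) ≤
        3 * 2 ^ ((n - 3).factorial.factorization 2) := by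
      rcases Nat.even_or_odd (Nat.card (N.map (alternatingGroup (Fin n)).subtype)) with he | ho
      · obtain ⟨M', hM'nil, hM'card⟩ := Cfsg.Agent.Helper14.KC.doubling _ hMnil hMeven
          (even_iff_two_dvd.mp he)
        exact hM'card.trans (Cfsg.Agent.Helper14.KC.sym3_bound hn M' hM'nil)
      · exact Cfsg.Agent.Helper14.KC.odd3_bound hF1 hn h7 _ hMnil ho
    rw [hMcard, ← hP] at hkey
    omega
  · intro N₁ N₂ hN₁ hN₂ hc₁ hc₂
    obtain ⟨hM₁card, hM₁nil, hM₁even⟩ := himg N₁ hN₁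
    obtain ⟨hM₂card, hM₂nil, hM₂even⟩ := himg N₂ hN₂
    have hcard₁ : 2 * Nat.card (N₁.map (alternatingGroup (Fin n)).subtype) =
        3 * 2 ^ ((n - 3).factorial.factorization 2) := by
      rw [hM₁card, hc₁, ← hP]; ring
    have hcard₂ : 2 * Nat.card (N₂.map (alternatingGroup (Fin n)).subtype) =
        3 * 2 ^ ((n - 3).factorial.factorization 2) := by
      rw [hM₂card, hc₂, ← hP]; ring
    obtain ⟨z₁, T₁, hz₁, hT₁, hcomm₁, hM₁⟩ := hF4 n hn h7 _ hM₁nil hcard₁
    obtain ⟨z₂, T₂, hz₂, hT₂, hcomm₂, hM₂⟩ := hF4 n hn h7 _ hM₂nil hcard₂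
    have hTA₁ : T₁ ≤ alternatingGroup (Fin n) :=
      le_trans (le_sup_left.trans (le_of_eq hM₁.symm)) hM₁even
    have hTA₂ : T₂ ≤ alternatingGroup (Fin n) :=
      le_trans (le_sup_left.trans (le_of_eq hM₂.symm)) hM₂even
    obtain ⟨g', hg', hconj⟩ := hF5 n h7 z₁ z₂ T₁ T₂ hz₁ hz₂ hT₁ hT₂ hTA₁ hTA₂ hcomm₁ hcomm₂
    refine ⟨⟨g', Equiv.Perm.mem_alternatingGroup.mpr hg'⟩, ?_⟩
    apply Subgroup.map_injective (Subgroup.subtype_injective (alternatingGroup (Fin n)))
    rw [Subgroup.map_map]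
    have hcomp : (alternatingGroup (Fin n)).subtype.comp
        (MulAut.conj (⟨g', Equiv.Perm.mem_alternatingGroup.mpr hg'⟩ :
          alternatingGroup (Fin n))).toMonoidHom =
        ((MulAut.conj g').toMonoidHom).comp (alternatingGroup (Fin n)).subtype := by
      ext x
      simp [MulAut.conj_apply]
    rw [hcomp, ← Subgroup.map_map, hM₂, hM₁]
    exact hconj

end Cfsg.Agent.Helper14.KD
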