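import Mathlib

set_option autoImplicit false

namespace Cfsg.Agent.Helper14.Law

open Polynomial Matrix

/-- The word `w` takes central values on every tuple of `P`. -/
def CL (w : FreeGroup ℕ) (P : Type*) [Group P] : Prop :=
  ∀ f : ℕ → P, FreeGroup.lift f w ∈ Subgroup.center P

theorem lift_comp {P Q : Type*} [Group P] [Group Q] (φ : P →* Q) (f : ℕ → P) (w : FreeGroup ℕ) :
    φ (FreeGroup.lift f w) = FreeGroup.lift (φ ∘ f) w := by
  have h : φ.comp (FreeGroup.lift f) = FreeGroup.lift (φ ∘ f) := by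
    apply FreeGroup.ext_hom
    intro a
    simp
  exact DFunLike.congr_fun h w

theorem CL_of_injective {P Q : Type*} [Group P] [Group Q] (w : FreeGroup ℕ) (φ : P →* Q)
    (hφ : Function.Injective φ) (h : CL w Q) : CL w P := by
  intro f
  rw [Subgroup.mem_center_iff]
  intro z
  apply hφ
  rw [map_mul, map_mul, lift_comp]
  exact (Subgroup.mem_center_iff.mp (h (φ ∘ f))) (φ z)

theorem law_of_equiv {G Q : Type*} [Group G] [Group Q] (w : FreeGroup ℕ) (e : G ≃* Q)
    (h : ∀ f : ℕ → G, FreeGroup.lift f w = 1) (f : ℕ → Q) : FreeGroup.lift f w = 1 := by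
  have h1 := h (e.symm ∘ f)
  have h2 : e.symm (FreeGroup.lift f w) = 1 := by
    rw [← h1]; exact lift_comp e.symm.toMonoidHom f w
  simpa using h2

theorem CL_of_law {Q : Type*} [Group Q] (w : FreeGroup ℕ)
    (h : ∀ f : ℕ → Q, FreeGroup.lift f w = 1) : CL w Q := by
  intro f
  rw [h f]; exact Subgroup.one_mem _

theorem CL_of_law_quot {G Ω : Type*} [Group G] [Group Ω] (w : FreeGroup ℕ)
    (e : G ≃* Ω ⧸ Subgroup.center Ω) (h : ∀ f : ℕ → G, FreeGroup.lift f w = 1) : CL w Ω := by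
  intro f
  have h1 := law_of_equiv w e h (QuotientGroup.mk' (Subgroup.center Ω) ∘ f)
  rw [← lift_comp] at h1
  exact (QuotientGroup.eq_one_iff _).mp h1

section Poly

variable {E : Type*} [Field E]

def LT (v : E[X] × E[X]) : Prop := v.1 ≠ 0 ∧ v.1.natDegree < v.2.natDegree
def UT (v : E[X] × E[X]) : Prop := v.2 ≠ 0 ∧ v.2.natDegree < v.1.natDegree
def LT' (v : E[X] × E[X]) : Prop := v.2 ≠ 0 ∧ v.1.natDegree ≤ v.2.natDegree
def UT' (v : E[X] × E[X]) : Prop := v.1 ≠ 0 ∧ v.2.natDegree ≤ v.1.natDegree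

noncomputable def Uv (s : E[X]) (v : E[X] × E[X]) : E[X] × E[X] := (v.1 + s * v.2, v.2)
noncomputable def Lv (s : E[X]) (v : E[X] × E[X]) : E[X] × E[X] := (v.1, v.2 + s * v.1)

theorem ne_zero_of_natDegree_pos {p : E[X]} (h : 1 ≤ p.natDegree) : p ≠ 0 := by
  rintro rfl; simp at h

theorem LT'_of_LT {v : E[X] × E[X]} (h : LT v) : LT' v :=
  ⟨ne_zero_of_natDegree_pos (by have := h.2; omega), h.2.le⟩

theorem UT'_of_UT {v : E[X] × E[X]} (h : UT v) : UT' v :=
  ⟨ne_zero_of_natDegree_pos (by have := h.2; omega), h.2.le⟩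

theorem UT_Uv (s : E[X]) (hs : 1 ≤ s.natDegree) (v : E[X] × E[X]) (hv : LT' v) : UT (Uv s v) := by
  obtain ⟨h2, hle⟩ := hv
  have hs0 : s ≠ 0 := ne_zero_of_natDegree_pos hs
  have hdeg : (s * v.2).natDegree = s.natDegree + v.2.natDegree := natDegree_mul hs0 h2
  refine ⟨h2, ?_⟩
  show v.2.natDegree < (v.1 + s * v.2).natDegree
  rw [natDegree_add_eq_right_of_natDegree_lt (by omega), hdeg]; omega

theorem LT_Lv (s : E[X]) (hs : 1 ≤ s.natDegree) (v : E[X] × E[X]) (hv : UT' v) : LT (Lv s v) := by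
  obtain ⟨h1, hle⟩ := hv
  have hs0 : s ≠ 0 := ne_zero_of_natDegree_pos hs
  have hdeg : (s * v.1).natDegree = s.natDegree + v.1.natDegree := natDegree_mul hs0 h1
  refine ⟨h1, ?_⟩
  show v.1.natDegree < (v.2 + s * v.1).natDegree
  rw [natDegree_add_eq_right_of_natDegree_lt (by omega), hdeg]; omega

theorem Uv_Uv (s t : E[X]) (v : E[X] × E[X]) : Uv s (Uv t v) = Uv (t + s) v := by
  simp only [Uv, Prod.mk.injEq, and_true]; ring

theorem Lv_Lv (s t : E[X]) (v : E[X] × E[X]) : Lv s (Lv t v) = Lv (t + s) v := by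
  simp only [Lv, Prod.mk.injEq, true_and]; ring

noncomputable def sP (a : ℕ) : E[X] := X ^ (a + 1)

theorem sP_natDegree (a : ℕ) : (sP a : E[X]).natDegree = a + 1 := natDegree_X_pow _

theorem sP_neg_natDegree (a : ℕ) : (-sP a : E[X]).natDegree = a + 1 := by
  rw [natDegree_neg, sP_natDegree]

theorem sP_sub (a c : ℕ) (h : a ≠ c) : 1 ≤ (sP a - sP c : E[X]).natDegree := by
  rcases Nat.lt_or_gt_of_ne h with h1 | h1
  · rw [natDegree_sub_eq_right_of_natDegree_lt (by rw [sP_natDegree, sP_natDegree]; omega),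
      sP_natDegree]; omega
  · rw [natDegree_sub_eq_left_of_natDegree_lt (by rw [sP_natDegree, sP_natDegree]; omega),
      sP_natDegree]; omega

noncomputable def act (x : ℕ × Bool) (v : E[X] × E[X]) : E[X] × E[X] :=
  bif x.2 then Uv (sP x.1) (Lv (sP x.1) v) else Lv (-sP x.1) (Uv (-sP x.1) v)

theorem act_true (a : ℕ) (v : E[X] × E[X]) : act (a, true) v = Uv (sP a) (Lv (sP a) v) := rfl
theorem act_false (a : ℕ) (v : E[X] × E[X]) :
    act (a, false) v = Lv (-sP a) (Uv (-sP a) v) := rfl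

def Good (x : ℕ × Bool) (v : E[X] × E[X]) : Prop :=
  ∃ u, if x.2 = true then (LT u ∧ v = Uv (sP x.1) u) else (UT u ∧ v = Lv (-sP x.1) u)

theorem one_one_LT' : LT' ((1, 1) : E[X] × E[X]) := ⟨one_ne_zero, le_refl _⟩
theorem one_one_UT' : UT' ((1, 1) : E[X] × E[X]) := ⟨one_ne_zero, le_refl _⟩

theorem good_base (x : ℕ × Bool) : Good x (act x ((1, 1) : E[X] × E[X])) := by
  obtain ⟨a, b⟩ := x
  cases b
  · refine ⟨Uv (-sP a) (1, 1), ?_⟩
    simp only [Bool.false_eq_true, if_false]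
    exact ⟨UT_Uv _ (by rw [sP_neg_natDegree]; omega) _ one_one_LT', rfl⟩
  · refine ⟨Lv (sP a) (1, 1), ?_⟩
    simp only [if_true]
    exact ⟨LT_Lv _ (by rw [sP_natDegree]; omega) _ one_one_UT', rfl⟩

theorem good_step (x y : ℕ × Bool) (h : x.1 = y.1 → x.2 = y.2) (v : E[X] × E[X])
    (hv : Good y v) : Good x (act x v) := by
  obtain ⟨a, b⟩ := x
  obtain ⟨c, d⟩ := y
  obtain ⟨u, hu⟩ := hv
  cases b <;> cases d
  · -- x = (a,false), y = (c,false)
    simp only [Bool.false_eq_true, if_false] at hu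
    obtain ⟨hu1, rfl⟩ := hu
    refine ⟨Uv (-sP a) (Lv (-sP c) u), ?_⟩
    simp only [Bool.false_eq_true, if_false]
    refine ⟨UT_Uv _ (by rw [sP_neg_natDegree]; omega) _ (LT'_of_LT ?_), rfl⟩
    exact LT_Lv _ (by rw [sP_neg_natDegree]; omega) _ (UT'_of_UT hu1)
  · -- x = (a,false), y = (c,true)
    simp only [if_true] at hu
    obtain ⟨hu1, rfl⟩ := hu
    have hac : a ≠ c := by
      intro hac
      have := h hac
      simp at this
    refine ⟨Uv (sP c - sP a) u, ?_⟩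
    simp only [Bool.false_eq_true, if_false]
    refine ⟨UT_Uv _ (sP_sub c a (Ne.symm hac)) _ (LT'_of_LT hu1), ?_⟩
    rw [act_false, Uv_Uv, sub_eq_add_neg]
  · -- x = (a,true), y = (c,false)
    simp only [Bool.false_eq_true, if_false] at hu
    obtain ⟨hu1, rfl⟩ := hu
    have hac : a ≠ c := by
      intro hac
      have := h hac
      simp at this
    refine ⟨Lv (sP a - sP c) u, ?_⟩
    simp only [if_true]
    refine ⟨LT_Lv _ (sP_sub a c hac) _ (UT'_of_UT hu1), ?_⟩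
    rw [act_true, Lv_Lv, sub_eq_neg_add]
  · -- x = (a,true), y = (c,true)
    simp only [if_true] at hu
    obtain ⟨hu1, rfl⟩ := hu
    refine ⟨Lv (sP a) (Uv (sP c) u), ?_⟩
    simp only [if_true]
    refine ⟨LT_Lv _ (by rw [sP_natDegree]; omega) _ (UT'_of_UT ?_), rfl⟩
    exact UT_Uv _ (by rw [sP_natDegree]; omega) _ (LT'_of_LT hu1)

theorem good_ne (x : ℕ × Bool) (v : E[X] × E[X]) (hv : Good x v) : v.1 ≠ v.2 := by
  obtain ⟨a, b⟩ := x
  obtain ⟨u, hu⟩ := hv
  cases b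
  · simp only [Bool.false_eq_true, if_false] at hu
    obtain ⟨hu1, rfl⟩ := hu
    have h := LT_Lv (-sP a) (by rw [sP_neg_natDegree]; omega) u (UT'_of_UT hu1)
    intro heq
    have := h.2
    rw [heq] at this
    exact lt_irrefl _ this
  · simp only [if_true] at hu
    obtain ⟨hu1, rfl⟩ := hu
    have h := UT_Uv (sP a) (by rw [sP_natDegree]; omega) u (LT'_of_LT hu1)
    intro heq
    have := h.2
    rw [heq] at this
    exact lt_irrefl _ this

noncomputable def run (L : List (ℕ × Bool)) : E[X] × E[X] := L.foldr act (1, 1)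

theorem run_nil : run ([] : List (ℕ × Bool)) = ((1, 1) : E[X] × E[X]) := rfl
theorem run_cons (x : ℕ × Bool) (L : List (ℕ × Bool)) :
    (run (x :: L) : E[X] × E[X]) = act x (run L) := rfl

theorem good_run (L : List (ℕ × Bool)) : ∀ (x : ℕ × Bool), FreeGroup.IsReduced (x :: L) →
    Good x (run (x :: L) : E[X] × E[X]) := by
  induction L with
  | nil => intro x _; exact good_base x
  | cons y L ih =>
    intro x hx
    rw [FreeGroup.IsReduced, List.isChain_cons_cons] at hx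
    rw [run_cons]
    exact good_step x y hx.1 _ (ih y hx.2)

def Dw (L : List (ℕ × Bool)) : ℕ := (L.map fun x => 2 * (x.1 + 1)).sum

theorem Uv_deg (s : E[X]) (d B : ℕ) (hs : s.natDegree ≤ d) (v : E[X] × E[X])
    (h1 : v.1.natDegree ≤ B) (h2 : v.2.natDegree ≤ B) :
    (Uv s v).1.natDegree ≤ B + d ∧ (Uv s v).2.natDegree ≤ B + d := by
  refine ⟨?_, le_trans h2 (Nat.le_add_right _ _)⟩
  show (v.1 + s * v.2).natDegree ≤ B + d
  refine natDegree_add_le_of_degree_le (le_trans h1 (Nat.le_add_right _ _)) ?_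
  rw [add_comm B d]
  exact natDegree_mul_le_of_le hs h2

theorem Lv_deg (s : E[X]) (d B : ℕ) (hs : s.natDegree ≤ d) (v : E[X] × E[X])
    (h1 : v.1.natDegree ≤ B) (h2 : v.2.natDegree ≤ B) :
    (Lv s v).1.natDegree ≤ B + d ∧ (Lv s v).2.natDegree ≤ B + d := by
  refine ⟨le_trans h1 (Nat.le_add_right _ _), ?_⟩
  show (v.2 + s * v.1).natDegree ≤ B + d
  refine natDegree_add_le_of_degree_le (le_trans h2 (Nat.le_add_right _ _)) ?_
  rw [add_comm B d]
  exact natDegree_mul_le_of_le hs h1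

theorem act_deg (x : ℕ × Bool) (B : ℕ) (v : E[X] × E[X])
    (h1 : v.1.natDegree ≤ B) (h2 : v.2.natDegree ≤ B) :
    (act x v).1.natDegree ≤ B + 2 * (x.1 + 1) ∧ (act x v).2.natDegree ≤ B + 2 * (x.1 + 1) := by
  obtain ⟨a, b⟩ := x
  cases b
  · rw [act_false]
    have h3 := Uv_deg (-sP a) (a + 1) B (sP_neg_natDegree a).le v h1 h2
    have h4 := Lv_deg (-sP a) (a + 1) (B + (a + 1)) (sP_neg_natDegree a).le _ h3.1 h3.2
    have e : B + (a + 1) + (a + 1) = B + 2 * (a + 1) := by ring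
    rw [e] at h4
    exact h4
  · rw [act_true]
    have h3 := Lv_deg (sP a) (a + 1) B (sP_natDegree a).le v h1 h2
    have h4 := Uv_deg (sP a) (a + 1) (B + (a + 1)) (sP_natDegree a).le _ h3.1 h3.2
    have e : B + (a + 1) + (a + 1) = B + 2 * (a + 1) := by ring
    rw [e] at h4
    exact h4

theorem run_deg (L : List (ℕ × Bool)) :
    (run L : E[X] × E[X]).1.natDegree ≤ Dw L ∧ (run L : E[X] × E[X]).2.natDegree ≤ Dw L := by
  induction L with
  | nil => simp [run_nil, Dw]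
  | cons x L ih =>
    rw [run_cons]
    have h := act_deg x (Dw L) (run L) ih.1 ih.2
    have e : Dw (x :: L) = Dw L + 2 * (x.1 + 1) := by
      simp [Dw, add_comm]
    rw [e]
    exact h

end Poly

section Eval

variable {E : Type*} [Field E]

def UE (c : E) : Matrix.SpecialLinearGroup (Fin 2) E :=
  ⟨!![1, c; 0, 1], by simp [Matrix.det_fin_two_of]⟩

def LE (c : E) : Matrix.SpecialLinearGroup (Fin 2) E :=
  ⟨!![1, 0; c, 1], by simp [Matrix.det_fin_two_of]⟩

theorem UE_coe (c : E) : (UE c).1 = !![1, c; 0, 1] := rfl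
theorem LE_coe (c : E) : (LE c).1 = !![1, 0; c, 1] := rfl

def XX (τ : E) (a : ℕ) : Matrix.SpecialLinearGroup (Fin 2) E :=
  UE (τ ^ (a + 1)) * LE (τ ^ (a + 1))

theorem XX_def (τ : E) (a : ℕ) : XX τ a = UE (τ ^ (a + 1)) * LE (τ ^ (a + 1)) := rfl

theorem XX_coe (τ : E) (a : ℕ) :
    (XX τ a).1 = !![1 + τ ^ (a + 1) * τ ^ (a + 1), τ ^ (a + 1); τ ^ (a + 1), 1] := by
  rw [XX, Matrix.SpecialLinearGroup.coe_mul, UE_coe, LE_coe]
  simp [Matrix.mul_fin_two]

theorem XX_inv_coe (τ : E) (a : ℕ) :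
    ((XX τ a)⁻¹).1 = !![1, -τ ^ (a + 1); -τ ^ (a + 1), 1 + τ ^ (a + 1) * τ ^ (a + 1)] := by
  rw [Matrix.SpecialLinearGroup.coe_inv, XX_coe, Matrix.adjugate_fin_two_of]

def gen (τ : E) (x : ℕ × Bool) : Matrix.SpecialLinearGroup (Fin 2) E :=
  bif x.2 then XX τ x.1 else (XX τ x.1)⁻¹

theorem gen_true (τ : E) (a : ℕ) : gen τ (a, true) = XX τ a := rfl
theorem gen_false (τ : E) (a : ℕ) : gen τ (a, false) = (XX τ a)⁻¹ := rfl

theorem gen_mulVec (τ : E) (x : ℕ × Bool) (v : E[X] × E[X]) :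
    (gen τ x).1 *ᵥ ![v.1.eval τ, v.2.eval τ] =
      ![(act x v).1.eval τ, (act x v).2.eval τ] := by
  obtain ⟨a, b⟩ := x
  cases b
  · rw [gen_false, XX_inv_coe, act_false]
    ext i
    fin_cases i <;> simp [Uv, Lv, sP, Matrix.mulVec, dotProduct, Fin.sum_univ_two] <;> ring
  · rw [gen_true, XX_coe, act_true]
    ext i
    fin_cases i <;> simp [Uv, Lv, sP, Matrix.mulVec, dotProduct, Fin.sum_univ_two] <;> ring

theorem prod_mulVec (τ : E) (L : List (ℕ × Bool)) :
    ((L.map (gen τ)).prod).1 *ᵥ ![1, 1] = ![(run L).1.eval τ, (run L).2.eval τ] := by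
  induction L with
  | nil => simp [run_nil]
  | cons x L ih =>
    rw [List.map_cons, List.prod_cons, Matrix.SpecialLinearGroup.coe_mul, ← Matrix.mulVec_mulVec,
      ih, gen_mulVec, run_cons]

theorem comm_UL (M : Matrix.SpecialLinearGroup (Fin 2) E) (h1 : M * UE 1 = UE 1 * M)
    (h2 : M * LE 1 = LE 1 * M) : (M.1 *ᵥ ![1, 1]) 0 = (M.1 *ᵥ ![1, 1]) 1 := by
  have e1 := congrArg (fun A : Matrix.SpecialLinearGroup (Fin 2) E => A.1 0 0) h1
  have e2 := congrArg (fun A : Matrix.SpecialLinearGroup (Fin 2) E => A.1 0 1) h1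
  have e3 := congrArg (fun A : Matrix.SpecialLinearGroup (Fin 2) E => A.1 0 0) h2
  simp only [Matrix.SpecialLinearGroup.coe_mul, UE_coe, LE_coe, Matrix.mul_apply,
    Fin.sum_univ_two] at e1 e2 e3
  simp at e1 e2 e3
  simp only [Matrix.mulVec, dotProduct, Fin.sum_univ_two]
  simp
  rw [e1, e3] at *
  linear_combination e2

end Eval

/-- `D` is a degree bound for the word `w`: any set of more than `D` parameters contains a
parameter at which the word, evaluated on the generic matrices, is not a scalar. -/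
def SProp (w : FreeGroup ℕ) (D : ℕ) : Prop :=
  ∀ (E : Type) [Field E] (S : Finset E), D < S.card → ∃ τ ∈ S,
    ((FreeGroup.lift (XX τ) w).1 *ᵥ ![1, 1]) 0 ≠ ((FreeGroup.lift (XX τ) w).1 *ᵥ ![1, 1]) 1

theorem S_gen (w : FreeGroup ℕ) (hw : w ≠ 1) : ∃ D : ℕ, SProp w D := by
  have hL : w.toWord ≠ [] := fun h => hw (FreeGroup.toWord_eq_nil_iff.mp h)
  obtain ⟨x, L, hxL⟩ := List.exists_cons_of_ne_nil hL
  have hred : FreeGroup.IsReduced (x :: L) := hxL ▸ FreeGroup.isReduced_toWord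
  refine ⟨Dw (x :: L), ?_⟩
  intro E _ S hS
  have hne : (run (x :: L) : E[X] × E[X]).1 - (run (x :: L) : E[X] × E[X]).2 ≠ 0 :=
    sub_ne_zero.mpr (good_ne x _ (good_run L x hred))
  have hdeg : ((run (x :: L) : E[X] × E[X]).1 - (run (x :: L) : E[X] × E[X]).2).natDegree
      ≤ Dw (x :: L) := by
    have := natDegree_sub_le_of_le (run_deg (E := E) (x :: L)).1 (run_deg (E := E) (x :: L)).2
    simpa using this
  by_contra hcon
  push Not at hcon
  apply hne
  apply eq_zero_of_natDegree_lt_card_of_eval_eq_zero' _ S _ (lt_of_le_of_lt hdeg hS)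
  intro τ hτ
  have h1 := hcon τ hτ
  have h2 : FreeGroup.lift (XX τ) w = ((x :: L).map (gen τ)).prod := by
    conv_lhs => rw [← FreeGroup.mk_toWord (x := w), hxL]
    rw [FreeGroup.lift_mk]; rfl
  rw [h2, prod_mulVec] at h1
  simp only [Matrix.cons_val_zero, Matrix.cons_val_one] at h1
  rw [eval_sub, h1, sub_self]

theorem not_CL_criterion (w : FreeGroup ℕ) {E : Type} [Field E] (τ : E)
    (hτ : ((FreeGroup.lift (XX τ) w).1 *ᵥ ![1, 1]) 0 ≠
      ((FreeGroup.lift (XX τ) w).1 *ᵥ ![1, 1]) 1)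
    {Ω Ω' : Type*} [Group Ω] [Group Ω'] (j : Ω →* Ω')
    (Ψ : Matrix.SpecialLinearGroup (Fin 2) E →* Ω') (hΨ : Function.Injective Ψ)
    (hU : ∀ k : ℕ, Ψ (UE (τ ^ k)) ∈ j.range) (hL : ∀ k : ℕ, Ψ (LE (τ ^ k)) ∈ j.range) :
    ¬ CL w Ω := by
  intro hCL
  choose fU hfU using hU
  choose fL hfL using hL
  have hj : j ∘ (fun a => fU (a + 1) * fL (a + 1)) = Ψ ∘ XX τ := by
    funext a
    simp [XX_def, hfU, hfL]
  have hz := hCL (fun a => fU (a + 1) * fL (a + 1))
  rw [Subgroup.mem_center_iff] at hz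
  have hjz : j (FreeGroup.lift (fun a => fU (a + 1) * fL (a + 1)) w)
      = Ψ (FreeGroup.lift (XX τ) w) := by
    rw [lift_comp, hj, ← lift_comp]
  apply hτ
  apply comm_UL
  · apply hΨ
    have := congrArg j (hz (fU 0))
    rw [map_mul, map_mul, hjz, hfU, pow_zero] at this
    rw [map_mul, map_mul]
    exact this.symm
  · apply hΨ
    have := congrArg j (hz (fL 0))
    rw [map_mul, map_mul, hjz, hfL, pow_zero] at this
    rw [map_mul, map_mul]
    exact this.symm

end Cfsg.Agent.Helper14.Law
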