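import Mathlib
import Cfsg.Prelude.Def_Classical
import Cfsg.Agent.Helper14.LawA

set_option autoImplicit false

namespace Cfsg.Agent.Helper14.Law

open Matrix

section Perfect

variable {P Q : Type*} [Group P] [Group Q]

theorem perfect_map_comm {A : Type*} [CommGroup A] (hP : commutator P = ⊤) (ψ : P →* A) (p : P) :
    ψ p = 1 := by
  have h := Abelianization.commutator_subset_ker ψ
  rw [hP] at h
  exact h (Subgroup.mem_top p)

theorem perfect_map_mem (hP : commutator P = ⊤) (φ : P →* Q) (p : P) : φ p ∈ commutator Q := by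
  have h1 : p ∈ commutator P := hP ▸ Subgroup.mem_top p
  rw [commutator_def] at h1 ⊢
  have h2 : φ p ∈ Subgroup.map φ ⁅(⊤ : Subgroup P), ⊤⁆ := Subgroup.mem_map_of_mem φ h1
  rw [Subgroup.map_commutator] at h2
  exact Subgroup.commutator_mono le_top le_top h2

def toComm (hP : commutator P = ⊤) (φ : P →* Q) : P →* commutator Q :=
  φ.codRestrict (commutator Q) (perfect_map_mem hP φ)

theorem toComm_injective (hP : commutator P = ⊤) (φ : P →* Q) (hφ : Function.Injective φ) :
    Function.Injective (toComm hP φ) :=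
  (MonoidHom.injective_codRestrict _ _ _).mpr hφ

end Perfect

section SL

variable {P : Type*} [Group P] {n : Type*} [Fintype n] [DecidableEq n] {F : Type*} [Field F]

def mkSL (A : Matrix n n F) (h : A.det = 1) : Matrix.SpecialLinearGroup n F := ⟨A, h⟩

theorem mkSL_coe (A : Matrix n n F) (h : A.det = 1) : (mkSL A h).1 = A := rfl

def toSL (ρ : P →* GL n F) (h : ∀ p, (ρ p : Matrix n n F).det = 1) :
    P →* Matrix.SpecialLinearGroup n F where
  toFun p := mkSL (ρ p : Matrix n n F) (h p)
  map_one' := by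
    apply Subtype.ext
    rw [mkSL_coe]; simp
  map_mul' a b := by
    apply Subtype.ext
    rw [Matrix.SpecialLinearGroup.coe_mul, mkSL_coe, mkSL_coe, mkSL_coe]; simp

theorem toSL_coe (ρ : P →* GL n F) (h : ∀ p, (ρ p : Matrix n n F).det = 1) (p : P) :
    (toSL ρ h p).1 = (ρ p : Matrix n n F) := rfl

theorem toSL_injective (ρ : P →* GL n F) (h : ∀ p, (ρ p : Matrix n n F).det = 1)
    (hρ : Function.Injective ρ) : Function.Injective (toSL ρ h) := by
  intro a b hab
  apply hρ
  apply Units.ext
  exact congrArg Subtype.val hab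

theorem perfect_det (hP : commutator P = ⊤) (ρ : P →* GL n F) (p : P) :
    (ρ p : Matrix n n F).det = 1 := by
  have h := perfect_map_comm hP (Matrix.GeneralLinearGroup.det.comp ρ) p
  have h2 := congrArg Units.val h
  simpa [Matrix.GeneralLinearGroup.val_det_apply] using h2

end SL

section Perm

variable (n : Type*) [Fintype n] [DecidableEq n] (F : Type*) [Field F]

def permMat : Equiv.Perm n →* Matrix n n F where
  toFun σ := Equiv.Perm.permMatrix F σ⁻¹
  map_one' := by simp
  map_mul' σ τ := by rw [_root_.mul_inv_rev, Matrix.permMatrix_mul]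

def permGL : Equiv.Perm n →* GL n F := (permMat n F).toHomUnits

theorem permGL_coe (σ : Equiv.Perm n) :
    (permGL n F σ : Matrix n n F) = Equiv.Perm.permMatrix F σ⁻¹ := rfl

theorem permGL_mulVec (σ : Equiv.Perm n) (v : n → F) :
    (permGL n F σ : Matrix n n F) *ᵥ v = v ∘ (σ⁻¹ : Equiv.Perm n) := by
  rw [permGL_coe, Matrix.permMatrix_mulVec]

theorem permGL_injective : Function.Injective (permGL n F) := by
  intro σ τ h
  have h1 : ∀ v : n → F, v ∘ (σ⁻¹ : Equiv.Perm n) = v ∘ (τ⁻¹ : Equiv.Perm n) := by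
    intro v; rw [← permGL_mulVec, ← permGL_mulVec, h]
  have h2 : σ⁻¹ = τ⁻¹ := by
    ext k
    have := congrFun (h1 (fun x => if x = σ⁻¹ k then 1 else 0)) k
    simp only [Function.comp_apply, if_true] at this
    by_contra hne
    rw [if_neg (fun h => hne h.symm)] at this
    exact one_ne_zero this
  exact inv_injective h2

end Perm

section Blocks

variable (α β F : Type*) [Fintype α] [DecidableEq α] [Fintype β] [DecidableEq β] [CommRing F]

def blkL : Matrix α α F →* Matrix (α ⊕ β) (α ⊕ β) F where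
  toFun A := Matrix.fromBlocks A 0 0 1
  map_one' := Matrix.fromBlocks_one
  map_mul' A B := by simp [Matrix.fromBlocks_multiply]

def blkR : Matrix β β F →* Matrix (α ⊕ β) (α ⊕ β) F where
  toFun A := Matrix.fromBlocks 1 0 0 A
  map_one' := Matrix.fromBlocks_one
  map_mul' A B := by simp [Matrix.fromBlocks_multiply]

theorem blkL_apply (A : Matrix α α F) : blkL α β F A = Matrix.fromBlocks A 0 0 1 := rfl
theorem blkR_apply (A : Matrix β β F) : blkR α β F A = Matrix.fromBlocks 1 0 0 A := rfl

theorem blkL_injective : Function.Injective (blkL α β F) := by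
  intro A B h
  have := congrArg Matrix.toBlocks₁₁ h
  simpa only [blkL_apply, Matrix.toBlocks_fromBlocks₁₁] using this

theorem blkR_injective : Function.Injective (blkR α β F) := by
  intro A B h
  have := congrArg Matrix.toBlocks₂₂ h
  simpa only [blkR_apply, Matrix.toBlocks_fromBlocks₂₂] using this

theorem blkL_mulVec (A : Matrix α α F) (v : α ⊕ β → F) :
    blkL α β F A *ᵥ v = Sum.elim (A *ᵥ (v ∘ Sum.inl)) (v ∘ Sum.inr) := by
  rw [blkL_apply, Matrix.fromBlocks_mulVec]; simp

theorem blkR_mulVec (A : Matrix β β F) (v : α ⊕ β → F) :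
    blkR α β F A *ᵥ v = Sum.elim (v ∘ Sum.inl) (A *ᵥ (v ∘ Sum.inr)) := by
  rw [blkR_apply, Matrix.fromBlocks_mulVec]; simp

variable {α β}

def rxHom (e : α ≃ β) : Matrix α α F →* Matrix β β F where
  toFun A := A.submatrix e.symm e.symm
  map_one' := Matrix.submatrix_one_equiv e.symm
  map_mul' A B := (Matrix.submatrix_mul_equiv A B e.symm e.symm e.symm).symm

theorem rxHom_apply (e : α ≃ β) (A : Matrix α α F) :
    rxHom F e A = A.submatrix e.symm e.symm := rfl

theorem rxHom_injective (e : α ≃ β) : Function.Injective (rxHom F e) :=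
  (Matrix.reindex e e).injective

end Blocks

section D

variable (n : Type*) [Fintype n] [DecidableEq n] (F : Type*) [Field F]

def Dhom : GL n F →* Matrix (n ⊕ n) (n ⊕ n) F where
  toFun g := Matrix.fromBlocks (g : Matrix n n F) 0 0 ((g⁻¹ : GL n F) : Matrix n n F)ᵀ
  map_one' := by simp [Matrix.fromBlocks_one]
  map_mul' g h := by simp [Matrix.fromBlocks_multiply, Matrix.transpose_mul]

theorem Dhom_apply (g : GL n F) : Dhom n F g =
    Matrix.fromBlocks (g : Matrix n n F) 0 0 ((g⁻¹ : GL n F) : Matrix n n F)ᵀ := rfl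

theorem Dhom_injective : Function.Injective (Dhom n F) := by
  intro g h hgh
  have := congrArg Matrix.toBlocks₁₁ hgh
  simp only [Dhom_apply, Matrix.toBlocks_fromBlocks₁₁] at this
  exact Units.ext this

theorem Dhom_symplectic (g : GL n F) : Dhom n F g ∈ Matrix.symplecticGroup n F := by
  rw [SymplecticGroup.mem_iff, Dhom_apply, Matrix.J, Matrix.fromBlocks_multiply,
    Matrix.fromBlocks_transpose, Matrix.fromBlocks_multiply]
  have h1 : (g : Matrix n n F) * ((g⁻¹ : GL n F) : Matrix n n F) = 1 := by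
    rw [← Units.val_mul, mul_inv_cancel, Units.val_one]
  have h2 : ((g⁻¹ : GL n F) : Matrix n n F)ᵀ * (g : Matrix n n F)ᵀ = 1 := by
    rw [← Matrix.transpose_mul, h1, Matrix.transpose_one]
  simp only [Matrix.mul_zero, Matrix.zero_mul, Matrix.mul_one, Matrix.mul_neg, add_zero, zero_add,
    Matrix.neg_mul, Matrix.transpose_zero, Matrix.transpose_transpose, h1, h2, neg_zero]

theorem Dhom_quad (g : GL n F) (v : n ⊕ n → F) :
    ((Dhom n F g *ᵥ v) ∘ Sum.inl) ⬝ᵥ ((Dhom n F g *ᵥ v) ∘ Sum.inr)
      = (v ∘ Sum.inl) ⬝ᵥ (v ∘ Sum.inr) := by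
  rw [Dhom_apply, Matrix.fromBlocks_mulVec]
  simp only [Sum.elim_comp_inl, Sum.elim_comp_inr, Matrix.zero_mulVec, add_zero, zero_add]
  rw [Matrix.dotProduct_mulVec, Matrix.vecMul_transpose, Matrix.mulVec_mulVec, ← Units.val_mul,
    inv_mul_cancel, Units.val_one, Matrix.one_mulVec]

end D

section Iso

variable {F : Type*} [Field F] {ι : Type} [Fintype ι] [DecidableEq ι] {G : Type*} [Group G]

def isoOf (Q : (ι → F) → F) (δ : G →* Matrix ι ι F) (hδ : ∀ g v, Q (δ g *ᵥ v) = Q v) :
    G →* isometryGroup F Q :=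
  δ.toHomUnits.codRestrict (isometryGroup F Q) (fun g u _ => hδ g u)

theorem isoOf_injective (Q : (ι → F) → F) (δ : G →* Matrix ι ι F)
    (hδ : ∀ g v, Q (δ g *ᵥ v) = Q v) (hinj : Function.Injective δ) :
    Function.Injective (isoOf Q δ hδ) := by
  apply (MonoidHom.injective_codRestrict _ _ _).mpr
  intro a b hab
  apply hinj
  have := congrArg Units.val hab
  simpa only [MonoidHom.coe_toHomUnits] using this

end Iso

end Cfsg.Agent.Helper14.Law
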