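import Mathlib
import Cfsg.Prelude.Def_Classical
import Cfsg.Agent.Helper14.LawB

set_option autoImplicit false

namespace Cfsg.Agent.Helper14.Law

open Matrix

section Hub

variable {P : Type*} [Group P] {F : Type*} [Field F] {m : ℕ}

theorem CL_sl (w : FreeGroup ℕ) (hP : commutator P = ⊤) (ρ : P →* GL (Fin m) F)
    (hρ : Function.Injective ρ) (h : CL w (Matrix.SpecialLinearGroup (Fin m) F)) : CL w P :=
  CL_of_injective w (toSL ρ (perfect_det hP ρ)) (toSL_injective _ _ hρ) h

theorem CL_sp (w : FreeGroup ℕ) (ρ : P →* GL (Fin m) F)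
    (hρ : Function.Injective ρ) (h : CL w (Matrix.symplecticGroup (Fin m) F)) : CL w P :=
  CL_of_injective w
    (((Dhom (Fin m) F).comp ρ).codRestrict (Matrix.symplecticGroup (Fin m) F)
      (fun p => Dhom_symplectic _ _ _))
    ((MonoidHom.injective_codRestrict _ _ _).mpr ((Dhom_injective _ _).comp hρ)) h

theorem quadPlus_eq (v : Fin m ⊕ Fin m → F) :
    quadFormPlus m F v = (v ∘ Sum.inl) ⬝ᵥ (v ∘ Sum.inr) := rfl

theorem plus_inv (g : GL (Fin m) F) (v : Fin m ⊕ Fin m → F) :
    quadFormPlus m F (Dhom (Fin m) F g *ᵥ v) = quadFormPlus m F v := by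
  rw [quadPlus_eq, quadPlus_eq]; exact Dhom_quad _ _ g v

theorem odd_inv (g : GL (Fin m) F) (v : Unit ⊕ (Fin m ⊕ Fin m) → F) :
    quadFormOdd m F (blkR Unit (Fin m ⊕ Fin m) F (Dhom (Fin m) F g) *ᵥ v)
      = quadFormOdd m F v := by
  have e : ∀ u : Unit ⊕ (Fin m ⊕ Fin m) → F,
      quadFormOdd m F u = u (Sum.inl ()) ^ 2 + quadFormPlus m F (u ∘ Sum.inr) := fun u => rfl
  rw [e, e, blkR_mulVec, Sum.elim_comp_inr, plus_inv]; rfl

theorem minus_inv (a b : F) (g : GL (Fin m) F) (v : (Fin m ⊕ Fin m) ⊕ Fin 2 → F) :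
    quadFormMinus m F a b (blkL (Fin m ⊕ Fin m) (Fin 2) F (Dhom (Fin m) F g) *ᵥ v)
      = quadFormMinus m F a b v := by
  have e : ∀ u : (Fin m ⊕ Fin m) ⊕ Fin 2 → F, quadFormMinus m F a b u =
      quadFormPlus m F (u ∘ Sum.inl) + (u (.inr 0) ^ 2 + a * u (.inr 0) * u (.inr 1)
        + b * u (.inr 1) ^ 2) := fun u => rfl
  rw [e, e, blkL_mulVec, Sum.elim_comp_inl, plus_inv]; rfl

theorem CL_plus (w : FreeGroup ℕ) (hP : commutator P = ⊤) (ρ : P →* GL (Fin m) F)
    (hρ : Function.Injective ρ) (h : CL w (Omega F (quadFormPlus m F))) : CL w P :=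
  CL_of_injective w
    (toComm hP (isoOf (quadFormPlus m F) ((Dhom (Fin m) F).comp ρ)
      (fun p v => plus_inv (ρ p) v)))
    (toComm_injective hP _ (isoOf_injective _ _ _ ((Dhom_injective _ _).comp hρ))) h

theorem CL_odd (w : FreeGroup ℕ) (hP : commutator P = ⊤) (ρ : P →* GL (Fin m) F)
    (hρ : Function.Injective ρ) (h : CL w (Omega F (quadFormOdd m F))) : CL w P :=
  CL_of_injective w
    (toComm hP (isoOf (quadFormOdd m F)
      ((blkR Unit (Fin m ⊕ Fin m) F).comp ((Dhom (Fin m) F).comp ρ))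
      (fun p v => odd_inv (ρ p) v)))
    (toComm_injective hP _ (isoOf_injective _ _ _
      ((blkR_injective _ _ _).comp ((Dhom_injective _ _).comp hρ)))) h

theorem CL_minus (w : FreeGroup ℕ) (a b : F) (hP : commutator P = ⊤) (ρ : P →* GL (Fin m) F)
    (hρ : Function.Injective ρ) (h : CL w (Omega F (quadFormMinus m F a b))) : CL w P :=
  CL_of_injective w
    (toComm hP (isoOf (quadFormMinus m F a b)
      ((blkL (Fin m ⊕ Fin m) (Fin 2) F).comp ((Dhom (Fin m) F).comp ρ))
      (fun p v => minus_inv a b (ρ p) v)))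
    (toComm_injective hP _ (isoOf_injective _ _ _
      ((blkL_injective _ _ _).comp ((Dhom_injective _ _).comp hρ)))) h

end Hub

section Src2

variable (k : ℕ) (F : Type*) [Field F]

def blk2 : Matrix (Fin 2) (Fin 2) F →* Matrix (Fin (2 + k)) (Fin (2 + k)) F :=
  (rxHom F finSumFinEquiv).comp (blkL (Fin 2) (Fin k) F)

theorem blk2_apply (A : Matrix (Fin 2) (Fin 2) F) :
    blk2 k F A = (Matrix.fromBlocks A 0 0 1).submatrix
      (finSumFinEquiv (m := 2) (n := k)).symm (finSumFinEquiv (m := 2) (n := k)).symm := rfl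

theorem blk2_injective : Function.Injective (blk2 k F) :=
  (rxHom_injective F _).comp (blkL_injective _ _ _)

def src2 : Matrix.SpecialLinearGroup (Fin 2) F →* GL (Fin (2 + k)) F :=
  (Units.map (blk2 k F)).comp Matrix.SpecialLinearGroup.toGL

theorem src2_injective : Function.Injective (src2 k F) :=
  (Units.map_injective (blk2_injective k F)).comp Matrix.SpecialLinearGroup.toGL_injective

theorem src2_coe (g : Matrix.SpecialLinearGroup (Fin 2) F) :
    (src2 k F g : Matrix (Fin (2 + k)) (Fin (2 + k)) F) = blk2 k F g.1 := rfl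

end Src2

section Cayley

theorem exists_cayley (H : Type*) [Group H] [Finite H] (m : ℕ) (hm : Nat.card H ≤ m) :
    ∃ φ : H →* Equiv.Perm (Fin m), Function.Injective φ := by
  classical
  haveI := Fintype.ofFinite H
  have hc : Fintype.card H ≤ Fintype.card (Fin m) := by
    rw [Fintype.card_fin, ← Nat.card_eq_fintype_card]; exact hm
  obtain ⟨emb⟩ := Function.Embedding.nonempty_of_card_le hc
  refine ⟨(Equiv.Perm.extendDomainHom (Equiv.ofInjective emb emb.injective)).comp
    (MulAction.toPermHom H H), ?_⟩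
  exact (Equiv.Perm.extendDomainHom_injective _).comp MulAction.toPerm_injective

theorem CL_alt (w : FreeGroup ℕ) {H : Type*} [Group H] [Finite H] (hP : commutator H = ⊤)
    (m : ℕ) (hm : Nat.card H ≤ m) (h : CL w (alternatingGroup (Fin m))) : CL w H := by
  obtain ⟨φ, hφ⟩ := exists_cayley H m hm
  have hmem : ∀ x, φ x ∈ alternatingGroup (Fin m) := fun x =>
    Equiv.Perm.mem_alternatingGroup.mpr (perfect_map_comm hP (Equiv.Perm.sign.comp φ) x)
  exact CL_of_injective w (φ.codRestrict (alternatingGroup (Fin m)) hmem)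
    ((MonoidHom.injective_codRestrict _ _ _).mpr hφ) h

theorem herm_perm (n q : ℕ) (F : Type*) [Field F] (σ : Equiv.Perm (Fin n)) (u v : Fin n → F) :
    hermForm n F q ((permGL (Fin n) F σ : Matrix (Fin n) (Fin n) F) *ᵥ u)
      ((permGL (Fin n) F σ : Matrix (Fin n) (Fin n) F) *ᵥ v) = hermForm n F q u v := by
  rw [permGL_mulVec, permGL_mulVec]
  unfold hermForm
  exact Equiv.sum_comp (σ⁻¹ : Equiv.Perm (Fin n)) (fun i => u i * v i ^ q)

theorem CL_su_perm (w : FreeGroup ℕ) {H : Type*} [Group H] [Finite H] (hP : commutator H = ⊤)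
    (n q : ℕ) (F : Type*) [Field F] (hn : Nat.card H ≤ n) (h : CL w (SU n F q)) : CL w H := by
  obtain ⟨φ, hφ⟩ := exists_cayley H n hn
  have hρ : Function.Injective ((permGL (Fin n) F).comp φ) := (permGL_injective _ _).comp hφ
  have hmem : ∀ x, toSL ((permGL (Fin n) F).comp φ) (perfect_det hP _) x ∈ SU n F q := by
    intro x u v
    exact herm_perm n q F (φ x) u v
  exact CL_of_injective w
    ((toSL ((permGL (Fin n) F).comp φ) (perfect_det hP _)).codRestrict (SU n F q) hmem)
    ((MonoidHom.injective_codRestrict _ _ _).mpr (toSL_injective _ _ hρ)) h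

end Cayley

end Cfsg.Agent.Helper14.Law
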