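import Mathlib
import Cfsg.Prelude.Def_Classical
import Cfsg.Agent.Helper14.LawC

set_option autoImplicit false

namespace Cfsg.Agent.Helper14.Law

open Matrix

section FF

variable (F : Type*) [Field F] [Fintype F]

theorem exists_frob (q : ℕ) (hq : Fintype.card F = q ^ 2) :
    ∃ σ : F →+* F, ∀ x, σ x = x ^ q := by
  obtain ⟨p, hp⟩ := CharP.exists F
  obtain ⟨n, hpr, hcard⟩ := FiniteField.card F p
  haveI : ExpChar F p := ExpChar.prime hpr
  have hdvd : q ∣ p ^ (n : ℕ) := by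
    rw [← hcard, hq]; exact dvd_pow_self q (by norm_num)
  obtain ⟨j, _, hj⟩ := (Nat.dvd_prime_pow hpr).mp hdvd
  refine ⟨iterateFrobenius F p j, fun x => ?_⟩
  rw [iterateFrobenius_def, hj]

theorem two_le_q (q : ℕ) (hq : Fintype.card F = q ^ 2) : 2 ≤ q := by
  have h1 : 1 < Fintype.card F := Fintype.one_lt_card
  rw [hq] at h1
  by_contra hlt
  push Not at hlt
  interval_cases q <;> simp at h1

theorem exists_gen (q : ℕ) (hq : Fintype.card F = q ^ 2) :
    ∃ g : Fˣ, orderOf g = (q - 1) * (q + 1) ∧ ∀ y : Fˣ, y ∈ Submonoid.powers g := by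
  classical
  obtain ⟨g, hg⟩ := IsCyclic.exists_monoid_generator (α := Fˣ)
  refine ⟨g, ?_, hg⟩
  rw [orderOf_eq_card_of_forall_mem_powers hg, Nat.card_eq_fintype_card, Fintype.card_units, hq]
  have h2 := two_le_q F q hq
  obtain ⟨r, rfl⟩ : ∃ r, q = r + 1 := ⟨q - 1, by omega⟩
  have : (r + 1) ^ 2 = r * (r + 1 + 1) + 1 := by ring
  rw [this]; simp

theorem root_of (g : Fˣ) (a b : ℕ) (hord : orderOf g = a * b) (ha : 0 < a) (k : ℕ)
    (h : (g ^ k) ^ a = 1) : ∃ x : Fˣ, x ^ b = g ^ k := by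
  rw [← pow_mul] at h
  have h1 := orderOf_dvd_of_pow_eq_one h
  rw [hord, mul_comm k a] at h1
  obtain ⟨k', rfl⟩ := Nat.dvd_of_mul_dvd_mul_left ha h1
  exact ⟨g ^ k', by rw [← pow_mul, mul_comm]⟩

theorem exists_roots (q : ℕ) (hq : Fintype.card F = q ^ 2) (σ : F →+* F)
    (hσ : ∀ x, σ x = x ^ q) :
    ∃ θ ζ ε : F, θ ^ (q + 1) = -1 ∧ ζ ^ (q + 1) = 1 ∧ ζ ≠ 1 ∧ ε ≠ 0 ∧ ε ^ q = -ε := by
  have h2 := two_le_q F q hq
  obtain ⟨g, hord, hg⟩ := exists_gen F q hq
  have hneg : ((-1 : Fˣ)) ^ q = -1 := by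
    apply Units.ext
    rw [Units.val_pow_eq_pow_val, Units.val_neg, Units.val_one, ← hσ, map_neg, map_one]
  obtain ⟨k, hk⟩ := (Submonoid.mem_powers_iff _ _).mp (hg (-1))
  have hm1 : (g ^ k) ^ (q - 1) = 1 := by
    rw [hk]
    have : ((-1 : Fˣ)) ^ (q - 1) * (-1) = -1 := by
      rw [← pow_succ, Nat.sub_add_cancel (by omega), hneg]
    simpa using this
  have hp1 : (g ^ k) ^ (q + 1) = 1 := by
    rw [hk, pow_succ, hneg]; simp
  obtain ⟨θ, hθ⟩ := root_of F g (q - 1) (q + 1) hord (by omega) k hm1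
  obtain ⟨ε, hε⟩ := root_of F g (q + 1) (q - 1) (by rw [hord, mul_comm]) (by omega) k hp1
  refine ⟨(θ : F), ((g ^ (q - 1) : Fˣ) : F), (ε : F), ?_, ?_, ?_, ε.ne_zero, ?_⟩
  · rw [← Units.val_pow_eq_pow_val, hθ, hk]; simp
  · rw [← Units.val_pow_eq_pow_val, ← pow_mul, ← hord, pow_orderOf_eq_one]; simp
  · intro h
    have h3 : g ^ (q - 1) = 1 := Units.ext (by simpa using h)
    refine pow_ne_one_of_lt_orderOf (by omega) ?_ h3
    rw [hord]
    exact (Nat.lt_mul_iff_one_lt_right (by omega)).mpr (by omega)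
  · have : q = (q - 1) + 1 := by omega
    rw [this, pow_succ, ← Units.val_pow_eq_pow_val, hε, hk]; simp

theorem card_fixed [DecidableEq F] (q : ℕ) (hq : Fintype.card F = q ^ 2) :
    q - 1 ≤ (Finset.univ.filter (fun c : F => c ^ q = c)).card := by
  have h2 := two_le_q F q hq
  obtain ⟨g, hord, hg⟩ := exists_gen F q hq
  have hinj : Set.InjOn (fun i : ℕ => ((g ^ ((q + 1) * i) : Fˣ) : F)) (Finset.range (q - 1)) := by
    intro i hi j hj hij
    simp only [Finset.coe_range, Set.mem_Iio] at hi hj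
    have h3 : g ^ ((q + 1) * i) = g ^ ((q + 1) * j) := Units.ext hij
    have hlt : ∀ t, t < q - 1 → (q + 1) * t ∈ Set.Iio (orderOf g) := by
      intro t ht
      rw [Set.mem_Iio, hord, mul_comm (q - 1)]
      exact (Nat.mul_lt_mul_left (by omega)).mpr ht
    have h4 := pow_injOn_Iio_orderOf (x := g) (hlt i hi) (hlt j hj) h3
    exact Nat.eq_of_mul_eq_mul_left (by omega) h4
  rw [← Finset.card_range (q - 1), ← Finset.card_image_of_injOn hinj]
  apply Finset.card_le_card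
  intro c hc
  obtain ⟨i, _, rfl⟩ := Finset.mem_image.mp hc
  rw [Finset.mem_filter]
  refine ⟨Finset.mem_univ _, ?_⟩
  have e : (q + 1) * i * (q - 1) = orderOf g * i := by rw [hord]; ring
  calc ((g ^ ((q + 1) * i) : Fˣ) : F) ^ q
      = ((g ^ ((q + 1) * i) : Fˣ) : F) ^ (q - 1 + 1) := by rw [Nat.sub_add_cancel (by omega)]
    _ = ((g ^ ((q + 1) * i) : Fˣ) : F) ^ (q - 1) * ((g ^ ((q + 1) * i) : Fˣ) : F) := pow_succ _ _
    _ = ((g ^ ((q + 1) * i) : Fˣ) : F) := by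
      rw [← Units.val_pow_eq_pow_val, ← pow_mul, e, pow_mul, pow_orderOf_eq_one, one_pow]; simp

theorem exists_perfect_elt (h : 4 ≤ Fintype.card F) : ∃ a : F, a ≠ 0 ∧ a ^ 2 ≠ 1 := by
  classical
  by_contra hcon
  push Not at hcon
  have hsub : (Finset.univ : Finset F) ⊆ {0, 1, -1} := by
    intro a _
    by_cases ha : a = 0
    · simp [ha]
    · have h1 := hcon a ha
      have h2 : (a - 1) * (a + 1) = 0 := by linear_combination h1
      rcases mul_eq_zero.mp h2 with h3 | h3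
      · have : a = 1 := by linear_combination h3
        simp [this]
      · have : a = -1 := by linear_combination h3
        simp [this]
  have := Finset.card_le_card hsub
  rw [Finset.card_univ] at this
  have h3 : ({0, 1, -1} : Finset F).card ≤ 3 := Finset.card_le_three
  omega

end FF

section Unitary

variable {F : Type*} [Field F]

theorem herm_of_unitary (n q : ℕ) (σ : F →+* F) (hσ : ∀ x, σ x = x ^ q)
    (A : Matrix (Fin n) (Fin n) F) (hA : Aᵀ * A.map σ = 1) (u v : Fin n → F) :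
    hermForm n F q (A *ᵥ u) (A *ᵥ v) = hermForm n F q u v := by
  have e : ∀ x y : Fin n → F, hermForm n F q x y = x ⬝ᵥ (σ ∘ y) := by
    intro x y; simp [hermForm, dotProduct, hσ]
  have h1 : σ ∘ (A *ᵥ v) = A.map σ *ᵥ (σ ∘ v) := funext fun i => RingHom.map_mulVec σ A v i
  rw [e, e, h1, Matrix.dotProduct_mulVec, ← Matrix.vecMul_transpose A u, Matrix.vecMul_vecMul, hA,
    Matrix.vecMul_one]

theorem unitary_conj {n : Type*} [Fintype n] [DecidableEq n] (σ : F →+* F)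
    (T Tinv g H : Matrix n n F) (h1 : T * Tinv = 1) (hH : Tᵀ * T.map σ = H)
    (hg : g.map σ = g) (hgH : gᵀ * H * g = H) :
    (T * g * Tinv)ᵀ * (T * g * Tinv).map σ = 1 := by
  calc (T * g * Tinv)ᵀ * (T * g * Tinv).map σ
      = Tinvᵀ * (gᵀ * (Tᵀ * T.map σ) * g.map σ) * Tinv.map σ := by
        simp only [Matrix.transpose_mul, Matrix.map_mul, Matrix.mul_assoc]
    _ = Tinvᵀ * (Tᵀ * T.map σ) * Tinv.map σ := by rw [hH, hg, hgH]
    _ = (T * Tinv)ᵀ * (T * Tinv).map σ := by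
        simp only [Matrix.transpose_mul, Matrix.map_mul, Matrix.mul_assoc]
    _ = 1 := by rw [h1]; simp

theorem blk2_unitary (k : ℕ) (σ : F →+* F) (B : Matrix (Fin 2) (Fin 2) F)
    (hB : Bᵀ * B.map σ = 1) : (blk2 k F B)ᵀ * (blk2 k F B).map σ = 1 := by
  rw [blk2_apply, Matrix.transpose_submatrix, ← Matrix.submatrix_map, Matrix.submatrix_mul_equiv,
    Matrix.fromBlocks_transpose, Matrix.fromBlocks_map, Matrix.fromBlocks_multiply]
  simp [hB, Matrix.fromBlocks_one]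

theorem gram_T (σ : F →+* F) (lam mu kap eps : F) (hlam : lam * σ lam = -1)
    (hmu : mu * σ mu = -1) (hK1 : kap * (1 + mu * σ lam) = -eps)
    (hK2 : σ kap * (1 + lam * σ mu) = eps) :
    (!![1, kap; lam, kap * mu] : Matrix (Fin 2) (Fin 2) F)ᵀ *
      (!![1, kap; lam, kap * mu] : Matrix (Fin 2) (Fin 2) F).map σ = !![0, eps; -eps, 0] := by
  ext i j
  fin_cases i <;> fin_cases j
  · simp [Matrix.mul_apply, Fin.sum_univ_two]; linear_combination hlam
  · simp [Matrix.mul_apply, Fin.sum_univ_two]; linear_combination hK2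
  · simp [Matrix.mul_apply, Fin.sum_univ_two]; linear_combination hK1
  · simp [Matrix.mul_apply, Fin.sum_univ_two]; linear_combination (kap * σ kap) * hmu

theorem UE_map (σ : F →+* F) (c : F) (hc : σ c = c) : (UE c).1.map σ = (UE c).1 := by
  rw [UE_coe]; ext i j; fin_cases i <;> fin_cases j <;> simp [hc]

theorem LE_map (σ : F →+* F) (c : F) (hc : σ c = c) : (LE c).1.map σ = (LE c).1 := by
  rw [LE_coe]; ext i j; fin_cases i <;> fin_cases j <;> simp [hc]

theorem UE_gram (c eps : F) :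
    (UE c).1ᵀ * !![0, eps; -eps, 0] * (UE c).1 = !![0, eps; -eps, 0] := by
  rw [UE_coe]; ext i j
  fin_cases i <;> fin_cases j <;> simp [Matrix.mul_apply, Fin.sum_univ_two] <;> ring

theorem LE_gram (c eps : F) :
    (LE c).1ᵀ * !![0, eps; -eps, 0] * (LE c).1 = !![0, eps; -eps, 0] := by
  rw [LE_coe]; ext i j
  fin_cases i <;> fin_cases j <;> simp [Matrix.mul_apply, Fin.sum_univ_two] <;> ring

end Unitary

section UnitaryMain

theorem exists_T (F : Type*) [Field F] [Fintype F] (q : ℕ) (hq : Fintype.card F = q ^ 2)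
    (σ : F →+* F) (hσ : ∀ x, σ x = x ^ q) :
    ∃ (T : GL (Fin 2) F) (eps : F),
      (T : Matrix (Fin 2) (Fin 2) F)ᵀ * (T : Matrix (Fin 2) (Fin 2) F).map σ
        = !![0, eps; -eps, 0] := by
  obtain ⟨θ, ζ, ε, hθ, hζ, hζ1, hε0, hε⟩ := exists_roots F q hq σ hσ
  have hσσ : ∀ x, σ (σ x) = x := by
    intro x
    rw [hσ, hσ, ← pow_mul, ← sq, ← hq, FiniteField.pow_card]
  have hθ0 : θ ≠ 0 := by
    rintro rfl
    rw [zero_pow (by omega)] at hθ
    exact absurd hθ.symm (by simp)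
  have hlam : θ * σ θ = -1 := by rw [hσ, ← pow_succ', hθ]
  have hmu : (θ * ζ) * σ (θ * ζ) = -1 := by
    rw [hσ, ← pow_succ', mul_pow, hθ, hζ]; ring
  have hd : 1 + (θ * ζ) * σ θ = 1 - ζ := by linear_combination ζ * hlam
  have hd0 : 1 + (θ * ζ) * σ θ ≠ 0 := by
    rw [hd]; intro h; exact hζ1 (by linear_combination -h)
  have hK1 : (-ε / (1 + (θ * ζ) * σ θ)) * (1 + (θ * ζ) * σ θ) = -ε := div_mul_cancel₀ _ hd0
  have hσε : σ ε = -ε := by rw [hσ, hε]
  have hK2 : σ (-ε / (1 + (θ * ζ) * σ θ)) * (1 + θ * σ (θ * ζ)) = ε := by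
    have h := congrArg σ hK1
    rw [map_mul, map_add, map_one, map_mul σ (θ * ζ), hσσ, map_neg, hσε] at h
    linear_combination h
  have hkap0 : (-ε / (1 + (θ * ζ) * σ θ)) ≠ 0 := div_ne_zero (neg_ne_zero.mpr hε0) hd0
  have hdet : (!![1, (-ε / (1 + (θ * ζ) * σ θ)); θ, (-ε / (1 + (θ * ζ) * σ θ)) * (θ * ζ)] :
      Matrix (Fin 2) (Fin 2) F).det ≠ 0 := by
    rw [Matrix.det_fin_two_of]
    have : (1 : F) * ((-ε / (1 + (θ * ζ) * σ θ)) * (θ * ζ)) - (-ε / (1 + (θ * ζ) * σ θ)) * θ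
        = (-ε / (1 + (θ * ζ) * σ θ)) * θ * (ζ - 1) := by ring
    rw [this]
    exact mul_ne_zero (mul_ne_zero hkap0 hθ0) (sub_ne_zero.mpr hζ1)
  exact ⟨Matrix.GeneralLinearGroup.mkOfDetNeZero _ hdet, ε, gram_T σ _ _ _ _ hlam hmu hK1 hK2⟩

variable {F : Type*} [Field F]

noncomputable def rhoU (k : ℕ) (T : GL (Fin 2) F) :
    Matrix.SpecialLinearGroup (Fin 2) F →* GL (Fin (2 + k)) F :=
  (Units.map (blk2 k F)).comp
    ((MulAut.conj T).toMonoidHom.comp Matrix.SpecialLinearGroup.toGL)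

theorem rhoU_injective (k : ℕ) (T : GL (Fin 2) F) : Function.Injective (rhoU k T) :=
  (Units.map_injective (blk2_injective k F)).comp
    ((MulAut.conj T).injective.comp Matrix.SpecialLinearGroup.toGL_injective)

theorem rhoU_coe (k : ℕ) (T : GL (Fin 2) F) (g : Matrix.SpecialLinearGroup (Fin 2) F) :
    (rhoU k T g : Matrix (Fin (2 + k)) (Fin (2 + k)) F) =
      blk2 k F ((T : Matrix (Fin 2) (Fin 2) F) * g.1 * ((T⁻¹ : GL (Fin 2) F) :
        Matrix (Fin 2) (Fin 2) F)) := rfl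

theorem not_CL_su (w : FreeGroup ℕ) (D : ℕ) (hD : SProp w D) (F : Type) [Field F] [Fintype F]
    (k q : ℕ) (hq : Fintype.card F = q ^ 2) (hDq : D + 1 < q) : ¬ CL w (SU (2 + k) F q) := by
  classical
  obtain ⟨σ, hσ⟩ := exists_frob F q hq
  obtain ⟨T, eps, hT⟩ := exists_T F q hq σ hσ
  have hS : D < (Finset.univ.filter (fun c : F => c ^ q = c)).card :=
    lt_of_lt_of_le (by omega) (card_fixed F q hq)
  obtain ⟨τ, hτS, hτ⟩ := hD F _ hS
  have hτq : τ ^ q = τ := (Finset.mem_filter.mp hτS).2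
  have hpow : ∀ j : ℕ, σ (τ ^ j) = τ ^ j := by intro j; rw [map_pow, hσ, hτq]
  have h4 : 4 ≤ Fintype.card F := by have := two_le_q F q hq; rw [hq]; nlinarith
  obtain ⟨a, ha, ha2⟩ := exists_perfect_elt F h4
  have hperf : commutator (Matrix.SpecialLinearGroup (Fin 2) F) = ⊤ :=
    Matrix.SL2.commutator_eq_top ha ha2
  have hmem : ∀ g : Matrix.SpecialLinearGroup (Fin 2) F, g.1.map σ = g.1 →
      g.1ᵀ * !![0, eps; -eps, 0] * g.1 = !![0, eps; -eps, 0] →
      toSL (rhoU k T) (perfect_det hperf (rhoU k T)) g ∈ SU (2 + k) F q := by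
    intro g hg1 hg2 u v
    have hcoe : slToMat (2 + k) F (toSL (rhoU k T) (perfect_det hperf (rhoU k T)) g)
        = blk2 k F ((T : Matrix (Fin 2) (Fin 2) F) * g.1 * ((T⁻¹ : GL (Fin 2) F) :
        Matrix (Fin 2) (Fin 2) F)) := rfl
    rw [hcoe]
    exact herm_of_unitary (2 + k) q σ hσ _ (blk2_unitary k σ _ (unitary_conj σ _ _ _ _
      (by rw [← Units.val_mul, mul_inv_cancel, Units.val_one]) hT hg1 hg2)) u v
  exact not_CL_criterion w τ hτ (SU (2 + k) F q).subtype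
    (toSL (rhoU k T) (perfect_det hperf (rhoU k T))) (toSL_injective _ _ (rhoU_injective k T))
    (fun j => ⟨⟨_, hmem (UE (τ ^ j)) (UE_map σ _ (hpow j)) (UE_gram _ _)⟩, rfl⟩)
    (fun j => ⟨⟨_, hmem (LE (τ ^ j)) (LE_map σ _ (hpow j)) (LE_gram _ _)⟩, rfl⟩)

theorem not_CL_sl2 (w : FreeGroup ℕ) (D : ℕ) (hD : SProp w D) (F : Type) [Field F] [Fintype F]
    (h : D < Fintype.card F) : ¬ CL w (Matrix.SpecialLinearGroup (Fin 2) F) := by
  classical
  obtain ⟨τ, _, hτ⟩ := hD F Finset.univ (by rwa [Finset.card_univ])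
  exact not_CL_criterion w τ hτ (MonoidHom.id _) (MonoidHom.id _) Function.injective_id
    (fun j => ⟨_, rfl⟩) (fun j => ⟨_, rfl⟩)

end UnitaryMain

end Cfsg.Agent.Helper14.Law
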