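import Mathlib
import Cfsg.Prelude.Def_Classical
import Cfsg.Agent.Helper14.LawD

set_option autoImplicit false

namespace Cfsg.Agent.Helper14.Law

open Matrix

theorem card_bound {G Ω : Type*} [Group G] [Group Ω] (e : G ≃* Ω ⧸ Subgroup.center Ω)
    {ι : Type} [Fintype ι] {F : Type} [Fintype F] (f : Ω → Matrix ι ι F)
    (hf : Function.Injective f) (Q d : ℕ) (hQ0 : 0 < Q) (hQ : Fintype.card F ≤ Q)
    (hd : Fintype.card ι ≤ d) : Nat.card G ≤ Q ^ (d * d) := by
  have hfin : Finite Ω := Finite.of_injective f hf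
  have h1 : Nat.card Ω ≤ Nat.card (ι → ι → F) := Nat.card_le_card_of_injective f hf
  rw [Nat.card_fun, Nat.card_fun, ← pow_mul, Nat.card_eq_fintype_card (α := F),
    Nat.card_eq_fintype_card (α := ι)] at h1
  calc Nat.card G = Nat.card (Ω ⧸ Subgroup.center Ω) := Nat.card_congr e.toEquiv
    _ ≤ Nat.card Ω := Nat.card_le_card_of_surjective _ (QuotientGroup.mk_surjective)
    _ ≤ Fintype.card F ^ (Fintype.card ι * Fintype.card ι) := h1
    _ ≤ Q ^ (Fintype.card ι * Fintype.card ι) := Nat.pow_le_pow_left hQ _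
    _ ≤ Q ^ (d * d) := Nat.pow_le_pow_right hQ0 (Nat.mul_le_mul hd hd)

theorem omega_val_injective {ι : Type} [Fintype ι] [DecidableEq ι] (F : Type*) [Field F]
    (Q : (ι → F) → F) :
    Function.Injective (fun x : Omega F Q => ((x.1.1 : GL ι F) : Matrix ι ι F)) := by
  intro x y hxy
  exact Subtype.ext (Subtype.ext (Units.ext hxy))

theorem su_val_injective (n q : ℕ) (F : Type*) [Field F] :
    Function.Injective (fun x : SU n F q => (x.1.1 : Matrix (Fin n) (Fin n) F)) := by
  intro x y hxy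
  exact Subtype.ext (Subtype.ext hxy)

theorem exists_src2 (F : Type*) [Field F] (m : ℕ) (hm : 2 ≤ m) :
    ∃ ρ : Matrix.SpecialLinearGroup (Fin 2) F →* GL (Fin m) F, Function.Injective ρ := by
  obtain ⟨k, rfl⟩ := Nat.exists_eq_add_of_le hm
  exact ⟨src2 k F, src2_injective k F⟩

end Cfsg.Agent.Helper14.Law
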