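import Mathlib

/-!
Counting solutions of `x ^ d = 1` in finite groups: products, semidirect products,
recovery of the number of elements of each order.
-/

namespace Cfsg.Agent.Helper14.OT

open Finset

/-- number of solutions of `x ^ d = 1` -/
noncomputable def fc (X : Type*) [Monoid X] (d : ℕ) : ℕ := Nat.card {x : X // x ^ d = 1}

/-- number of elements of order `n` -/
noncomputable def cnt (X : Type*) [Monoid X] (n : ℕ) : ℕ := Nat.card {x : X // orderOf x = n}

theorem fc_prod (X Y : Type*) [Monoid X] [Monoid Y] (d : ℕ) :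
    fc (X × Y) d = fc X d * fc Y d := by
  unfold fc
  rw [← Nat.card_prod]
  apply Nat.card_congr
  exact
    { toFun := fun z => (⟨z.1.1, congrArg Prod.fst z.2⟩, ⟨z.1.2, congrArg Prod.snd z.2⟩)
      invFun := fun z => ⟨(z.1.1, z.2.1), Prod.ext z.1.2 z.2.2⟩
      left_inv := fun z => rfl
      right_inv := fun z => rfl }

theorem fc_pi {ι : Type*} [Fintype ι] (X : ι → Type*) [∀ i, Monoid (X i)] (d : ℕ) :
    fc (∀ i, X i) d = ∏ i, fc (X i) d := by
  unfold fc
  rw [← Nat.card_pi]
  apply Nat.card_congr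
  refine (Equiv.subtypeEquivRight ?_).trans
    (Equiv.subtypePiEquivPi (p := fun i (b : X i) => b ^ d = 1))
  intro f
  rw [funext_iff]
  rfl

theorem fc_pow (X : Type*) [Monoid X] (e d : ℕ) :
    fc (Fin e → X) d = fc X d ^ e := by
  rw [fc_pi]
  simp

theorem fc_congr {X Y : Type*} [Monoid X] [Monoid Y] (e : X ≃* Y) (d : ℕ) :
    fc X d = fc Y d := by
  unfold fc
  apply Nat.card_congr
  refine e.toEquiv.subtypeEquiv ?_
  intro x
  constructor
  · intro h
    show e x ^ d = 1
    rw [← map_pow, h, map_one]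
  · intro h
    have h' : e (x ^ d) = e 1 := by rw [map_pow, map_one]; exact h
    exact e.injective h'

theorem fc_eq_sum_cnt (X : Type*) [Group X] [Finite X] {d : ℕ} (hd : d ≠ 0) :
    fc X d = ∑ m ∈ d.divisors, cnt X m := by
  classical
  have := Fintype.ofFinite X
  unfold fc cnt
  simp only [Nat.card_eq_fintype_card, Fintype.card_subtype]
  rw [Finset.card_eq_sum_card_fiberwise (f := orderOf) (t := d.divisors)]
  · apply Finset.sum_congr rfl
    intro m hm
    congr 1
    ext x
    simp only [Finset.mem_filter, Finset.mem_univ, true_and]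
    constructor
    · rintro ⟨_, h⟩
      exact h
    · intro h
      refine ⟨?_, h⟩
      rw [← h] at hm
      exact orderOf_dvd_iff_pow_eq_one.mp (Nat.dvd_of_mem_divisors hm)
  · intro x hx
    simp only [Finset.coe_filter, Finset.mem_univ, true_and, Set.mem_ofPred_eq] at hx
    exact Finset.mem_coe.mpr (Nat.mem_divisors.mpr ⟨orderOf_dvd_of_pow_eq_one hx, hd⟩)

theorem cnt_zero (X : Type*) [Group X] [Finite X] : cnt X 0 = 0 := by
  unfold cnt
  have : IsEmpty {x : X // orderOf x = 0} := ⟨fun x => (orderOf_pos x.1).ne' x.2⟩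
  exact Nat.card_of_isEmpty

theorem cnt_eq_of_fc_eq (G H : Type*) [Group G] [Group H] [Finite G] [Finite H]
    (h : ∀ d, fc G d = fc H d) (n : ℕ) : cnt G n = cnt H n := by
  induction n using Nat.strong_induction_on with
  | _ n ih =>
    rcases Nat.eq_zero_or_pos n with rfl | hn
    · rw [cnt_zero, cnt_zero]
    · have h1 := fc_eq_sum_cnt G hn.ne'
      have h2 := fc_eq_sum_cnt H hn.ne'
      rw [← Nat.insert_self_properDivisors hn.ne',
        Finset.sum_insert Nat.self_notMem_properDivisors] at h1 h2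
      have h3 : ∑ m ∈ n.properDivisors, cnt G m = ∑ m ∈ n.properDivisors, cnt H m :=
        Finset.sum_congr rfl fun m hm => ih m (Nat.mem_properDivisors.mp hm).2
      have h4 := h n
      omega

theorem fc_gcd (X : Type*) [Monoid X] (E : ℕ) (hE : ∀ x : X, x ^ E = 1) (d : ℕ) :
    fc X d = fc X (Nat.gcd d E) := by
  unfold fc
  apply Nat.card_congr
  refine Equiv.subtypeEquivRight ?_
  intro x
  rw [pow_gcd_eq_one]
  exact ⟨fun h => ⟨h, hE x⟩, fun h => h.1⟩

theorem pow_eq_one_of_fc (X : Type*) [Monoid X] [Finite X] (E : ℕ)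
    (h : fc X E = Nat.card X) (x : X) : x ^ E = 1 := by
  classical
  have := Fintype.ofFinite X
  by_contra hx
  have := Fintype.card_subtype_lt (p := fun y : X => y ^ E = 1) hx
  unfold fc at h
  rw [Nat.card_eq_fintype_card, Nat.card_eq_fintype_card] at h
  omega

/-- the main principle: two finite groups of exponent dividing `E` with the same numbers
of solutions of `x ^ d = 1` for `d ∣ E` have the same numbers of elements of each order -/
theorem cnt_eq_of_fc_eq_divisors (G H : Type*) [Group G] [Group H] [Finite G] [Finite H]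
    (E : ℕ) (hE : E ≠ 0) (hG : ∀ x : G, x ^ E = 1) (hH : ∀ x : H, x ^ E = 1)
    (h : ∀ d ∈ E.divisors, fc G d = fc H d) (n : ℕ) : cnt G n = cnt H n := by
  apply cnt_eq_of_fc_eq
  intro d
  rw [fc_gcd G E hG, fc_gcd H E hH]
  exact h _ (Nat.mem_divisors.mpr ⟨Nat.gcd_dvd_right d E, hE⟩)

/-- if the known counts already exhaust the group, the other counts vanish -/
theorem cnt_eq_of_sum (X : Type*) [Group X] [Finite X] (S : Finset ℕ) (c : ℕ → ℕ)
    (hS : ∀ m ∈ S, cnt X m = c m) (hc : ∀ m, m ∉ S → c m = 0)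
    (hsum : ∑ m ∈ S, c m = Nat.card X) (m : ℕ) : cnt X m = c m := by
  classical
  by_cases hm : m ∈ S
  · exact hS m hm
  · rw [hc m hm]
    have := Fintype.ofFinite X
    by_contra hne
    have h1 : (Finset.univ.filter (fun x : X => orderOf x ∈ insert m S)).card =
        ∑ b ∈ insert m S, (Finset.univ.filter (fun x : X => orderOf x = b)).card := by
      rw [Finset.card_eq_sum_card_fiberwise (f := orderOf) (t := insert m S)]
      · apply Finset.sum_congr rfl
        intro b hb
        congr 1
        ext x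
        simp only [Finset.mem_filter, Finset.mem_univ, true_and]
        constructor
        · rintro ⟨_, h⟩
          exact h
        · intro h
          exact ⟨h ▸ hb, h⟩
      · intro x hx
        simp only [Finset.coe_filter, Finset.mem_univ, true_and, Set.mem_ofPred_eq] at hx
        exact Finset.mem_coe.mpr hx
    have h2 : (Finset.univ.filter (fun x : X => orderOf x ∈ insert m S)).card ≤
        Fintype.card X := Finset.card_le_univ _
    rw [Finset.sum_insert hm] at h1
    have h3 : ∀ b, (Finset.univ.filter (fun x : X => orderOf x = b)).card = cnt X b := by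
      intro b
      unfold cnt
      rw [Nat.card_eq_fintype_card, Fintype.card_subtype]
    simp only [h3] at h1
    have h4 : ∑ b ∈ S, cnt X b = ∑ b ∈ S, c b := Finset.sum_congr rfl hS
    rw [h4, hsum, Nat.card_eq_fintype_card] at h1
    have : cnt X m ≠ 0 := hne
    omega

section semidirect

variable {N K : Type*} [Group N] [Group K] (φ : K →* MulAut N)

/-- the `N`-component of the `d`-th power of `⟨a, κ⟩` -/
def nm (κ : K) : ℕ → N → N
  | 0, _ => 1
  | d + 1, a => a * φ κ (nm κ d a)

theorem nm_zero (κ : K) (a : N) : nm φ κ 0 a = 1 := rfl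

theorem nm_succ (κ : K) (d : ℕ) (a : N) : nm φ κ (d + 1) a = a * φ κ (nm φ κ d a) := rfl

theorem pow_mk (a : N) (κ : K) (d : ℕ) :
    (⟨a, κ⟩ : N ⋊[φ] K) ^ d = ⟨nm φ κ d a, κ ^ d⟩ := by
  induction d with
  | zero =>
    rw [pow_zero, pow_zero]
    rfl
  | succ d ih =>
    rw [pow_succ', ih]
    exact SemidirectProduct.ext rfl (pow_succ' κ d).symm

theorem fc_semidirect [Finite N] [Fintype K] [DecidableEq K] (d : ℕ) :
    fc (N ⋊[φ] K) d =
      ∑ κ : K, if κ ^ d = 1 then Nat.card {a : N // nm φ κ d a = 1} else 0 := by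
  unfold fc
  have e : {x : N ⋊[φ] K // x ^ d = 1} ≃ Σ κ : K, {a : N // nm φ κ d a = 1 ∧ κ ^ d = 1} :=
    { toFun := fun x => ⟨x.1.right, ⟨x.1.left, by
        have h := x.2
        have h' : (⟨x.1.left, x.1.right⟩ : N ⋊[φ] K) ^ d = 1 := h
        rw [pow_mk] at h'
        exact ⟨congrArg SemidirectProduct.left h', congrArg SemidirectProduct.right h'⟩⟩⟩
      invFun := fun y => ⟨⟨y.2.1, y.1⟩, by
        rw [pow_mk]
        ext
        · exact y.2.2.1
        · exact y.2.2.2⟩
      left_inv := fun x => rfl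
      right_inv := fun y => rfl }
  rw [Nat.card_congr e, Nat.card_sigma]
  apply Finset.sum_congr rfl
  intro κ _
  split_ifs with h
  · apply Nat.card_congr
    exact Equiv.subtypeEquivRight fun a => ⟨fun ha => ha.1, fun ha => ⟨ha, h⟩⟩
  · have : IsEmpty {a : N // nm φ κ d a = 1 ∧ κ ^ d = 1} := ⟨fun a => h a.2.2⟩
    exact Nat.card_of_isEmpty

instance isSolvable_semidirect [Group.IsSolvable N] [Group.IsSolvable K] :
    Group.IsSolvable (N ⋊[φ] K) :=
  Group.isSolvable_of_ker_le_range (SemidirectProduct.inl : N →* N ⋊[φ] K)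
    SemidirectProduct.rightHom SemidirectProduct.range_inl_eq_ker_rightHom.ge

instance finite_semidirect [Finite N] [Finite K] : Finite (N ⋊[φ] K) :=
  Finite.of_equiv _ SemidirectProduct.equivProd.symm

end semidirect

theorem derivedSeries_pi_le {ι : Type*} (G : ι → Type*) [∀ i, Group (G i)] (n : ℕ) :
    derivedSeries (∀ i, G i) n ≤ Subgroup.pi Set.univ fun i => derivedSeries (G i) n := by
  induction n with
  | zero =>
    intro x _
    rw [Subgroup.mem_pi]
    intro i _
    simp
  | succ n ih =>
    rw [derivedSeries_succ]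
    refine (Subgroup.commutator_mono ih ih).trans ?_
    exact Subgroup.commutator_pi_pi_le _ _

theorem isSolvable_pi {ι : Type*} [Finite ι] (G : ι → Type*) [∀ i, Group (G i)]
    [h : ∀ i, Group.IsSolvable (G i)] : Group.IsSolvable (∀ i, G i) := by
  classical
  have := Fintype.ofFinite ι
  choose n hn using fun i => (h i).solvable
  refine ⟨⟨Finset.univ.sup n, ?_⟩⟩
  rw [eq_bot_iff]
  refine (derivedSeries_pi_le G _).trans ?_
  rw [← Subgroup.pi_bot]
  intro x hx
  rw [Subgroup.mem_pi] at hx ⊢
  intro i hi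
  have h1 := hx i hi
  have h2 : derivedSeries (G i) (Finset.univ.sup n) ≤ derivedSeries (G i) (n i) :=
    derivedSeries_antitone (G i) (Finset.le_sup (Finset.mem_univ i))
  have h3 := h2 h1
  rw [hn i] at h3
  exact h3

theorem fc_one (X : Type*) [Monoid X] : fc X 1 = 1 := by
  unfold fc
  rw [Nat.card_eq_one_iff_unique]
  refine ⟨⟨fun a b => Subtype.ext ?_⟩, ⟨⟨1, one_pow 1⟩⟩⟩
  have ha := a.2
  have hb := b.2
  rw [pow_one] at ha hb
  rw [ha, hb]

theorem fc_zero (X : Type*) [Monoid X] : fc X 0 = Nat.card X := by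
  unfold fc
  exact Nat.card_congr (Equiv.subtypeUnivEquiv fun x => pow_zero x)

/-- a table of the numbers of solutions of `x ^ m = 1` on a divisor-closed set, whose
Möbius inverse sums to the group order, gives all the numbers of solutions -/
theorem fc_table (X : Type*) [Group X] [Finite X] (S : Finset ℕ) (c : ℕ → ℕ) (h0 : 0 ∉ S)
    (hdiv : ∀ m ∈ S, ∀ k ∈ m.divisors, k ∈ S)
    (hS : ∀ m ∈ S, fc X m = ∑ k ∈ m.divisors, c k)
    (hc : ∀ m, m ∉ S → c m = 0) (hsum : ∑ m ∈ S, c m = Nat.card X) :
    ∀ d, d ≠ 0 → fc X d = ∑ k ∈ d.divisors, c k := by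
  have key : ∀ m, m ∈ S → cnt X m = c m := by
    intro m
    induction m using Nat.strong_induction_on with
    | _ m ih =>
      intro hm
      have hm0 : m ≠ 0 := fun h => h0 (h ▸ hm)
      have h1 := fc_eq_sum_cnt X hm0
      have h2 := hS m hm
      rw [← Nat.insert_self_properDivisors hm0,
        Finset.sum_insert Nat.self_notMem_properDivisors] at h1 h2
      have h3 : ∑ k ∈ m.properDivisors, cnt X k = ∑ k ∈ m.properDivisors, c k :=
        Finset.sum_congr rfl fun k hk => ih k (Nat.mem_properDivisors.mp hk).2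
          (hdiv m hm k (Nat.mem_divisors.mpr ⟨(Nat.mem_properDivisors.mp hk).1, hm0⟩))
      omega
  have all : ∀ m, cnt X m = c m := cnt_eq_of_sum X S c key hc hsum
  intro d hd
  rw [fc_eq_sum_cnt X hd]
  exact Finset.sum_congr rfl fun k _ => all k

end Cfsg.Agent.Helper14.OT
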