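import Mathlib
import Cfsg.Agent.Helper14.OTBasic

/-!
A family of split metabelian groups `(∏ ZMod nᵢ) ⋊ (ZMod k₁ × ZMod k₂)` with diagonal action,
and a closed formula for their numbers of solutions of `x ^ d = 1`.
-/

namespace Cfsg.Agent.Helper14.OT

open Finset

/-- the hom `ZMod k → M`, `j ↦ g ^ j.val` -/
def cycHomOf {M : Type*} [Monoid M] (k : ℕ) [NeZero k] (g : M) (h : g ^ k = 1) :
    Multiplicative (ZMod k) →* M where
  toFun j := g ^ (Multiplicative.toAdd j).val
  map_one' := by simp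
  map_mul' x y := by
    rw [toAdd_mul, ZMod.val_add, ← pow_add]
    exact (pow_eq_pow_mod _ h).symm

/-- total version of `cycHomOf` -/
noncomputable def cycHom {M : Type*} [Monoid M] (k : ℕ) (g : M) : Multiplicative (ZMod k) →* M :=
  open Classical in
  if h : k ≠ 0 ∧ g ^ k = 1 then @cycHomOf M _ k ⟨h.1⟩ g h.2 else 1

theorem cycHom_apply {M : Type*} [Monoid M] (k : ℕ) (g : M) (hk : k ≠ 0) (h : g ^ k = 1)
    (j : Multiplicative (ZMod k)) : cycHom k g j = g ^ (Multiplicative.toAdd j).val := by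
  unfold cycHom
  rw [dif_pos ⟨hk, h⟩]
  rfl

/-- units of a ring act on its additive group -/
def unitAct (R : Type*) [Ring R] : Rˣ →* MulAut (Multiplicative R) where
  toFun u :=
    { toFun := fun a => Multiplicative.ofAdd ((u : R) * Multiplicative.toAdd a)
      invFun := fun a => Multiplicative.ofAdd ((↑u⁻¹ : R) * Multiplicative.toAdd a)
      left_inv := fun a => by simp [← mul_assoc]
      right_inv := fun a => by simp [← mul_assoc]
      map_mul' := fun a b => by simp [mul_add] }
  map_one' := by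
    ext a
    simp
  map_mul' u v := by
    ext a
    simp [mul_assoc]

theorem unitAct_apply (R : Type*) [Ring R] (u : Rˣ) (a : Multiplicative R) :
    unitAct R u a = Multiplicative.ofAdd ((u : R) * Multiplicative.toAdd a) := rfl

/-- partial geometric sums -/
def gs {S : Type*} [Semiring S] (c : S) : ℕ → S
  | 0 => 0
  | d + 1 => 1 + c * gs c d

/-- partial geometric sums modulo `n` -/
def gsN (n w : ℕ) : ℕ → ℕ
  | 0 => 0
  | d + 1 => (1 + w * gsN n w d) % n

theorem gs_natCast (n w d : ℕ) : gs ((w : ℕ) : ZMod n) d = ((gsN n w d : ℕ) : ZMod n) := by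
  induction d with
  | zero => simp [gs, gsN]
  | succ d ih => simp [gs, gsN, ih, ZMod.natCast_mod]

theorem gs_pi {ι : Type*} {S : ι → Type*} [∀ i, Semiring (S i)] (c : ∀ i, S i) (d : ℕ)
    (i : ι) : gs c d i = gs (c i) d := by
  induction d with
  | zero => rfl
  | succ d ih => simp [gs, ih]

theorem nm_of_mul {R K : Type*} [Ring R] [Group K] (φ : K →* MulAut (Multiplicative R)) (κ : K)
    (c : R) (h : ∀ a, φ κ a = Multiplicative.ofAdd (c * Multiplicative.toAdd a)) (d : ℕ)
    (a : Multiplicative R) :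
    nm φ κ d a = Multiplicative.ofAdd (gs c d * Multiplicative.toAdd a) := by
  induction d with
  | zero => simp [nm_zero, gs]
  | succ d ih =>
    rw [nm_succ, ih, h]
    apply Multiplicative.toAdd.injective
    simp only [toAdd_mul, toAdd_ofAdd, gs]
    rw [add_mul, one_mul, mul_assoc]

theorem card_pi_mul_eq_zero {ι : Type*} [Fintype ι] (S : ι → Type*) [∀ i, Semiring (S i)]
    (g : ∀ i, S i) :
    Nat.card {x : ∀ i, S i // g * x = 0} = ∏ i, Nat.card {y : S i // g i * y = 0} := by
  rw [← Nat.card_pi]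
  apply Nat.card_congr
  refine (Equiv.subtypeEquivRight ?_).trans
    (Equiv.subtypePiEquivPi (p := fun i (y : S i) => g i * y = 0))
  intro x
  rw [funext_iff]
  rfl

theorem card_mul_eq_zero (n m : ℕ) (hn : n ≠ 0) :
    Nat.card {y : ZMod n // (m : ZMod n) * y = 0} = Nat.gcd m n := by
  have : NeZero n := ⟨hn⟩
  let f : ZMod n →+ ZMod n := AddMonoidHom.mulLeft (m : ZMod n)
  have h1 : Nat.card {y : ZMod n // (m : ZMod n) * y = 0} = Nat.card f.ker := rfl
  have h2 : f.range = AddSubgroup.zmultiples (m : ZMod n) := by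
    ext x
    constructor
    · rintro ⟨y, rfl⟩
      have : f y = y.val • (m : ZMod n) := by
        show (m : ZMod n) * y = _
        rw [nsmul_eq_mul, ZMod.natCast_zmod_val, mul_comm]
      rw [this]
      exact AddSubgroup.nsmul_mem_zmultiples _ _
    · intro hx
      obtain ⟨k, rfl⟩ := AddSubgroup.mem_zmultiples_iff.mp hx
      refine ⟨(k : ZMod n), ?_⟩
      show (m : ZMod n) * (k : ZMod n) = _
      rw [zsmul_eq_mul, mul_comm]
  have h3 := AddSubgroup.card_mul_index f.ker
  rw [AddSubgroup.index_ker, h2, Nat.card_zmultiples, ZMod.addOrderOf_coe m hn, Nat.card_zmod]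
    at h3
  rw [h1]
  have h4 : n.gcd m * (n / n.gcd m) = n := Nat.mul_div_cancel' (Nat.gcd_dvd_left n m)
  have h5 : 0 < n / n.gcd m :=
    Nat.div_pos (Nat.le_of_dvd (Nat.pos_of_ne_zero hn) (Nat.gcd_dvd_left n m))
      (Nat.gcd_pos_of_pos_left m (Nat.pos_of_ne_zero hn))
  rw [Nat.gcd_comm m n]
  exact Nat.eq_of_mul_eq_mul_right h5 (h3.trans h4.symm)

theorem sum_mult_zmod (k : ℕ) [NeZero k] (g : ℕ → ℕ) :
    ∑ b : Multiplicative (ZMod k), g (Multiplicative.toAdd b).val = ∑ y ∈ range k, g y := by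
  rw [Fintype.sum_equiv Multiplicative.toAdd
    (fun b : Multiplicative (ZMod k) => g (Multiplicative.toAdd b).val)
    (fun j : ZMod k => g j.val) (fun _ => rfl)]
  cases k with
  | zero => exact absurd rfl (NeZero.ne 0)
  | succ n => exact Fin.sum_univ_eq_sum_range g (n + 1)

theorem mult_zmod_pow_eq_one (k : ℕ) [NeZero k] (j : Multiplicative (ZMod k)) (d : ℕ) :
    j ^ d = 1 ↔ d * (Multiplicative.toAdd j).val % k = 0 := by
  rw [← Nat.dvd_iff_mod_eq_zero, ← ZMod.natCast_eq_zero_iff, Nat.cast_mul,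
    ZMod.natCast_zmod_val, ← nsmul_eq_mul, ← toAdd_pow]
  exact Multiplicative.toAdd.injective.eq_iff.symm

/-- parameters: a list of `(n, u, w)` and the orders `k₁`, `k₂` of the acting cyclic groups -/
structure Par where
  /-- the characters `(n, u, w)` -/
  cs : List (ℕ × ℕ × ℕ)
  /-- the order of the first cyclic factor -/
  k₁ : ℕ
  /-- the order of the second cyclic factor -/
  k₂ : ℕ

namespace Par

variable (p : Par)

/-- the ring whose additive group is the normal subgroup -/
abbrev R : Type := ∀ i : Fin p.cs.length, ZMod (p.cs.get i).1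

/-- the image of the first generator -/
def uvec : p.R := fun i => (((p.cs.get i).2.1 : ℕ) : ZMod (p.cs.get i).1)

/-- the image of the second generator -/
def wvec : p.R := fun i => (((p.cs.get i).2.2 : ℕ) : ZMod (p.cs.get i).1)

/-- the acting group -/
abbrev K : Type := Multiplicative (ZMod p.k₁) × Multiplicative (ZMod p.k₂)

/-- the character of the acting group -/
noncomputable def ψ : p.K →* p.R := (cycHom p.k₁ p.uvec).coprod (cycHom p.k₂ p.wvec)

/-- the action -/
noncomputable def act : p.K →* MulAut (Multiplicative p.R) :=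
  (unitAct p.R).comp p.ψ.toHomUnits

/-- the conditions under which the formula holds -/
def Valid : Prop :=
  p.k₁ ≠ 0 ∧ p.k₂ ≠ 0 ∧
    ∀ c ∈ p.cs, c.1 ≠ 0 ∧ c.2.1 ^ p.k₁ % c.1 = 1 % c.1 ∧ c.2.2 ^ p.k₂ % c.1 = 1 % c.1

instance decValid : Decidable p.Valid := by
  unfold Valid
  infer_instance

/-- the number of solutions of `x ^ d = 1` -/
def F (d : ℕ) : ℕ :=
  ∑ x ∈ range p.k₁, ∑ y ∈ range p.k₂,
    if d * x % p.k₁ = 0 ∧ d * y % p.k₂ = 0 then
      (p.cs.map fun c => Nat.gcd (gsN c.1 ((c.2.1 ^ x * c.2.2 ^ y) % c.1) d) c.1).prod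
    else 0

/-- the order -/
def card : ℕ := (p.cs.map fun c => c.1).prod * (p.k₁ * p.k₂)

end Par

/-- the group -/
abbrev U (p : Par) : Type := Multiplicative p.R ⋊[p.act] p.K

theorem U_isSolvable (p : Par) : Group.IsSolvable (U p) := inferInstance

theorem U_finite (p : Par) (hp : p.Valid) : Finite (U p) := by
  obtain ⟨hk₁, hk₂, hcs⟩ := hp
  have : NeZero p.k₁ := ⟨hk₁⟩
  have : NeZero p.k₂ := ⟨hk₂⟩
  have : ∀ i : Fin p.cs.length, NeZero (p.cs.get i).1 :=
    fun i => ⟨(hcs _ (List.get_mem p.cs i)).1⟩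
  infer_instance

theorem U_card (p : Par) : Nat.card (U p) = p.card := by
  rw [SemidirectProduct.card, Nat.card_prod]
  have h1 : Nat.card (Multiplicative p.R) = Nat.card p.R := rfl
  have h2 : ∀ k : ℕ, Nat.card (Multiplicative (ZMod k)) = k := fun k => Nat.card_zmod k
  rw [h1, h2, h2, Nat.card_pi]
  simp only [Nat.card_zmod]
  unfold Par.card
  congr 1
  exact Fin.prod_univ_fun_getElem p.cs fun c => c.1

theorem fc_U (p : Par) (hp : p.Valid) (d : ℕ) : fc (U p) d = p.F d := by
  obtain ⟨hk₁, hk₂, hcs⟩ := hp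
  have : NeZero p.k₁ := ⟨hk₁⟩
  have : NeZero p.k₂ := ⟨hk₂⟩
  have : ∀ i : Fin p.cs.length, NeZero (p.cs.get i).1 :=
    fun i => ⟨(hcs _ (List.get_mem p.cs i)).1⟩
  have hu : p.uvec ^ p.k₁ = 1 := by
    funext i
    have := (hcs _ (List.get_mem p.cs i)).2.1
    simp only [Pi.pow_apply, Pi.one_apply, Par.uvec]
    rw [← Nat.cast_pow, ← Nat.cast_one, ZMod.natCast_eq_natCast_iff']
    exact this
  have hw : p.wvec ^ p.k₂ = 1 := by
    funext i
    have := (hcs _ (List.get_mem p.cs i)).2.2
    simp only [Pi.pow_apply, Pi.one_apply, Par.wvec]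
    rw [← Nat.cast_pow, ← Nat.cast_one, ZMod.natCast_eq_natCast_iff']
    exact this
  rw [fc_semidirect]
  have key : ∀ κ : p.K,
      (if κ ^ d = 1 then Nat.card {a : Multiplicative p.R // nm p.act κ d a = 1} else 0) =
        (fun x y : ℕ => if d * x % p.k₁ = 0 ∧ d * y % p.k₂ = 0 then
          (p.cs.map fun c => Nat.gcd (gsN c.1 ((c.2.1 ^ x * c.2.2 ^ y) % c.1) d) c.1).prod
          else 0) (Multiplicative.toAdd κ.1).val (Multiplicative.toAdd κ.2).val := by
    intro κ
    have hc : (κ ^ d = 1) ↔ (d * (Multiplicative.toAdd κ.1).val % p.k₁ = 0 ∧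
        d * (Multiplicative.toAdd κ.2).val % p.k₂ = 0) := by
      rw [Prod.ext_iff, ← mult_zmod_pow_eq_one, ← mult_zmod_pow_eq_one]
      rfl
    have hψ : p.ψ κ = p.uvec ^ (Multiplicative.toAdd κ.1).val *
        p.wvec ^ (Multiplicative.toAdd κ.2).val := by
      unfold Par.ψ
      rw [MonoidHom.coprod_apply, cycHom_apply _ _ hk₁ hu, cycHom_apply _ _ hk₂ hw]
    have hact : ∀ a, p.act κ a = Multiplicative.ofAdd (p.ψ κ * Multiplicative.toAdd a) := by
      intro a
      unfold Par.act
      rw [MonoidHom.comp_apply, unitAct_apply, MonoidHom.coe_toHomUnits]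
    have hcount : Nat.card {a : Multiplicative p.R // nm p.act κ d a = 1} =
        (p.cs.map fun c => Nat.gcd (gsN c.1 ((c.2.1 ^ (Multiplicative.toAdd κ.1).val *
          c.2.2 ^ (Multiplicative.toAdd κ.2).val) % c.1) d) c.1).prod := by
      have e1 : Nat.card {a : Multiplicative p.R // nm p.act κ d a = 1} =
          Nat.card {x : p.R // gs (p.ψ κ) d * x = 0} := by
        apply Nat.card_congr
        refine Multiplicative.toAdd.subtypeEquiv ?_
        intro a
        rw [nm_of_mul p.act κ (p.ψ κ) hact]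
        exact ofAdd_eq_one
      rw [e1, card_pi_mul_eq_zero, ← Fin.prod_univ_fun_getElem]
      apply Finset.prod_congr rfl
      intro i _
      have e2 : gs (p.ψ κ) d i = ((gsN (p.cs.get i).1 (((p.cs.get i).2.1 ^
          (Multiplicative.toAdd κ.1).val * (p.cs.get i).2.2 ^
          (Multiplicative.toAdd κ.2).val) % (p.cs.get i).1) d : ℕ) : ZMod (p.cs.get i).1) := by
        rw [gs_pi, ← gs_natCast, hψ]
        congr 1
        simp [Par.uvec, Par.wvec, ZMod.natCast_mod]
      rw [e2, card_mul_eq_zero _ _ (hcs _ (List.get_mem p.cs i)).1]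
      rfl
    simp only [hc, hcount]
  rw [Finset.sum_congr rfl fun κ _ => key κ, Fintype.sum_prod_type]
  unfold Par.F
  rw [← sum_mult_zmod p.k₁]
  apply Finset.sum_congr rfl
  intro a _
  rw [← sum_mult_zmod p.k₂]

theorem U_pow_eq_one (p : Par) (hp : p.Valid) (E : ℕ) (hE : p.F E = p.card) (x : U p) :
    x ^ E = 1 := by
  have := U_finite p hp
  apply pow_eq_one_of_fc
  rw [fc_U p hp, U_card, hE]

end Cfsg.Agent.Helper14.OT
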