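import Mathlib
import Cfsg.Agent.Helper14.OTBasic
import Cfsg.Agent.Helper14.OTU

/-!
The group `AΓL(1, 8)` of order 168 as an iterated semidirect product, and its numbers of
solutions of `x ^ d = 1`.
-/

namespace Cfsg.Agent.Helper14.OT

open Finset

set_option maxRecDepth 100000

/-- the additive group of the field with 8 elements, in the basis `1, g, g²`, `g³ = g + 1` -/
abbrev V3 : Type := ZMod 2 × ZMod 2 × ZMod 2

/-- the same, multiplicatively -/
abbrev N3 : Type := Multiplicative V3

/-- multiplication by `g` -/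
def aA : V3 ≃+ V3 where
  toFun v := (v.2.2, v.1 + v.2.2, v.2.1)
  invFun v := (v.1 + v.2.1, v.2.2, v.1)
  left_inv := by decide
  right_inv := by decide
  map_add' := by decide

/-- the Frobenius map -/
def aB : V3 ≃+ V3 where
  toFun v := (v.1, v.2.2, v.2.1 + v.2.2)
  invFun v := (v.1, v.2.1 + v.2.2, v.2.1)
  left_inv := by decide
  right_inv := by decide
  map_add' := by decide

/-- multiplication by `g`, as an automorphism -/
def mA : MulAut N3 := AddEquiv.toMultiplicative aA

/-- the Frobenius map, as an automorphism -/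
def mB : MulAut N3 := AddEquiv.toMultiplicative aB

theorem mA_pow : mA ^ 7 = 1 := by
  apply MulEquiv.ext
  decide +kernel

theorem mB_pow : mB ^ 3 = 1 := by
  apply MulEquiv.ext
  decide +kernel

/-- doubling on `ZMod 7` -/
def aD : ZMod 7 ≃+ ZMod 7 where
  toFun v := 2 * v
  invFun v := 4 * v
  left_inv := by decide
  right_inv := by decide
  map_add' := by decide

/-- doubling, as an automorphism -/
def mD : MulAut (Multiplicative (ZMod 7)) := AddEquiv.toMultiplicative aD

theorem mD_pow : mD ^ 3 = 1 := by
  apply MulEquiv.ext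
  decide +kernel

/-- the action of the cyclic group of order 3 on that of order 7 -/
def φ₀ : Multiplicative (ZMod 3) →* MulAut (Multiplicative (ZMod 7)) := cycHomOf 3 mD mD_pow

/-- the Frobenius group of order 21 -/
abbrev K21 : Type := Multiplicative (ZMod 7) ⋊[φ₀] Multiplicative (ZMod 3)

instance fintypeK21 : Fintype K21 := Fintype.ofEquiv _ SemidirectProduct.equivProd.symm

/-- the action of the Frobenius group of order 21 on the field with 8 elements -/
def ρ : K21 →* MulAut N3 :=
  SemidirectProduct.lift (cycHomOf 7 mA mA_pow) (cycHomOf 3 mB mB_pow) (by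
    intro g
    apply MonoidHom.ext
    intro b
    apply MulEquiv.ext
    intro a
    revert g b a
    decide +kernel)

/-- the group `AΓL(1, 8)` -/
abbrev AG : Type := N3 ⋊[ρ] K21

theorem AG_isSolvable : Group.IsSolvable AG := inferInstance

theorem AG_finite : Finite AG := inferInstance

theorem card_AG : Nat.card AG = 168 := by
  rw [SemidirectProduct.card, SemidirectProduct.card]
  have h1 : Nat.card N3 = 8 := by
    rw [Nat.card_eq_fintype_card]
    decide
  have h2 : ∀ k : ℕ, Nat.card (Multiplicative (ZMod k)) = k := fun k => Nat.card_zmod k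
  rw [h1, h2, h2]

theorem fc_AG (d : ℕ) : fc AG d =
    ∑ κ : K21, if κ ^ d = 1 then
      (Finset.univ.filter (fun a : N3 => nm ρ κ d a = 1)).card else 0 := by
  rw [fc_semidirect]
  apply Finset.sum_congr rfl
  intro κ _
  split_ifs
  · rw [Nat.card_eq_fintype_card, Fintype.card_subtype]
  · rfl

theorem fc_AG_2 : fc AG 2 = 8 := by
  rw [fc_AG]
  decide +kernel

theorem fc_AG_3 : fc AG 3 = 57 := by
  rw [fc_AG]
  decide +kernel

theorem fc_AG_6 : fc AG 6 = 120 := by
  rw [fc_AG]
  decide +kernel

theorem fc_AG_7 : fc AG 7 = 49 := by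
  rw [fc_AG]
  decide +kernel

/-- numbers of elements of each order in `AΓL(1, 8)` -/
def cA (m : ℕ) : ℕ :=
  if m = 1 then 1 else if m = 2 then 7 else if m = 3 then 56 else if m = 6 then 56
  else if m = 7 then 48 else 0

/-- numbers of solutions of `x ^ d = 1` in `AΓL(1, 8)` -/
def fA (d : ℕ) : ℕ := ∑ m ∈ d.divisors, cA m

theorem fc_AG_eq (d : ℕ) (hd : d ≠ 0) : fc AG d = fA d := by
  refine fc_table AG {1, 2, 3, 6, 7} cA (by decide) (by decide) ?_ ?_ ?_ d hd
  · intro m hm
    simp only [Finset.mem_insert, Finset.mem_singleton] at hm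
    rcases hm with rfl | rfl | rfl | rfl | rfl
    · rw [fc_one]
      decide
    · rw [fc_AG_2]
      decide
    · rw [fc_AG_3]
      decide
    · rw [fc_AG_6]
      decide
    · rw [fc_AG_7]
      decide
  · intro m hm
    simp only [Finset.mem_insert, Finset.mem_singleton, not_or] at hm
    obtain ⟨h1, h2, h3, h6, h7⟩ := hm
    simp [cA, h1, h2, h3, h6, h7]
  · rw [card_AG]
    decide

end Cfsg.Agent.Helper14.OT
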