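import Mathlib
import Cfsg.Agent.Helper14.OTBasic

/-!
The group `SL(3, 2)`: numbers of solutions of `x ^ d = 1`, and non-solvability.
-/

namespace Cfsg.Agent.Helper14.OT

open Finset

set_option maxRecDepth 100000

/-- the simple group of order 168 -/
abbrev SL3 : Type := Matrix.SpecialLinearGroup (Fin 3) (ZMod 2)

/-- a matrix of determinant one as an element of the group -/
def toSL3 (M : Matrix (Fin 3) (Fin 3) (ZMod 2)) (h : M.det = 1) : SL3 := ⟨M, h⟩

theorem fc_SL3 (d : ℕ) : fc SL3 d =
    (Finset.univ.filter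
      (fun M : Matrix (Fin 3) (Fin 3) (ZMod 2) => M.det = 1 ∧ M ^ d = 1)).card := by
  unfold fc
  rw [← Fintype.card_subtype, ← Nat.card_eq_fintype_card]
  apply Nat.card_congr
  exact
    { toFun := fun g => ⟨g.1.1, g.1.2, by
        rw [← Matrix.SpecialLinearGroup.coe_pow, g.2]
        rfl⟩
      invFun := fun M => ⟨toSL3 M.1 M.2.1, by
        have h : (toSL3 M.1 M.2.1 ^ d).1 = (1 : SL3).1 := by
          rw [Matrix.SpecialLinearGroup.coe_pow]
          exact M.2.2
        exact Subtype.ext h⟩
      left_inv := fun g => rfl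
      right_inv := fun M => rfl }

theorem card_SL3 : Nat.card SL3 = 168 := by
  rw [← fc_zero, fc_SL3]
  decide +kernel

theorem fc_SL3_2 : fc SL3 2 = 22 := by
  rw [fc_SL3]
  decide +kernel

theorem fc_SL3_3 : fc SL3 3 = 57 := by
  rw [fc_SL3]
  decide +kernel

theorem fc_SL3_4 : fc SL3 4 = 64 := by
  rw [fc_SL3]
  decide +kernel

theorem fc_SL3_7 : fc SL3 7 = 49 := by
  rw [fc_SL3]
  decide +kernel

/-- numbers of elements of each order in `SL(3, 2)` -/
def cSL (m : ℕ) : ℕ :=
  if m = 1 then 1 else if m = 2 then 21 else if m = 3 then 56 else if m = 4 then 42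
  else if m = 7 then 48 else 0

/-- numbers of solutions of `x ^ d = 1` in `SL(3, 2)` -/
def fSL (d : ℕ) : ℕ := ∑ m ∈ d.divisors, cSL m

theorem fc_SL3_eq (d : ℕ) (hd : d ≠ 0) : fc SL3 d = fSL d := by
  refine fc_table SL3 {1, 2, 3, 4, 7} cSL (by decide) (by decide) ?_ ?_ ?_ d hd
  · intro m hm
    simp only [Finset.mem_insert, Finset.mem_singleton] at hm
    rcases hm with rfl | rfl | rfl | rfl | rfl
    · rw [fc_one]
      decide
    · rw [fc_SL3_2]
      decide
    · rw [fc_SL3_3]
      decide
    · rw [fc_SL3_4]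
      decide
    · rw [fc_SL3_7]
      decide
  · intro m hm
    simp only [Finset.mem_insert, Finset.mem_singleton, not_or] at hm
    obtain ⟨h1, h2, h3, h4, h7⟩ := hm
    simp [cSL, h1, h2, h3, h4, h7]
  · rw [card_SL3]
    decide

open scoped commutatorElement

theorem transv_mem_commutator (i j k : Fin 3) (hij : i ≠ j) (hik : i ≠ k) (hkj : k ≠ j) :
    Matrix.SpecialLinearGroup.transvection hij (1 : ZMod 2) ∈ commutator SL3 := by
  have h : Matrix.SpecialLinearGroup.transvection hij (1 : ZMod 2) =
      ⁅(Matrix.SpecialLinearGroup.transvection hik (1 : ZMod 2) : SL3),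
        Matrix.SpecialLinearGroup.transvection hkj (1 : ZMod 2)⁆ := by
    rw [commutatorElement_def, eq_mul_inv_iff_mul_eq, eq_mul_inv_iff_mul_eq]
    apply Subtype.ext
    simp only [Matrix.SpecialLinearGroup.coe_mul, Matrix.SpecialLinearGroup.transvection_coe]
    revert i j k
    decide +kernel
  rw [h]
  exact Subgroup.commutator_mem_commutator (Subgroup.mem_top _) (Subgroup.mem_top _)

theorem SL3_commutator : commutator SL3 = ⊤ := by
  rw [eq_top_iff]
  intro M _
  refine Matrix.SpecialLinearGroup.diagonal_transvection_induction'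
    (fun M => M ∈ commutator SL3) M ?_ ?_ ?_
  · intro i j hij c hc
    have hc1 : c = 1 := by
      revert c
      decide
    subst hc1
    have h1 : Matrix.SpecialLinearGroup.diag2n hij (1 : ZMod 2) hc = 1 := by
      apply Subtype.ext
      rw [Matrix.SpecialLinearGroup.diag2n_coe]
      ext a b
      by_cases hab : a = b
      · subst hab
        simp
      · simp [hab]
    rw [h1]
    exact one_mem _
  · intro i j hij a
    have ha : a = 0 ∨ a = 1 := by
      revert a
      decide
    rcases ha with rfl | rfl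
    · rw [Matrix.SpecialLinearGroup.transvection_coeff_zero]
      exact one_mem _
    · have hk : ∃ k : Fin 3, i ≠ k ∧ k ≠ j := by
        revert i j
        decide
      obtain ⟨k, hik, hkj⟩ := hk
      exact transv_mem_commutator i j k hij hik hkj
  · intro A B hA hB
    exact mul_mem hA hB

theorem SL3_not_isSolvable : ¬ Group.IsSolvable SL3 := by
  intro h
  have : Nontrivial SL3 := by
    rw [← Finite.one_lt_card_iff_nontrivial, card_SL3]
    norm_num
  exact (Group.IsSolvable.commutator_lt_top_of_nontrivial SL3).ne SL3_commutator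

end Cfsg.Agent.Helper14.OT
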