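import Mathlib

set_option autoImplicit false

namespace Cfsg.Agent.Helper14.PSLSpec

open Polynomial

/-- the projection `SL → PSL`. -/
def proj (F : Type*) [Field F] (n : ℕ) :
    Matrix.SpecialLinearGroup (Fin n) F →* Matrix.ProjectiveSpecialLinearGroup (Fin n) F :=
  QuotientGroup.mk' _

theorem proj_surjective (F : Type*) [Field F] (n : ℕ) : Function.Surjective (proj F n) :=
  QuotientGroup.mk'_surjective _

theorem proj_eq_one_iff {F : Type*} [Field F] {n : ℕ} (A : Matrix.SpecialLinearGroup (Fin n) F) :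
    proj F n A = 1 ↔ ∃ c : F, (A : Matrix (Fin n) (Fin n) F) = algebraMap F _ c := by
  have h1 : proj F n A = 1 ↔ A ∈ Subgroup.center (Matrix.SpecialLinearGroup (Fin n) F) :=
    QuotientGroup.eq_one_iff A
  rw [h1, Matrix.SpecialLinearGroup.mem_center_iff]
  constructor
  · rintro ⟨c, -, hc⟩
    refine ⟨c, ?_⟩
    rw [← hc, Matrix.algebraMap_eq_diagonal]
    rfl
  · rintro ⟨c, hc⟩
    refine ⟨c, ?_, ?_⟩
    · have hdet := A.det_coe
      rw [hc, Matrix.algebraMap_eq_diagonal, Matrix.det_diagonal] at hdet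
      simpa using hdet
    · rw [hc, Matrix.algebraMap_eq_diagonal]
      rfl

theorem proj_pow_eq_one_iff {F : Type*} [Field F] {n : ℕ} (A : Matrix.SpecialLinearGroup (Fin n) F)
    (k : ℕ) :
    proj F n A ^ k = 1 ↔ ∃ c : F, (A : Matrix (Fin n) (Fin n) F) ^ k = algebraMap F _ c := by
  rw [← map_pow, proj_eq_one_iff, Matrix.SpecialLinearGroup.coe_pow]

theorem commute_aeval {F : Type*} [Field F] {n : ℕ} (Z Y : Matrix (Fin n) (Fin n) F) (P : F[X])
    (h : Commute Z Y) : Commute Z (aeval Y P) := by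
  rw [aeval_eq_sum_range]
  apply Commute.sum_right
  intro i _
  exact (h.pow_right i).smul_right _

/-- a root of unity of prime order `r` in `F`. -/
theorem exists_root_of_unity {F : Type*} [Field F] [Fintype F] (r : ℕ) (hr : r.Prime)
    (hrq : r ∣ Fintype.card F - 1) : ∃ ε : F, ε ^ r = 1 ∧ ε ≠ 1 := by
  classical
  have : Fact r.Prime := ⟨hr⟩
  have h1 : r ∣ Nat.card Fˣ := by
    rw [Nat.card_eq_fintype_card, Fintype.card_units]
    exact hrq
  obtain ⟨x, hx⟩ := exists_prime_orderOf_dvd_card' r h1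
  refine ⟨(x : F), ?_, ?_⟩
  · rw [← Units.val_pow_eq_pow_val, ← hx, pow_orderOf_eq_one, Units.val_one]
  · intro h
    have : x = 1 := Units.ext h
    rw [this, orderOf_one] at hx
    exact hr.one_lt.ne hx

/-- Lemma (A'): a matrix annihilated by a product of two coprime polynomials, neither of which
annihilates it, commutes with an element of `SL` of order `r` modulo scalars; that element
is a polynomial in the matrix. -/
theorem exists_commuting {F : Type*} [Field F] [Fintype F] {n : ℕ} (r : ℕ) (hr : r.Prime)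
    (hrq : r ∣ Fintype.card F - 1) (hrn : ¬ r ∣ n)
    (Y : Matrix (Fin n) (Fin n) F) (g₁ g₂ : F[X]) (hcop : IsCoprime g₁ g₂)
    (h0 : aeval Y (g₁ * g₂) = 0) (h1 : aeval Y g₁ ≠ 0) (h2 : aeval Y g₂ ≠ 0) :
    ∃ e : Matrix.SpecialLinearGroup (Fin n) F,
      (∀ Z : Matrix (Fin n) (Fin n) F, Commute Z Y → Commute Z (e : Matrix (Fin n) (Fin n) F)) ∧
      orderOf (proj F n e) = r := by
  classical
  have : Fact r.Prime := ⟨hr⟩
  obtain ⟨ε, hε, hε1⟩ := exists_root_of_unity r hr hrq
  obtain ⟨a, b, hab⟩ := hcop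
  set P : F[X] := C ε * (b * g₂) + a * g₁ with hP
  have hP1 : P - C ε = (1 - C ε) * a * g₁ := by
    rw [hP]
    linear_combination (C ε) * hab
  have hP2 : P - 1 = (C ε - 1) * b * g₂ := by
    rw [hP]
    linear_combination hab
  have hdvd1 : g₁ ∣ P ^ r - 1 := by
    have h3 : P - C ε ∣ P ^ r - (C ε) ^ r := sub_dvd_pow_sub_pow _ _ _
    rw [← C_pow, hε, C_1] at h3
    exact (Dvd.intro_left _ hP1.symm).trans h3
  have hdvd2 : g₂ ∣ P ^ r - 1 := by
    have h3 : P - 1 ∣ P ^ r - 1 ^ r := sub_dvd_pow_sub_pow _ _ _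
    rw [one_pow] at h3
    exact (Dvd.intro_left _ hP2.symm).trans h3
  have hdvd : g₁ * g₂ ∣ P ^ r - 1 := IsCoprime.mul_dvd ⟨a, b, hab⟩ hdvd1 hdvd2
  set E : Matrix (Fin n) (Fin n) F := aeval Y P with hE
  have hEr : E ^ r = 1 := by
    obtain ⟨h, hh⟩ := hdvd
    have h3 : aeval Y (P ^ r - 1) = 0 := by
      rw [hh, map_mul, h0, zero_mul]
    rw [map_sub, map_pow, map_one, sub_eq_zero] at h3
    exact h3
  have hδ : E.det ^ r = 1 := by
    rw [← Matrix.det_pow, hEr, Matrix.det_one]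
  have hδ0 : E.det ≠ 0 := by
    intro h
    rw [h, zero_pow hr.ne_zero] at hδ
    exact zero_ne_one hδ
  have hcopn : Nat.Coprime n r := ((Nat.Prime.coprime_iff_not_dvd hr).2 hrn).symm
  obtain ⟨n', -, hn'⟩ := Nat.exists_mul_mod_eq_one_of_coprime hcopn hr.one_lt
  have hdiv : n' * n = r * (n * n' / r) + 1 := by
    have := Nat.div_add_mod (n * n') r
    rw [hn'] at this
    rw [mul_comm n' n]
    exact this.symm
  set c : F := (E.det⁻¹) ^ n' with hc
  have hinvr : (E.det⁻¹) ^ r = 1 := by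
    rw [inv_pow, hδ, inv_one]
  have hcn : c ^ n = E.det⁻¹ := by
    rw [hc, ← pow_mul, hdiv, pow_succ, pow_mul, hinvr, one_pow, one_mul]
  have hcr : c ^ r = 1 := by
    rw [hc, ← pow_mul, mul_comm, pow_mul, hinvr, one_pow]
  have hc0 : c ≠ 0 := by
    intro h
    rw [h, zero_pow hr.ne_zero] at hcr
    exact zero_ne_one hcr
  have hdet : (c • E).det = 1 := by
    rw [Matrix.det_smul, Fintype.card_fin, hcn, inv_mul_cancel₀ hδ0]
  obtain ⟨e, he⟩ : ∃ e : Matrix.SpecialLinearGroup (Fin n) F,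
      (e : Matrix (Fin n) (Fin n) F) = c • E := ⟨⟨c • E, hdet⟩, rfl⟩
  refine ⟨e, ?_, ?_⟩
  · intro Z hZ
    rw [he]
    exact (commute_aeval Z Y P hZ).smul_right c
  · apply orderOf_eq_prime
    · rw [proj_pow_eq_one_iff]
      refine ⟨1, ?_⟩
      rw [he, _root_.smul_pow, hcr, hEr, one_smul, map_one]
    · intro h
      rw [proj_eq_one_iff] at h
      obtain ⟨l, hl⟩ := h
      rw [he] at hl
      have hE' : E = algebraMap F _ (c⁻¹ * l) := by
        rw [map_mul, ← hl, Algebra.algebraMap_eq_smul_one, smul_mul_assoc, one_mul, smul_smul,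
          inv_mul_cancel₀ hc0, one_smul]
      have hk1 : (E - algebraMap F _ ε) * aeval Y g₂ = 0 := by
        have h3 : E - algebraMap F _ ε = aeval Y (P - C ε) := by
          rw [map_sub, aeval_C]
        rw [h3, hP1, ← map_mul]
        have h4 : (1 - C ε) * a * g₁ * g₂ = (1 - C ε) * a * (g₁ * g₂) := by ring
        rw [h4, map_mul, h0, mul_zero]
      have hk2 : (E - 1) * aeval Y g₁ = 0 := by
        have h3 : E - 1 = aeval Y (P - 1) := by
          rw [map_sub, map_one]
        rw [h3, hP2, ← map_mul]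
        have h4 : (C ε - 1) * b * g₂ * g₁ = (C ε - 1) * b * (g₁ * g₂) := by ring
        rw [h4, map_mul, h0, mul_zero]
      rw [hE', ← map_sub, Algebra.algebraMap_eq_smul_one, smul_mul_assoc, one_mul, smul_eq_zero] at hk1
      have hk2' : (algebraMap F (Matrix (Fin n) (Fin n) F) (c⁻¹ * l) - 1) * aeval Y g₁ = 0 := by
        rw [← hE']
        exact hk2
      rw [← map_one (algebraMap F (Matrix (Fin n) (Fin n) F)), ← map_sub,
        Algebra.algebraMap_eq_smul_one, smul_mul_assoc, one_mul, smul_eq_zero] at hk2'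
      have e1 : c⁻¹ * l = ε := sub_eq_zero.1 (hk1.resolve_right h2)
      have e2 : c⁻¹ * l = 1 := sub_eq_zero.1 (hk2'.resolve_right h1)
      exact hε1 (e1.symm.trans e2)

end Cfsg.Agent.Helper14.PSLSpec
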