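import Mathlib
import Cfsg.Agent.Helper14.PSLSpecA

set_option autoImplicit false

namespace Cfsg.Agent.Helper14.PSLSpec

open Polynomial

/-- Two endomorphisms of finite vector spaces of the same size over a finite field, both
annihilated by the same irreducible polynomial, are intertwined by a linear isomorphism. -/
theorem exists_intertwiner {F : Type*} [Field F] [Finite F] {V₁ V₂ : Type*} [AddCommGroup V₁]
    [Module F V₁] [AddCommGroup V₂] [Module F V₂] [Finite V₁] [Finite V₂]
    (hcard : Nat.card V₁ = Nat.card V₂) (φ₁ : Module.End F V₁) (φ₂ : Module.End F V₂) (f : F[X])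
    (hf : Irreducible f) (h1 : aeval φ₁ f = 0) (h2 : aeval φ₂ f = 0) :
    ∃ g : V₁ ≃ₗ[F] V₂, ∀ v, g (φ₁ v) = φ₂ (g v) := by
  classical
  have : Fact (Irreducible f) := ⟨hf⟩
  let ρ₁ : AdjoinRoot f →+* Module.End F V₁ :=
    Ideal.Quotient.lift (Ideal.span {f}) (aeval φ₁ : F[X] →ₐ[F] Module.End F V₁).toRingHom (by
      intro a ha
      obtain ⟨b, rfl⟩ := Ideal.mem_span_singleton.1 ha
      simp [h1])
  let ρ₂ : AdjoinRoot f →+* Module.End F V₂ :=
    Ideal.Quotient.lift (Ideal.span {f}) (aeval φ₂ : F[X] →ₐ[F] Module.End F V₂).toRingHom (by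
      intro a ha
      obtain ⟨b, rfl⟩ := Ideal.mem_span_singleton.1 ha
      simp [h2])
  let m₁ : Module (AdjoinRoot f) V₁ := Module.compHom V₁ ρ₁
  let m₂ : Module (AdjoinRoot f) V₂ := Module.compHom V₂ ρ₂
  have : Module.Finite F (AdjoinRoot f) := (AdjoinRoot.powerBasis hf.ne_zero).finite
  have : Finite (AdjoinRoot f) := Module.finite_of_finite F
  have hfr : Module.finrank (AdjoinRoot f) V₁ = Module.finrank (AdjoinRoot f) V₂ := by
    have e1 : Nat.card V₁ = Nat.card (AdjoinRoot f) ^ Module.finrank (AdjoinRoot f) V₁ :=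
      Module.natCard_eq_pow_finrank
    have e2 : Nat.card V₂ = Nat.card (AdjoinRoot f) ^ Module.finrank (AdjoinRoot f) V₂ :=
      Module.natCard_eq_pow_finrank
    have h3 : 2 ≤ Nat.card (AdjoinRoot f) := Finite.one_lt_card
    exact Nat.pow_right_injective h3 (by simp only; rw [← e1, ← e2, hcard])
  let g : V₁ ≃ₗ[AdjoinRoot f] V₂ := LinearEquiv.ofFinrankEq V₁ V₂ hfr
  have hsmul₁ : ∀ (x : AdjoinRoot f) (v : V₁), x • v = ρ₁ x v := fun _ _ => rfl
  have hsmul₂ : ∀ (x : AdjoinRoot f) (v : V₂), x • v = ρ₂ x v := fun _ _ => rfl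
  have hof₁ : ∀ (c : F) (v : V₁), ρ₁ (AdjoinRoot.of f c) v = c • v := by
    intro c v
    have : ρ₁ (AdjoinRoot.of f c) = aeval φ₁ (C c) := rfl
    rw [this, aeval_C]
    simp
  have hof₂ : ∀ (c : F) (v : V₂), ρ₂ (AdjoinRoot.of f c) v = c • v := by
    intro c v
    have : ρ₂ (AdjoinRoot.of f c) = aeval φ₂ (C c) := rfl
    rw [this, aeval_C]
    simp
  have hroot₁ : ∀ v : V₁, ρ₁ (AdjoinRoot.root f) v = φ₁ v := by
    intro v
    have : ρ₁ (AdjoinRoot.root f) = aeval φ₁ X := rfl
    rw [this, aeval_X]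
  have hroot₂ : ∀ v : V₂, ρ₂ (AdjoinRoot.root f) v = φ₂ v := by
    intro v
    have : ρ₂ (AdjoinRoot.root f) = aeval φ₂ X := rfl
    rw [this, aeval_X]
  refine ⟨{ toFun := g, invFun := g.symm, map_add' := g.map_add, map_smul' := ?_,
            left_inv := g.left_inv, right_inv := g.right_inv }, ?_⟩
  · intro c v
    have e1 : c • v = (AdjoinRoot.of f c) • v := by rw [hsmul₁, hof₁]
    have e2 : c • g v = (AdjoinRoot.of f c) • g v := by rw [hsmul₂, hof₂]
    simp only [RingHom.id_apply]
    rw [e1, e2]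
    exact g.map_smul _ _
  · intro v
    have e1 : φ₁ v = (AdjoinRoot.root f) • v := by rw [hsmul₁, hroot₁]
    have e2 : φ₂ (g v) = (AdjoinRoot.root f) • g v := by rw [hsmul₂, hroot₂]
    show g (φ₁ v) = φ₂ (g v)
    rw [e1, e2]
    exact g.map_smul _ _

/-- The degree of an irreducible polynomial annihilating an endomorphism of a finite vector space
`V` divides the dimension of `V`. -/
theorem natDegree_dvd_finrank {F : Type*} [Field F] [Finite F] {V : Type*} [AddCommGroup V]
    [Module F V] [Finite V] (φ : Module.End F V) (f : F[X]) (hf : Irreducible f)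
    (h1 : aeval φ f = 0) : f.natDegree ∣ Module.finrank F V := by
  classical
  have : Fact (Irreducible f) := ⟨hf⟩
  let ρ₁ : AdjoinRoot f →+* Module.End F V :=
    Ideal.Quotient.lift (Ideal.span {f}) (aeval φ : F[X] →ₐ[F] Module.End F V).toRingHom (by
      intro a ha
      obtain ⟨b, rfl⟩ := Ideal.mem_span_singleton.1 ha
      simp [h1])
  let m₁ : Module (AdjoinRoot f) V := Module.compHom V ρ₁
  have : Module.Finite F (AdjoinRoot f) := (AdjoinRoot.powerBasis hf.ne_zero).finite
  have : Finite (AdjoinRoot f) := Module.finite_of_finite F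
  have e1 : Nat.card V = Nat.card (AdjoinRoot f) ^ Module.finrank (AdjoinRoot f) V :=
    Module.natCard_eq_pow_finrank
  have e2 : Nat.card V = Nat.card F ^ Module.finrank F V := Module.natCard_eq_pow_finrank
  have e3 : Nat.card (AdjoinRoot f) = Nat.card F ^ Module.finrank F (AdjoinRoot f) :=
    Module.natCard_eq_pow_finrank
  have e4 : Module.finrank F (AdjoinRoot f) = f.natDegree := by
    rw [(AdjoinRoot.powerBasis hf.ne_zero).finrank, AdjoinRoot.powerBasis_dim]
  have h3 : 2 ≤ Nat.card F := Finite.one_lt_card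
  rw [e3, e4, ← pow_mul] at e1
  have e5 : Module.finrank F V = f.natDegree * Module.finrank (AdjoinRoot f) V :=
    Nat.pow_right_injective h3 (by simp only; rw [← e1, ← e2])
  exact Dvd.intro _ e5.symm

end Cfsg.Agent.Helper14.PSLSpec
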