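import Mathlib
import Cfsg.Agent.Helper14.PSLSpecB

set_option autoImplicit false

namespace Cfsg.Agent.Helper14.PSLSpec

open Polynomial

/-- Singer data: there is an element `γ` of `PSL_n(F)` such that the image in `PSL_n(F)` of every
element of `SL_n(F)` with irreducible minimal polynomial has order dividing that of `γ`. -/
theorem singer_data {F : Type*} [Field F] [Fintype F] (n : ℕ) (hn : 1 ≤ n) :
    ∃ γ : Matrix.ProjectiveSpecialLinearGroup (Fin n) F,
      ∀ Y : Matrix.SpecialLinearGroup (Fin n) F,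
        Irreducible (minpoly F (Y : Matrix (Fin n) (Fin n) F)) →
          orderOf (proj F n Y) ∣ orderOf γ := by
  classical
  obtain ⟨p, hp⟩ := CharP.exists F
  have : Fact p.Prime := ⟨CharP.char_is_prime F p⟩
  have : NeZero n := ⟨by omega⟩
  let K := FiniteField.Extension F p n
  have hfin : Module.finrank F K = n := FiniteField.finrank_extension F p n
  let b : Module.Basis (Fin n) F K := Module.finBasisOfFinrankEq F K hfin
  let Θ : K →ₐ[F] Matrix (Fin n) (Fin n) F :=
    (LinearMap.toMatrixAlgEquiv b : Module.End F K ≃ₐ[F] Matrix (Fin n) (Fin n) F).toAlgHom.comp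
      (Algebra.lmul F K)
  have hΘ : ∀ t : K, Θ t = LinearMap.toMatrix b b (LinearMap.mulLeft F t) := fun t => rfl
  let Θu : Kˣ →* GL (Fin n) F := Units.map (Θ : K →* Matrix (Fin n) (Fin n) F)
  let SLsub : Subgroup (GL (Fin n) F) :=
    (Matrix.SpecialLinearGroup.toGL : Matrix.SpecialLinearGroup (Fin n) F →* GL (Fin n) F).range
  let D : Subgroup Kˣ := SLsub.comap Θu
  have hinj : Function.Injective
      (Matrix.SpecialLinearGroup.toGL : Matrix.SpecialLinearGroup (Fin n) F →* GL (Fin n) F) :=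
    Matrix.SpecialLinearGroup.toGL_injective
  let ψ₀ : D →* Matrix.SpecialLinearGroup (Fin n) F :=
    (MonoidHom.ofInjective hinj).symm.toMonoidHom.comp (Θu.subgroupComap SLsub)
  have hψ₀ : ∀ t : D, ((ψ₀ t : Matrix.SpecialLinearGroup (Fin n) F) : Matrix (Fin n) (Fin n) F) =
      Θ ((t : Kˣ) : K) := by
    intro t
    have h1 : Matrix.SpecialLinearGroup.toGL (ψ₀ t) = Θu (t : Kˣ) := by
      have := MonoidHom.apply_ofInjective_symm hinj ((Θu.subgroupComap SLsub) t)
      exact this
    have h2 := congrArg (fun u : GL (Fin n) F => (u : Matrix (Fin n) (Fin n) F)) h1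
    exact h2
  obtain ⟨t₀, ht₀⟩ := IsCyclic.exists_generator (α := D)
  refine ⟨proj F n (ψ₀ t₀), ?_⟩
  intro Y hirr
  set f := minpoly F (Y : Matrix (Fin n) (Fin n) F) with hfdef
  let φ₁ : Module.End F (Fin n → F) := Matrix.toLin' (Y : Matrix (Fin n) (Fin n) F)
  have h1 : aeval φ₁ f = 0 := by
    have h := aeval_algHom_apply
      (Matrix.toLinAlgEquiv' : Matrix (Fin n) (Fin n) F ≃ₐ[F] _) (Y : Matrix (Fin n) (Fin n) F) f
    have h' : φ₁ = Matrix.toLinAlgEquiv' (Y : Matrix (Fin n) (Fin n) F) := rfl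
    rw [h', h, hfdef, minpoly.aeval, map_zero]
  have hdvd : f.natDegree ∣ n := by
    have := natDegree_dvd_finrank φ₁ f hirr h1
    rwa [Module.finrank_fin_fun] at this
  have hfdvd : f ∣ X ^ (Nat.card F) ^ n - X :=
    (hirr.natDegree_dvd_iff_dvd_X_pow_card_pow_sub_X).1 hdvd
  have hsplit : (f.map (algebraMap F K)).Splits := by
    refine Splits.of_dvd ?_ ?_ (Polynomial.map_dvd (algebraMap F K) hfdvd)
    · exact IsSplittingField.splits K (X ^ Nat.card F ^ n - X)
    · exact Polynomial.map_ne_zero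
        (FiniteField.X_pow_card_pow_sub_X_ne_zero _ (NeZero.ne n) Finite.one_lt_card)
  obtain ⟨τ, hτ⟩ := hsplit.exists_eval_eq_zero (by
    rw [degree_map]
    exact (Irreducible.degree_pos hirr).ne')
  have hτ' : aeval τ f = 0 := by
    rwa [eval_map_algebraMap] at hτ
  let φ₂ : Module.End F K := LinearMap.mulLeft F τ
  have h2 : aeval φ₂ f = 0 := by
    have h := aeval_algHom_apply (Algebra.lmul F K) τ f
    have h' : φ₂ = Algebra.lmul F K τ := rfl
    rw [h', h, hτ', map_zero]
  have hcard : Nat.card (Fin n → F) = Nat.card K := by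
    rw [FiniteField.natCard_extension, Nat.card_eq_fintype_card, Nat.card_eq_fintype_card,
      Fintype.card_fun, Fintype.card_fin]
  obtain ⟨g, hg⟩ := exists_intertwiner hcard φ₁ φ₂ f hirr h1 h2
  let G : Matrix (Fin n) (Fin n) F :=
    LinearMap.toMatrix (Pi.basisFun F (Fin n)) b (g : (Fin n → F) →ₗ[F] K)
  let G' : Matrix (Fin n) (Fin n) F :=
    LinearMap.toMatrix b (Pi.basisFun F (Fin n)) (g.symm : K →ₗ[F] (Fin n → F))
  have hGG' : G * G' = 1 := by
    rw [← LinearMap.toMatrix_comp b (Pi.basisFun F (Fin n)) b]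
    rw [LinearEquiv.comp_coe, LinearEquiv.symm_trans_self, LinearEquiv.refl_toLinearMap,
      LinearMap.toMatrix_id]
  have hG'G : G' * G = 1 := by
    rw [← LinearMap.toMatrix_comp (Pi.basisFun F (Fin n)) b (Pi.basisFun F (Fin n))]
    rw [LinearEquiv.comp_coe, LinearEquiv.self_trans_symm, LinearEquiv.refl_toLinearMap,
      LinearMap.toMatrix_id]
  have hconj : G * (Y : Matrix (Fin n) (Fin n) F) = Θ τ * G := by
    have e1 : (Y : Matrix (Fin n) (Fin n) F) =
        LinearMap.toMatrix (Pi.basisFun F (Fin n)) (Pi.basisFun F (Fin n)) φ₁ := by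
      rw [LinearMap.toMatrix_eq_toMatrix', LinearMap.toMatrix'_toLin']
    rw [e1, hΘ, ← LinearMap.toMatrix_comp, ← LinearMap.toMatrix_comp]
    congr 1
    apply LinearMap.ext
    intro v
    exact hg v
  have hΘτ : Θ τ = G * (Y : Matrix (Fin n) (Fin n) F) * G' := by
    rw [hconj, mul_assoc, hGG', mul_one]
  have hpow : ∀ k : ℕ, (Θ τ) ^ k = G * (Y : Matrix (Fin n) (Fin n) F) ^ k * G' := by
    intro k
    induction k with
    | zero => rw [pow_zero, pow_zero, mul_one, hGG']
    | succ k ih =>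
      rw [pow_succ, ih, hΘτ, pow_succ]
      calc G * (Y : Matrix (Fin n) (Fin n) F) ^ k * G' * (G * (Y : Matrix (Fin n) (Fin n) F) * G')
          = G * (Y : Matrix (Fin n) (Fin n) F) ^ k * (G' * G) * (Y : Matrix (Fin n) (Fin n) F) * G' := by
            simp only [mul_assoc]
        _ = G * ((Y : Matrix (Fin n) (Fin n) F) ^ k * (Y : Matrix (Fin n) (Fin n) F)) * G' := by
            rw [hG'G]
            simp only [mul_assoc, mul_one]
  have hdet : (Θ τ).det = 1 := by
    rw [hΘτ, Matrix.det_mul, Matrix.det_mul, mul_right_comm, ← Matrix.det_mul, hGG',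
      Matrix.det_one, one_mul]
    exact Y.det_coe
  have hτ0 : τ ≠ 0 := by
    rintro rfl
    rw [map_zero] at hdet
    have : Nonempty (Fin n) := ⟨⟨0, by omega⟩⟩
    rw [Matrix.det_zero] at hdet
    exact zero_ne_one hdet
  let τu : Kˣ := Units.mk0 τ hτ0
  have hmem : τu ∈ D := by
    show Θu τu ∈ SLsub
    refine ⟨⟨Θ τ, hdet⟩, ?_⟩
    apply Units.ext
    rfl
  have hord : orderOf (proj F n Y) = orderOf (proj F n (ψ₀ ⟨τu, hmem⟩)) := by
    apply orderOf_eq_orderOf_iff.2
    intro k
    rw [proj_pow_eq_one_iff, proj_pow_eq_one_iff, hψ₀]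
    show (∃ c : F, (Y : Matrix (Fin n) (Fin n) F) ^ k = algebraMap F _ c) ↔
      (∃ c : F, (Θ τ) ^ k = algebraMap F _ c)
    constructor
    · rintro ⟨c, hc⟩
      refine ⟨c, ?_⟩
      rw [hpow, hc, ← Algebra.commutes, mul_assoc, hGG', mul_one]
    · rintro ⟨c, hc⟩
      refine ⟨c, ?_⟩
      have e1 : (Y : Matrix (Fin n) (Fin n) F) ^ k = G' * (Θ τ) ^ k * G := by
        rw [hpow]
        calc (Y : Matrix (Fin n) (Fin n) F) ^ k
            = (G' * G) * (Y : Matrix (Fin n) (Fin n) F) ^ k * (G' * G) := by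
              rw [hG'G, one_mul, mul_one]
          _ = G' * (G * (Y : Matrix (Fin n) (Fin n) F) ^ k * G') * G := by
              simp only [mul_assoc]
      rw [e1, hc, ← Algebra.commutes, mul_assoc, hG'G, mul_one]
  rw [hord]
  apply orderOf_dvd_of_mem_zpowers
  obtain ⟨k, hk⟩ := ht₀ ⟨τu, hmem⟩
  rw [← hk, map_zpow, map_zpow]
  exact zpow_mem (Subgroup.mem_zpowers _) k

end Cfsg.Agent.Helper14.PSLSpec
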