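import Mathlib
import Cfsg.Agent.Helper14.PSLSpecC

set_option autoImplicit false

namespace Cfsg.Agent.Helper14.PSLSpec

open Polynomial

theorem finite_psl (F : Type*) [Field F] [Fintype F] (n : ℕ) :
    Finite (Matrix.ProjectiveSpecialLinearGroup (Fin n) F) :=
  Finite.of_surjective (proj F n) (proj_surjective F n)

theorem charP_of_card {F : Type*} [Field F] [Fintype F] (p a : ℕ) (hp : p.Prime)
    (hF : Fintype.card F = p ^ a) : CharP F p := by
  obtain ⟨p', hp'⟩ := CharP.exists F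
  have hp'prime : p'.Prime := CharP.char_is_prime F p'
  have h1 : (Fintype.card F : F) = 0 := FiniteField.cast_card_eq_zero F
  have h2 : p' ∣ Fintype.card F := (CharP.cast_eq_zero_iff F p' _).1 h1
  rw [hF] at h2
  have h3 : p' = p := (Nat.prime_dvd_prime_iff_eq hp'prime hp).1 (hp'prime.dvd_of_dvd_pow h2)
  rw [← h3]
  exact hp'

theorem not_dvd_card_sub_one {F : Type*} [Field F] [Fintype F] (p a : ℕ) (hp : p.Prime)
    (ha : 1 ≤ a) (hF : Fintype.card F = p ^ a) : ¬ p ∣ Fintype.card F - 1 := by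
  intro h
  have h1 : p ∣ Fintype.card F := by
    rw [hF]
    exact dvd_pow_self p (by omega)
  have h2 : 1 ≤ Fintype.card F := Fintype.card_pos
  have h3 : p ∣ 1 := by
    have := (Nat.dvd_sub h1 h)
    rwa [Nat.sub_sub_self h2] at this
  exact hp.one_lt.ne' (Nat.dvd_one.1 h3)

/-- The dichotomy: an element of `PSL_n(F)` either commutes with an element of order `r`, or its
order is `p^j * c` with `c` dividing the order of the Singer element. -/
theorem dichotomy {F : Type*} [Field F] [Fintype F] (p a n r : ℕ) (hp : p.Prime) (ha : 1 ≤ a)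
    (hF : Fintype.card F = p ^ a) (hn : 1 ≤ n) (hr : r.Prime) (hrq : r ∣ Fintype.card F - 1)
    (hrn : ¬ r ∣ n) (γ : Matrix.ProjectiveSpecialLinearGroup (Fin n) F)
    (hγ : ∀ Y : Matrix.SpecialLinearGroup (Fin n) F,
        Irreducible (minpoly F (Y : Matrix (Fin n) (Fin n) F)) → orderOf (proj F n Y) ∣ orderOf γ)
    (x : Matrix.ProjectiveSpecialLinearGroup (Fin n) F) :
    (∃ e : Matrix.ProjectiveSpecialLinearGroup (Fin n) F, Commute x e ∧ orderOf e = r) ∨
    (∃ j c : ℕ, orderOf x = p ^ j * c ∧ c ∣ orderOf γ ∧ ¬ p ∣ c) := by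
  classical
  have := finite_psl F n
  have hchar : CharP F p := charP_of_card p a hp hF
  have hne : Nonempty (Fin n) := ⟨⟨0, by omega⟩⟩
  obtain ⟨j, c, hpc, ho⟩ := Nat.exists_eq_pow_mul_and_not_dvd (orderOf_pos x).ne' p hp.one_lt.ne'
  have hc0 : c ≠ 0 := by
    rintro rfl
    exact hpc (dvd_zero p)
  obtain ⟨A0, hX⟩ := proj_surjective F n x
  set Y := A0 ^ p ^ j with hY
  have hoY : orderOf (proj F n Y) = c := by
    rw [hY, map_pow, hX, orderOf_pow_of_dvd (pow_ne_zero _ hp.ne_zero) (by rw [ho]; exact Dvd.intro _ rfl),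
      ho, Nat.mul_div_cancel_left _ (pow_pos hp.pos j)]
  obtain ⟨l, hl⟩ := (proj_pow_eq_one_iff Y c).1 (by rw [← hoY, pow_orderOf_eq_one])
  have hl0 : l ≠ 0 := by
    rintro rfl
    have h1 : ((Y ^ c : Matrix.SpecialLinearGroup (Fin n) F) : Matrix (Fin n) (Fin n) F).det = 1 :=
      (Y ^ c).det_coe
    rw [Matrix.SpecialLinearGroup.coe_pow, hl, map_zero, Matrix.det_zero] at h1
    exact zero_ne_one h1
  set m := c * (Fintype.card F - 1) with hm
  have hYm : (Y : Matrix (Fin n) (Fin n) F) ^ m = 1 := by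
    rw [hm, pow_mul, hl, ← map_pow, FiniteField.pow_card_sub_one_eq_one l hl0, map_one]
  have hmF : (m : F) ≠ 0 := by
    rw [Ne, CharP.cast_eq_zero_iff F p, hm]
    intro h
    rcases (Nat.Prime.dvd_mul hp).1 h with h | h
    · exact hpc h
    · exact not_dvd_card_sub_one p a hp ha hF h
  have h1 : minpoly F (Y : Matrix (Fin n) (Fin n) F) ∣ X ^ m - 1 :=
    minpoly.dvd F _ (by simp [hYm])
  have hsep : (X ^ m - 1 : F[X]).Separable := by
    have := separable_X_pow_sub_C (1 : F) hmF one_ne_zero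
    simpa using this
  have hsq : Squarefree (minpoly F (Y : Matrix (Fin n) (Fin n) F)) :=
    hsep.squarefree.squarefree_of_dvd h1
  by_cases hirr : Irreducible (minpoly F (Y : Matrix (Fin n) (Fin n) F))
  · right
    refine ⟨j, c, ho, ?_, hpc⟩
    rw [← hoY]
    exact hγ Y hirr
  · left
    have hnu : ¬ IsUnit (minpoly F (Y : Matrix (Fin n) (Fin n) F)) := minpoly.not_isUnit F _
    rw [irreducible_iff] at hirr
    push Not at hirr
    obtain ⟨g₁, g₂, hg, hg1, hg2⟩ := hirr hnu
    rw [hg] at hsq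
    have hg0 : g₁ * g₂ ≠ 0 := hsq.ne_zero
    have hg10 : g₁ ≠ 0 := left_ne_zero_of_mul hg0
    have hg20 : g₂ ≠ 0 := right_ne_zero_of_mul hg0
    have hcop : IsCoprime g₁ g₂ := (squarefree_mul_iff.1 hsq).1.isCoprime
    have h0 : aeval (Y : Matrix (Fin n) (Fin n) F) (g₁ * g₂) = 0 := by
      rw [← hg, minpoly.aeval]
    have hne1 : aeval (Y : Matrix (Fin n) (Fin n) F) g₁ ≠ 0 := by
      intro h
      have h3 := minpoly.dvd F _ h
      rw [hg] at h3
      have h4 : g₁ * g₂ ∣ g₁ * 1 := by rwa [mul_one]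
      exact hg2 (isUnit_of_dvd_one ((mul_dvd_mul_iff_left hg10).1 h4))
    have hne2 : aeval (Y : Matrix (Fin n) (Fin n) F) g₂ ≠ 0 := by
      intro h
      have h3 := minpoly.dvd F _ h
      rw [hg] at h3
      have h4 : g₁ * g₂ ∣ 1 * g₂ := by rwa [one_mul]
      exact hg1 (isUnit_of_dvd_one ((mul_dvd_mul_iff_right hg20).1 h4))
    obtain ⟨e, hecomm, heord⟩ := exists_commuting r hr hrq hrn (Y : Matrix (Fin n) (Fin n) F)
      g₁ g₂ hcop h0 hne1 hne2
    refine ⟨proj F n e, ?_, heord⟩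
    rw [← hX]
    have h5 : Commute (A0 : Matrix (Fin n) (Fin n) F) (Y : Matrix (Fin n) (Fin n) F) := by
      rw [hY, Matrix.SpecialLinearGroup.coe_pow]
      exact (Commute.refl _).pow_right _
    have h6 := hecomm _ h5
    have h7 : Commute A0 e := by
      apply Matrix.SpecialLinearGroup.ext
      intro i k
      rw [Matrix.SpecialLinearGroup.coe_mul, Matrix.SpecialLinearGroup.coe_mul]
      exact congrFun (congrFun h6.eq i) k
    exact h7.map (proj F n)

end Cfsg.Agent.Helper14.PSLSpec
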