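import Mathlib
import Cfsg.Agent.Helper14.PSLSpecD

set_option autoImplicit false

namespace Cfsg.Agent.Helper14.PSLSpec

open Polynomial

theorem nilp_pow {F : Type*} [Field F] {m : ℕ} (M : Matrix (Fin m) (Fin m) F)
    (h : IsNilpotent M) : M ^ m = 0 := by
  have h1 := Matrix.isNilpotent_charpoly_sub_pow_of_isNilpotent h
  have h2 : M.charpoly = Polynomial.X ^ m := by
    have := h1.eq_zero
    rw [sub_eq_zero] at this
    simpa using this
  have h3 := Matrix.aeval_self_charpoly M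
  rw [h2] at h3
  simpa using h3

/-- the diagonal matrix `diag(ε, 1, …, 1)`. -/
def dmat (F : Type*) [Field F] (n : ℕ) (ε : F) : Matrix (Fin n) (Fin n) F :=
  Matrix.diagonal (fun i => if i.val = 0 then ε else 1)

/-- a nilpotent matrix: a Jordan block on the coordinates `1, …, n - 1`. -/
def nmat (F : Type*) [Field F] (n : ℕ) : Matrix (Fin n) (Fin n) F :=
  Matrix.of (fun i j => if 1 ≤ i.val ∧ j.val = i.val + 1 then 1 else 0)

theorem nmat_pow (F : Type*) [Field F] (n k : ℕ) :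
    (nmat F n) ^ (k + 1) =
      Matrix.of (fun i j : Fin n => if 1 ≤ i.val ∧ j.val = i.val + (k + 1) then (1 : F) else 0) := by
  induction k with
  | zero =>
    rw [zero_add, pow_one]
    rfl
  | succ k ih =>
    rw [pow_succ, ih]
    ext i j
    simp only [Matrix.mul_apply, Matrix.of_apply, nmat]
    by_cases h : 1 ≤ i.val ∧ j.val = i.val + (k + 1 + 1)
    · rw [if_pos h]
      rw [Finset.sum_eq_single (⟨i.val + (k + 1), by omega⟩ : Fin n)]
      · have h1 : 1 ≤ i.val ∧ i.val + (k + 1) = i.val + (k + 1) := ⟨h.1, rfl⟩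
        have h2 : 1 ≤ i.val + (k + 1) ∧ j.val = i.val + (k + 1) + 1 := ⟨by omega, by omega⟩
        simp [h1, h2]
      · intro l _ hl
        have : ¬ (1 ≤ i.val ∧ l.val = i.val + (k + 1)) := fun h' => hl (Fin.ext h'.2)
        simp [this]
      · simp
    · rw [if_neg h]
      apply Finset.sum_eq_zero
      intro l _
      by_cases h1 : 1 ≤ i.val ∧ l.val = i.val + (k + 1)
      · have : ¬ (1 ≤ l.val ∧ j.val = l.val + 1) := by
          intro h2
          apply h
          exact ⟨h1.1, by omega⟩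
        simp [this]
      · simp [h1]

theorem nmat_pow_eq_zero_iff (F : Type*) [Field F] (n k : ℕ) (hn : 2 ≤ n) (hk : 1 ≤ k) :
    (nmat F n) ^ k = 0 ↔ n - 1 ≤ k := by
  obtain ⟨k', rfl⟩ : ∃ k', k = k' + 1 := ⟨k - 1, by omega⟩
  rw [nmat_pow]
  constructor
  · intro h
    by_contra hlt
    have h1 := congrFun (congrFun h (⟨1, by omega⟩ : Fin n)) (⟨1 + (k' + 1), by omega⟩ : Fin n)
    simp at h1
  · intro h
    ext i j
    have : ¬ (1 ≤ i.val ∧ j.val = i.val + (k' + 1)) := by
      intro h2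
      have := j.isLt
      omega
    simp [this]

theorem commute_nmat_dmat (F : Type*) [Field F] (n : ℕ) (ε : F) :
    Commute (1 + nmat F n) (dmat F n ε) := by
  apply Commute.add_left (Commute.one_left _)
  ext i j
  rw [dmat, Matrix.mul_diagonal, Matrix.diagonal_mul]
  simp only [nmat, Matrix.of_apply]
  by_cases h : 1 ≤ i.val ∧ j.val = i.val + 1
  · have h1 : ¬ i.val = 0 := by omega
    have h2 : ¬ j.val = 0 := by omega
    simp [h1, h2]
  · simp [h]

theorem det_tmat (F : Type*) [Field F] (n : ℕ) : (1 + nmat F n).det = 1 := by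
  rw [Matrix.det_of_isUpperTriangular]
  · apply Finset.prod_eq_one
    intro i _
    simp [nmat]
  · intro i j hij
    have h1 : (j : Fin n) < i := hij
    have h2 : ¬ (1 ≤ i.val ∧ j.val = i.val + 1) := by
      intro h
      have : j.val < i.val := h1
      omega
    have h3 : i ≠ j := fun h => by
      rw [h] at h1
      exact lt_irrefl _ h1
    simp [nmat, h2, h3]

theorem tmat_pow_row (F : Type*) [Field F] (n k : ℕ) (i j : Fin n) (hi : i.val = 0) :
    ((1 + nmat F n) ^ k) i j = (1 : Matrix (Fin n) (Fin n) F) i j := by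
  induction k generalizing j with
  | zero => rw [pow_zero]
  | succ k ih =>
    rw [pow_succ, Matrix.mul_apply]
    have h1 : ∀ l : Fin n, ((1 + nmat F n) ^ k) i l * (1 + nmat F n) l j =
        (1 : Matrix (Fin n) (Fin n) F) i l * (1 + nmat F n) l j := by
      intro l
      rw [ih]
    rw [Finset.sum_congr rfl (fun l _ => h1 l), ← Matrix.mul_apply, one_mul]
    have h2 : ¬ (1 ≤ i.val ∧ j.val = i.val + 1) := by omega
    simp [nmat, h2]

/-- an element of `SL_n(F)` of order `r` modulo scalars commuting with everything that commutes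
with `diag(ε, 1, …, 1)`. -/
theorem exists_e0 {F : Type*} [Field F] [Fintype F] (n r : ℕ) (hn : 2 ≤ n) (hr : r.Prime)
    (hrq : r ∣ Fintype.card F - 1) (hrn : ¬ r ∣ n) :
    ∃ (ε : F) (e : Matrix.SpecialLinearGroup (Fin n) F),
      (∀ Z : Matrix (Fin n) (Fin n) F, Commute Z (dmat F n ε) →
        Commute Z (e : Matrix (Fin n) (Fin n) F)) ∧ orderOf (proj F n e) = r := by
  classical
  obtain ⟨ε, hε, hε1⟩ := exists_root_of_unity r hr hrq
  have hcop : IsCoprime (X - C ε : F[X]) (X - C 1) :=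
    isCoprime_X_sub_C_of_isUnit_sub (isUnit_iff_ne_zero.2 (sub_ne_zero.2 hε1))
  have e1 : aeval (dmat F n ε) (X - C ε : F[X]) =
      Matrix.diagonal (fun i : Fin n => (if i.val = 0 then ε else 1) - ε) := by
    rw [map_sub, aeval_X, aeval_C, Matrix.algebraMap_eq_diagonal, dmat, Matrix.diagonal_sub]
    rfl
  have e2 : aeval (dmat F n ε) (X - C 1 : F[X]) =
      Matrix.diagonal (fun i : Fin n => (if i.val = 0 then ε else 1) - 1) := by
    rw [map_sub, aeval_X, aeval_C, Matrix.algebraMap_eq_diagonal, dmat, Matrix.diagonal_sub]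
    rfl
  have h0 : aeval (dmat F n ε) ((X - C ε : F[X]) * (X - C 1)) = 0 := by
    rw [map_mul, e1, e2, Matrix.diagonal_mul_diagonal]
    ext i j
    by_cases hij : i = j
    · subst hij
      rw [Matrix.diagonal_apply_eq]
      by_cases hi : i.val = 0
      · simp [hi]
      · simp [hi]
    · rw [Matrix.diagonal_apply_ne _ hij]
      rfl
  have h1 : aeval (dmat F n ε) (X - C ε : F[X]) ≠ 0 := by
    rw [e1]
    intro h
    have h3 := congrFun (congrFun h (⟨1, by omega⟩ : Fin n)) (⟨1, by omega⟩ : Fin n)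
    rw [Matrix.diagonal_apply_eq] at h3
    simp at h3
    exact hε1 (sub_eq_zero.1 h3).symm
  have h2 : aeval (dmat F n ε) (X - C 1 : F[X]) ≠ 0 := by
    rw [e2]
    intro h
    have h3 := congrFun (congrFun h (⟨0, by omega⟩ : Fin n)) (⟨0, by omega⟩ : Fin n)
    rw [Matrix.diagonal_apply_eq] at h3
    simp at h3
    exact hε1 (sub_eq_zero.1 h3)
  obtain ⟨e, he1, he2⟩ := exists_commuting r hr hrq hrn (dmat F n ε) _ _ hcop h0 h1 h2
  exact ⟨ε, e, he1, he2⟩

/-- an element of order `r` in `PSL_n(F)`. -/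
theorem exists_r_element {F : Type*} [Field F] [Fintype F] (n r : ℕ) (hn : 2 ≤ n) (hr : r.Prime)
    (hrq : r ∣ Fintype.card F - 1) (hrn : ¬ r ∣ n) :
    ∃ w : Matrix.ProjectiveSpecialLinearGroup (Fin n) F, orderOf w = r := by
  obtain ⟨ε, e, -, he⟩ := exists_e0 (F := F) n r hn hr hrq hrn
  exact ⟨_, he⟩

/-- (U1): a `p`-element of `PSL_n(F)` of order `p^J`, `J ≥ 1`, has `p^(J-1) < n`. -/
theorem p_order_bound {F : Type*} [Field F] [Fintype F] (p a n : ℕ) (hp : p.Prime) (ha : 1 ≤ a)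
    (hF : Fintype.card F = p ^ a) (hn : 1 ≤ n)
    (u : Matrix.ProjectiveSpecialLinearGroup (Fin n) F) (J : ℕ) (hJ : 1 ≤ J)
    (hu : orderOf u = p ^ J) : p ^ (J - 1) < n := by
  classical
  by_contra hge
  push Not at hge
  have hchar : CharP F p := charP_of_card p a hp hF
  have : Fact p.Prime := ⟨hp⟩
  have hne : Nonempty (Fin n) := ⟨⟨0, by omega⟩⟩
  obtain ⟨U, hU⟩ := proj_surjective F n u
  obtain ⟨l, hl⟩ := (proj_pow_eq_one_iff U (p ^ J)).1 (by rw [hU, ← hu, pow_orderOf_eq_one])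
  have hl0 : l ≠ 0 := by
    rintro rfl
    have h1 : ((U ^ p ^ J : Matrix.SpecialLinearGroup (Fin n) F) : Matrix (Fin n) (Fin n) F).det = 1 :=
      (U ^ p ^ J).det_coe
    rw [Matrix.SpecialLinearGroup.coe_pow, hl, map_zero, Matrix.det_zero] at h1
    exact zero_ne_one h1
  set U₁ : Matrix (Fin n) (Fin n) F := (U : Matrix (Fin n) (Fin n) F) ^ (Fintype.card F - 1) with hU₁
  have h1 : U₁ ^ p ^ J = 1 := by
    rw [hU₁, ← pow_mul, mul_comm, pow_mul, hl, ← map_pow, FiniteField.pow_card_sub_one_eq_one l hl0,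
      map_one]
  have h2 : IsNilpotent (U₁ - 1) := by
    refine ⟨p ^ J, ?_⟩
    rw [sub_pow_char_pow_of_commute p J (Commute.one_right _), one_pow, h1, sub_self]
  have h3 := nilp_pow (U₁ - 1) h2
  have h4 : (U₁ - 1) ^ p ^ (J - 1) = 0 := by
    rw [← Nat.sub_add_cancel hge, pow_add, h3, mul_zero]
  rw [sub_pow_char_pow_of_commute p (J - 1) (Commute.one_right _), one_pow, sub_eq_zero] at h4
  have h5 : U ^ ((Fintype.card F - 1) * p ^ (J - 1)) = 1 := by
    apply Matrix.SpecialLinearGroup.ext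
    intro i k
    rw [Matrix.SpecialLinearGroup.coe_pow, pow_mul, h4, Matrix.SpecialLinearGroup.coe_one]
  have h6 : u ^ ((Fintype.card F - 1) * p ^ (J - 1)) = 1 := by
    rw [← hU, ← map_pow, h5, map_one]
  have h7 := orderOf_dvd_of_pow_eq_one h6
  rw [hu] at h7
  have h8 : p ^ J = p * p ^ (J - 1) := by
    rw [← pow_succ']
    congr 1
    omega
  rw [h8] at h7
  have h9 : p ∣ Fintype.card F - 1 := (Nat.mul_dvd_mul_iff_right (pow_pos hp.pos _)).1 h7
  exact not_dvd_card_sub_one p a hp ha hF h9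

/-- (U2): an element of order `p^J * r` in `PSL_n(F)` when `p^(J-1) < n - 1`. -/
theorem exists_p_r_element {F : Type*} [Field F] [Fintype F] (p a n r : ℕ) (hp : p.Prime)
    (ha : 1 ≤ a) (hF : Fintype.card F = p ^ a) (hn : 2 ≤ n) (hr : r.Prime)
    (hrq : r ∣ Fintype.card F - 1) (hrn : ¬ r ∣ n) (J : ℕ) (hJ : 1 ≤ J)
    (hlt : p ^ (J - 1) < n - 1) :
    ∃ w : Matrix.ProjectiveSpecialLinearGroup (Fin n) F, orderOf w = p ^ J * r := by
  classical
  have := finite_psl F n
  have hchar : CharP F p := charP_of_card p a hp hF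
  have : Fact p.Prime := ⟨hp⟩
  have hne : Nonempty (Fin n) := ⟨⟨0, by omega⟩⟩
  obtain ⟨ε, e, hecomm, heord⟩ := exists_e0 (F := F) n r hn hr hrq hrn
  obtain ⟨T, hT⟩ : ∃ T : Matrix.SpecialLinearGroup (Fin n) F,
      (T : Matrix (Fin n) (Fin n) F) = 1 + nmat F n := ⟨⟨1 + nmat F n, det_tmat F n⟩, rfl⟩
  have hTpow : ∀ i : ℕ, (proj F n T) ^ (p ^ i) = 1 ↔ n - 1 ≤ p ^ i := by
    intro i
    rw [proj_pow_eq_one_iff, hT]
    have hexp : (1 + nmat F n) ^ p ^ i = 1 + (nmat F n) ^ p ^ i := by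
      rw [add_pow_char_pow_of_commute p i (Commute.one_left _), one_pow]
    have hpi : 1 ≤ p ^ i := Nat.one_le_pow _ _ hp.pos
    constructor
    · rintro ⟨c, hc⟩
      have h0 := congrFun (congrFun hc (⟨0, by omega⟩ : Fin n)) (⟨0, by omega⟩ : Fin n)
      rw [tmat_pow_row F n _ _ _ rfl, Matrix.algebraMap_eq_diagonal, Matrix.one_apply_eq] at h0
      have hc1 : c = 1 := by
        simpa using h0.symm
      rw [hc1, map_one, hexp] at hc
      have h1 : (nmat F n) ^ p ^ i = 0 := by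
        have := congrArg (fun M => M - 1) hc
        simpa using this
      exact (nmat_pow_eq_zero_iff F n _ hn hpi).1 h1
    · intro h
      refine ⟨1, ?_⟩
      rw [hexp, (nmat_pow_eq_zero_iff F n _ hn hpi).2 h, add_zero, map_one]
  obtain ⟨i₀, hi₀⟩ : ∃ i, n - 1 ≤ p ^ i :=
    ⟨n, le_trans (by omega) (Nat.lt_pow_self hp.one_lt).le⟩
  have hdvd : orderOf (proj F n T) ∣ p ^ i₀ := orderOf_dvd_of_pow_eq_one ((hTpow i₀).2 hi₀)
  obtain ⟨j, hj, hoj⟩ := (Nat.dvd_prime_pow hp).1 hdvd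
  have hJj : J ≤ j := by
    have h1 : n - 1 ≤ p ^ j := (hTpow j).1 (by rw [← hoj, pow_orderOf_eq_one])
    have h2 : p ^ (J - 1) < p ^ j := lt_of_lt_of_le hlt h1
    have h3 := (Nat.pow_lt_pow_iff_right hp.one_lt).1 h2
    omega
  have hū : orderOf ((proj F n T) ^ (orderOf (proj F n T) / p ^ J)) = p ^ J :=
    orderOf_pow_orderOf_div (orderOf_pos _).ne' (by rw [hoj]; exact pow_dvd_pow p hJj)
  have hcomm : Commute ((proj F n T) ^ (orderOf (proj F n T) / p ^ J)) (proj F n e) := by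
    have h1 : Commute (T : Matrix (Fin n) (Fin n) F) (e : Matrix (Fin n) (Fin n) F) :=
      hecomm _ (by rw [hT]; exact commute_nmat_dmat F n ε)
    have h2 : Commute T e := by
      apply Matrix.SpecialLinearGroup.ext
      intro i k
      rw [Matrix.SpecialLinearGroup.coe_mul, Matrix.SpecialLinearGroup.coe_mul]
      exact congrFun (congrFun h1.eq i) k
    exact (h2.map (proj F n)).pow_left _
  have hpr : p ≠ r := by
    rintro rfl
    exact not_dvd_card_sub_one p a hp ha hF hrq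
  refine ⟨(proj F n T) ^ (orderOf (proj F n T) / p ^ J) * proj F n e, ?_⟩
  rw [hcomm.orderOf_mul_eq_mul_orderOf_of_coprime (by
    rw [hū, heord]
    exact Nat.Coprime.pow_left J ((Nat.coprime_primes hp hr).2 hpr)), hū, heord]

end Cfsg.Agent.Helper14.PSLSpec
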