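import Mathlib
import Cfsg.Agent.Helper14.SubD
import Cfsg.Agent.Helper14.PSLMax
import Cfsg.Agent.Helper1.Dickson

set_option autoImplicit false

namespace Cfsg.Agent.Helper14.SubE

open Cfsg.Agent.Helper14.SubA Cfsg.Agent.Helper14.SubB Cfsg.Agent.Helper14.SubC
  Cfsg.Agent.Helper14.SubD
open Cfsg.Agent.Helper14.Mat2 Cfsg.Agent.Helper14.SL2Odd Cfsg.Agent.Helper14.PSL2
  Cfsg.Agent.Helper14.SL2Conj Cfsg.Agent.Helper14.Torus Cfsg.Agent.Helper14.TorusB
  Cfsg.Agent.Helper14.TorusC Cfsg.Agent.Helper14.TorusD Cfsg.Agent.Helper14.TorusE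
  Cfsg.Agent.Helper14.A4Sub Cfsg.Agent.Helper14.SL2T Cfsg.Agent.Helper14.SL2U
  Cfsg.Agent.Helper14.PSLMax

variable {F : Type*} [Field F]

local notation "SL2" => Matrix.SpecialLinearGroup (Fin 2) F
local notation "M2" => Matrix (Fin 2) (Fin 2) F
local notation "PSL2" => Matrix.ProjectiveSpecialLinearGroup (Fin 2) F

/-- conjugation by an invertible matrix as an endomorphism of `SL₂`. -/
def cj (G H : M2) (hGH : G * H = 1) (hHG : H * G = 1) : SL2 →* SL2 where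
  toFun m := ⟨G * (m : M2) * H, by
    rw [Matrix.det_mul, Matrix.det_mul, m.det_coe, mul_one, ← Matrix.det_mul, hGH,
      Matrix.det_one]⟩
  map_one' := by
    apply Subtype.ext
    show G * ((1 : SL2) : M2) * H = ((1 : SL2) : M2)
    rw [Matrix.SpecialLinearGroup.coe_one, mul_one, hGH]
  map_mul' := by
    intro a b
    apply Subtype.ext
    show G * ((a * b : SL2) : M2) * H = (G * (a : M2) * H) * (G * (b : M2) * H)
    rw [Matrix.SpecialLinearGroup.coe_mul]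
    calc G * ((a : M2) * (b : M2)) * H = G * (a : M2) * (1 : M2) * (b : M2) * H := by
          rw [mul_one]
          simp only [mul_assoc]
      _ = G * (a : M2) * H * (G * (b : M2) * H) := by
          rw [← hHG]
          simp only [mul_assoc]

theorem cj_coe (G H : M2) (hGH : G * H = 1) (hHG : H * G = 1) (m : SL2) :
    ((cj G H hGH hHG m : SL2) : M2) = G * (m : M2) * H := rfl

theorem cj_cj (G H : M2) (hGH : G * H = 1) (hHG : H * G = 1) (m : SL2) :
    cj G H hGH hHG (cj H G hHG hGH m) = m := by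
  apply Subtype.ext
  rw [cj_coe, cj_coe]
  calc G * (H * (m : M2) * G) * H = (G * H) * (m : M2) * (G * H) := by simp only [mul_assoc]
    _ = (m : M2) := by rw [hGH, one_mul, mul_one]

theorem cj_trace (G H : M2) (hGH : G * H = 1) (hHG : H * G = 1) (m : SL2) :
    ((cj G H hGH hHG m : SL2) : M2).trace = (m : M2).trace := by
  rw [cj_coe, Matrix.trace_mul_comm, ← mul_assoc, hHG, one_mul]

/-- from two non-commuting unipotent elements to a standard pair. -/
theorem std_pair [Fintype F] (p : ℕ) [Fact p.Prime] [CharP F p] (hodd : Odd p)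
    (Mt : Subgroup SL2) (u h : SL2) (hu : u ∈ Mt) (hh : h ∈ Mt) (htr : (u : M2).trace = 2)
    (hnc : ¬ Commute (h * u * h⁻¹) u) :
    ∃ G H : M2, G * H = 1 ∧ H * G = 1 ∧ (∃ x0 ∈ Mt, (x0 : M2) = G * !![1, 1; 0, 1] * H) ∧
      ∃ y0 ∈ Mt, (y0 : M2) = G * !![1, 0; 1, 1] * H := by
  classical
  obtain ⟨u', hu'⟩ : ∃ u' : SL2, u' = h * u * h⁻¹ := ⟨_, rfl⟩
  have hu'M : u' ∈ Mt := by
    rw [hu']
    exact Mt.mul_mem (Mt.mul_mem hh hu) (Mt.inv_mem hh)
  have htr' : (u' : M2).trace = 2 := by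
    rw [hu', trace_conj]
    exact htr
  have hsq : ∀ v : SL2, (v : M2).trace = 2 → ((v : M2) - 1) * ((v : M2) - 1) = 0 := by
    intro v hv
    have h1 := sq_eq v
    rw [hv, pow_two] at h1
    have e : ((v : M2) - 1) * ((v : M2) - 1) = (v : M2) * (v : M2) - (v : M2) - (v : M2) + 1 := by
      noncomm_ring
    rw [e, h1, two_smul]
    abel
  obtain ⟨α, hα⟩ : ∃ α : (Matrix (Fin 2) (Fin 2) F)ˣ, α = Matrix.SpecialLinearGroup.toGL u :=
    ⟨_, rfl⟩
  obtain ⟨β, hβ⟩ : ∃ β : (Matrix (Fin 2) (Fin 2) F)ˣ, β = Matrix.SpecialLinearGroup.toGL u' :=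
    ⟨_, rfl⟩
  have hαv : (α : M2) = (u : M2) := by
    rw [hα]
    rfl
  have hβv : (β : M2) = (u' : M2) := by
    rw [hβ]
    rfl
  have hAA := hsq u htr
  have hBB := hsq u' htr'
  have hABne : ((u : M2) - 1) * ((u' : M2) - 1) ≠ ((u' : M2) - 1) * ((u : M2) - 1) := by
    intro hc
    apply hnc
    have h1 := Cfsg.Agent.Helper1.comm_of_sub_one_comm _ _ hc
    show (h * u * h⁻¹) * u = u * (h * u * h⁻¹)
    rw [← hu']
    apply Subtype.ext
    rw [Matrix.SpecialLinearGroup.coe_mul, Matrix.SpecialLinearGroup.coe_mul]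
    exact h1.symm
  have hunit := Cfsg.Agent.Helper1.sq_zero_pair_isUnit _ _ hAA hBB hABne
  have hpR : ((p : ℕ) : Matrix (Fin 2) (Fin 2) F) = 0 := CharP.cast_eq_zero _ p
  obtain ⟨x₀, hx₀, y₀, hy₀, B₀, C₀, hB₀, hC₀, hBC₀, hx₀v, hy₀v⟩ :=
    Cfsg.Agent.Helper1.quad_pair_exists hodd hpR
      (Nat.card ↥(Subgroup.closure ({α, β} : Set (Matrix (Fin 2) (Fin 2) F)ˣ))) α β
      ((u : M2) - 1) ((u' : M2) - 1)
      (by rw [hαv]; abel) (by rw [hβv]; abel) hAA hBB hunit inferInstance le_rfl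
  obtain ⟨G, H, hGH, hHG, hCg, hBg⟩ := Cfsg.Agent.Helper1.matrix_units_conj B₀ C₀ hC₀ hB₀ hBC₀
  have hle : Subgroup.closure ({α, β} : Set (Matrix (Fin 2) (Fin 2) F)ˣ) ≤
      Mt.map Matrix.SpecialLinearGroup.toGL := by
    rw [Subgroup.closure_le]
    intro z hz
    rcases hz with rfl | hz
    · exact ⟨u, hu, hα.symm⟩
    · rw [Set.mem_singleton_iff.mp hz]
      exact ⟨u', hu'M, hβ.symm⟩
  obtain ⟨x0, hx0M, hx0⟩ := hle hx₀
  obtain ⟨y0, hy0M, hy0⟩ := hle hy₀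
  refine ⟨G, H, hGH, hHG, ⟨x0, hx0M, ?_⟩, ⟨y0, hy0M, ?_⟩⟩
  · have e0 : (x0 : M2) = (x₀ : M2) := by
      rw [← hx0]
      rfl
    have e1 : C₀ = G * Matrix.single 0 1 1 * H := by
      rw [← hCg, mul_assoc, hGH, mul_one]
    have e2 : (!![1, 1; 0, 1] : M2) = 1 + Matrix.single 0 1 1 := by
      ext i j
      fin_cases i <;> fin_cases j <;> simp [Matrix.single]
    rw [e0, hx₀v, e2, mul_add, add_mul, mul_one, hGH, ← e1]
  · have e0 : (y0 : M2) = (y₀ : M2) := by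
      rw [← hy0]
      rfl
    have e1 : B₀ = G * Matrix.single 1 0 1 * H := by
      rw [← hBg, mul_assoc, hGH, mul_one]
    have e2 : (!![1, 0; 1, 1] : M2) = 1 + Matrix.single 1 0 1 := by
      ext i j
      fin_cases i <;> fin_cases j <;> simp [Matrix.single]
    rw [e0, hy₀v, e2, mul_add, add_mul, mul_one, hGH, ← e1]

end Cfsg.Agent.Helper14.SubE
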