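import Mathlib
import Cfsg.Agent.Helper14.SubE

set_option autoImplicit false

namespace Cfsg.Agent.Helper14.SubF

open Cfsg.Agent.Helper14.SubA Cfsg.Agent.Helper14.SubB Cfsg.Agent.Helper14.SubC
  Cfsg.Agent.Helper14.SubD Cfsg.Agent.Helper14.SubE
open Cfsg.Agent.Helper14.Mat2 Cfsg.Agent.Helper14.SL2Odd Cfsg.Agent.Helper14.PSL2
  Cfsg.Agent.Helper14.SL2Conj Cfsg.Agent.Helper14.Torus Cfsg.Agent.Helper14.TorusB
  Cfsg.Agent.Helper14.TorusC Cfsg.Agent.Helper14.TorusD Cfsg.Agent.Helper14.TorusE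
  Cfsg.Agent.Helper14.A4Sub Cfsg.Agent.Helper14.SL2T Cfsg.Agent.Helper14.SL2U
  Cfsg.Agent.Helper14.PSLMax

variable {F : Type*} [Field F]

local notation "SL2" => Matrix.SpecialLinearGroup (Fin 2) F
local notation "M2" => Matrix (Fin 2) (Fin 2) F
local notation "PSL2" => Matrix.ProjectiveSpecialLinearGroup (Fin 2) F

/-- an overgroup of order divisible by `p` of a non-abelian `p'`-group contains two
non-commuting unipotent elements. -/
theorem unip_pair [Fintype F] (p : ℕ) [Fact p.Prime] [CharP F p] (hp2 : p ≠ 2)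
    (hodd : Odd (Fintype.card F))
    (H : Subgroup PSL2) (x y : PSL2) (hx : x ∈ H) (hy : y ∈ H)
    (hxy : x * x * (y * y) ≠ y * y * (x * x)) (hcop : ¬ p ∣ Nat.card H)
    (M : Subgroup PSL2) (hHM : H ≤ M)
    (hpM : p ∣ Nat.card (M.comap (QuotientGroup.mk' (Subgroup.center SL2)))) :
    ∃ u h : SL2, u ∈ M.comap (QuotientGroup.mk' (Subgroup.center SL2)) ∧
      h ∈ M.comap (QuotientGroup.mk' (Subgroup.center SL2)) ∧ u ≠ 1 ∧ (u : M2).trace = 2 ∧
      ¬ Commute (h * u * h⁻¹) u := by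
  have h2 := two_ne_zero_of_odd hodd
  obtain ⟨xt, hxt⟩ := QuotientGroup.mk_surjective x
  obtain ⟨yt, hyt⟩ := QuotientGroup.mk_surjective y
  obtain ⟨Mt, hMt⟩ : ∃ Mt : Subgroup SL2, Mt = M.comap (QuotientGroup.mk' (Subgroup.center SL2)) :=
    ⟨_, rfl⟩
  obtain ⟨Ht, hHt⟩ : ∃ Ht : Subgroup SL2, Ht = H.comap (QuotientGroup.mk' (Subgroup.center SL2)) :=
    ⟨_, rfl⟩
  rw [← hMt] at hpM ⊢
  have hmemM : ∀ g : SL2, g ∈ Mt ↔ (QuotientGroup.mk g : PSL2) ∈ M := by
    intro g
    rw [hMt]
    rfl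
  have hmemH : ∀ g : SL2, g ∈ Ht ↔ (QuotientGroup.mk g : PSL2) ∈ H := by
    intro g
    rw [hHt]
    rfl
  have hHtMt : Ht ≤ Mt := by
    intro g hg
    rw [hmemM]
    exact hHM ((hmemH g).mp hg)
  have hxtH : xt ∈ Ht := by
    rw [hmemH, hxt]
    exact hx
  have hytH : yt ∈ Ht := by
    rw [hmemH, hyt]
    exact hy
  have hcardH : Nat.card Ht = 2 * Nat.card H := by
    rw [hHt]
    exact card_comap hodd H
  have hcopH : ¬ p ∣ Nat.card Ht := by
    rw [hcardH]
    intro hd
    rcases (Nat.Prime.dvd_mul Fact.out).mp hd with h | h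
    · exact hp2 ((Nat.prime_dvd_prime_iff_eq Fact.out Nat.prime_two).mp h)
    · exact hcop h
  obtain ⟨u', hu'⟩ := exists_prime_orderOf_dvd_card' (G := Mt) p hpM
  obtain ⟨u, huM, hue⟩ : ∃ u : SL2, u ∈ Mt ∧ u = (u' : SL2) := ⟨_, u'.2, rfl⟩
  have huo : orderOf u = p := by
    rw [hue, Subgroup.orderOf_coe, hu']
  have hu1 : u ≠ 1 := by
    intro h
    rw [h, orderOf_one] at huo
    exact (Fact.out : p.Prime).one_lt.ne huo
  have hup : u ^ (p ^ 1) = 1 := by
    rw [pow_one, ← huo]
    exact pow_orderOf_eq_one u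
  have htr := (Cfsg.Agent.S3740.unipotent_of_pow p u 1 hup).1
  by_contra hcon
  have hall : ∀ h ∈ Mt, Commute (h * u * h⁻¹) u := by
    intro h hh
    by_contra hnc
    exact hcon ⟨u, h, huM, hh, hu1, htr, hnc⟩
  have c1 := hall xt (hHtMt hxtH)
  have c2 := hall yt (hHtMt hytH)
  have c1' := hall xt⁻¹ (Mt.inv_mem (hHtMt hxtH))
  have c2' := hall yt⁻¹ (Mt.inv_mem (hHtMt hytH))
  have htc := trace_comm_two h2 u hu1 htr xt yt c1 c2 c1' c2'
  have hcH : xt * yt * xt⁻¹ * yt⁻¹ ∈ Ht :=
    Ht.mul_mem (Ht.mul_mem (Ht.mul_mem hxtH hytH) (Ht.inv_mem hxtH)) (Ht.inv_mem hytH)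
  have h4 : ((xt * yt * xt⁻¹ * yt⁻¹ : SL2) : M2).trace ^ 2 = 4 := by
    rw [htc]
    norm_num
  rcases h1_of_coprime hodd p Ht hcopH _ hcH h4 with h | h
  · apply hxy
    have hcomm : xt * yt = yt * xt := by
      have : xt * yt = (xt * yt * xt⁻¹ * yt⁻¹) * (yt * xt) := by group
      rw [this, h, one_mul]
    have hcomm' : x * y = y * x := by
      rw [← hxt, ← hyt, ← QuotientGroup.mk_mul, ← QuotientGroup.mk_mul, hcomm]
    calc x * x * (y * y) = x * (x * y) * y := by group
      _ = x * (y * x) * y := by rw [hcomm']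
      _ = (x * y) * (x * y) := by group
      _ = (y * x) * (y * x) := by rw [hcomm']
      _ = y * (x * y) * x := by group
      _ = y * (y * x) * x := by rw [hcomm']
      _ = y * y * (x * x) := by group
  · rw [h, coe_negOne, Matrix.trace_fin_two_of] at htc
    apply h2
    have e : (2 : F) * 2 = 0 := by linear_combination -htc
    exact mul_self_eq_zero.mp e

/-- overgroups of a suitable `p'`-subgroup of `PSL₂(p²)` containing an element of order five,
when `5` is not a square modulo `p`. -/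
theorem max_sq [Fintype F] (p : ℕ) [Fact p.Prime] [CharP F p] (hF : Fintype.card F = p ^ 2)
    (hp5 : 5 ≤ p) (h5 : ¬ IsSquare ((5 : ℕ) : ZMod p))
    (H : Subgroup PSL2) (x y : PSL2) (hx : x ∈ H) (hy : y ∈ H)
    (hxy : x * x * (y * y) ≠ y * y * (x * x)) (hcop : ¬ p ∣ Nat.card H)
    (z : PSL2) (hz : z ∈ H) (hz5 : z ^ 5 = 1) (hz1 : z ≠ 1)
    (M : Subgroup PSL2) (hHM : H ≤ M) :
    M = ⊤ ∨ (Nat.card M = 12 ∨ Nat.card M = 24 ∨ Nat.card M = 60) := by
  have hpp : p.Prime := Fact.out
  have hp2 : p ≠ 2 := by omega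
  have hpodd : Odd p := hpp.odd_of_ne_two hp2
  have hodd : Odd (Fintype.card F) := by
    rw [hF]
    exact hpodd.pow
  have h2 := two_ne_zero_of_odd hodd
  have hQ : QF F p :=
    { add := fun a b => add_pow_char a b p
      invol := by
        intro t
        rw [← pow_mul, ← pow_two, ← hF]
        exact FiniteField.pow_card t
      odd := hpodd
      two := h2 }
  obtain ⟨Mt, hMt⟩ : ∃ Mt : Subgroup SL2, Mt = M.comap (QuotientGroup.mk' (Subgroup.center SL2)) :=
    ⟨_, rfl⟩
  have hmemM : ∀ g : SL2, g ∈ Mt ↔ (QuotientGroup.mk g : PSL2) ∈ M := by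
    intro g
    rw [hMt]
    rfl
  have hnegM : (negOne : SL2) ∈ Mt := by
    rw [hmemM]
    have : (QuotientGroup.mk (negOne : SL2) : PSL2) = 1 := by
      rw [QuotientGroup.eq_one_iff]
      exact negOne_mem_center
    rw [this]
    exact M.one_mem
  have hcardM : Nat.card Mt = 2 * Nat.card M := by
    rw [hMt]
    exact card_comap hodd M
  by_cases hpM : p ∣ Nat.card Mt
  · left
    obtain ⟨u, h, huM, hhM, hu1, htr, hnc⟩ := unip_pair p hp2 hodd H x y hx hy hxy hcop M hHM
      (by rw [← hMt]; exact hpM)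
    rw [← hMt] at huM hhM
    obtain ⟨G, H', hGH, hHG, ⟨x0, hx0M, hx0⟩, ⟨y0, hy0M, hy0⟩⟩ :=
      std_pair p hpodd Mt u h huM hhM htr hnc
    obtain ⟨M', hM'⟩ : ∃ M' : Subgroup SL2, M' = Mt.comap (cj G H' hGH hHG) := ⟨_, rfl⟩
    have hxe : xe (1 : F) ∈ M' := by
      rw [hM', Subgroup.mem_comap]
      have e : cj G H' hGH hHG (xe 1) = x0 := by
        apply Subtype.ext
        rw [cj_coe, xe_coe, hx0]
      rw [e]
      exact hx0M
    have hye : ye (1 : F) ∈ M' := by
      rw [hM', Subgroup.mem_comap]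
      have e : cj G H' hGH hHG (ye 1) = y0 := by
        apply Subtype.ext
        rw [cj_coe, ye_coe, hy0]
      rw [e]
      exact hy0M
    have hK : ∀ g : SL2, (∀ i j, ((g : M2) i j) ^ p = (g : M2) i j) → g ∈ M' :=
      rat_mem_of_std p hpodd M' hxe hye
    have hback : M' = ⊤ → M = ⊤ := by
      intro htop
      rw [eq_top_iff]
      intro g _
      obtain ⟨gt, hgt⟩ := QuotientGroup.mk_surjective g
      rw [← hgt, ← hmemM]
      have hmem : cj H' G hHG hGH gt ∈ M' := by
        rw [htop]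
        exact Subgroup.mem_top _
      rw [hM', Subgroup.mem_comap, cj_cj] at hmem
      exact hmem
    apply hback
    by_cases hU : ∀ u ∈ M', (u : M2).trace = 2 → ∀ i j, ((u : M2) i j) ^ p = (u : M2) i j
    · exfalso
      obtain ⟨zt, hzt⟩ := QuotientGroup.mk_surjective z
      have hztM : zt ∈ Mt := by
        rw [hmemM, hzt]
        exact hHM hz
      have hz5c : zt ^ 5 ∈ Subgroup.center SL2 := by
        rw [← QuotientGroup.eq_one_iff, QuotientGroup.mk_pow, hzt]
        exact hz5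
      obtain ⟨w5, hw5M, hw55, hw51⟩ : ∃ w5 : SL2, w5 ∈ Mt ∧ w5 ^ 5 = 1 ∧ w5 ≠ 1 := by
        rcases sq_one h2 (zt ^ 5) (center_sq2 _ hz5c) with h | h
        · refine ⟨zt, hztM, h, ?_⟩
          intro h1
          apply hz1
          rw [← hzt, h1]
          rfl
        · refine ⟨negOne * zt, Mt.mul_mem hnegM hztM, ?_, ?_⟩
          · rw [(show Commute (negOne : SL2) zt from negOne_comm zt).mul_pow, h,
              Cfsg.Agent.S0804.negOne_pow_five, negOne_mul_self]
          · intro h1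
            apply hz1
            have e : zt = negOne := by
              calc zt = negOne * (negOne * zt) := by rw [← mul_assoc, negOne_mul_self, one_mul]
                _ = negOne := by rw [h1, mul_one]
            rw [← hzt, e, QuotientGroup.eq_one_iff]
            exact negOne_mem_center
      have ht := trace_of_order_five w5 hw55 hw51
      obtain ⟨g5, hg5⟩ : ∃ g5 : SL2, g5 = cj H' G hHG hGH w5 := ⟨_, rfl⟩
      have hg5M : g5 ∈ M' := by
        rw [hM', Subgroup.mem_comap, hg5, cj_cj]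
        exact hw5M
      have htg : (g5 : M2).trace = (w5 : M2).trace := by
        rw [hg5, cj_trace]
      have hrat := trace_sq_rat p hQ M' hK hU g5 hg5M
      rw [htg] at hrat
      obtain ⟨t, htdef⟩ : ∃ t : F, t = (w5 : M2).trace := ⟨_, rfl⟩
      rw [← htdef] at hrat ht
      have htp : t ^ p = t := by
        have e : 1 - t ^ 2 = t := by linear_combination -ht
        have h3 : (1 - t ^ 2) ^ p = 1 - t ^ 2 := hQ.ksub (one_pow p) hrat
        rw [e] at h3
        exact h3
      obtain ⟨n, hn⟩ := natcast_of_pow p t htp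
      apply h5
      have e1 : (((2 * n + 1) ^ 2 : ℕ) : F) = ((5 : ℕ) : F) := by
        push_cast
        rw [hn]
        linear_combination 4 * ht
      have e2 := (CharP.natCast_eq_natCast F p).mp e1
      have e3 : (((2 * n + 1) ^ 2 : ℕ) : ZMod p) = ((5 : ℕ) : ZMod p) :=
        (ZMod.natCast_eq_natCast_iff _ _ _).mpr e2
      refine ⟨((2 * n + 1 : ℕ) : ZMod p), ?_⟩
      rw [← e3]
      push_cast
      ring
    · push Not at hU
      obtain ⟨u1, hu1M, htr1, hirr⟩ := hU
      apply full_of_irrational p hQ hp5 hF M' hK u1 hu1M htr1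
      intro hall
      obtain ⟨i, j, hij⟩ := hirr
      exact hij (hall i j)
  · obtain ⟨xt, hxt⟩ := QuotientGroup.mk_surjective x
    obtain ⟨yt, hyt⟩ := QuotientGroup.mk_surjective y
    have hxtM : xt ∈ Mt := by
      rw [hmemM, hxt]
      exact hHM hx
    have hytM : yt ∈ Mt := by
      rw [hmemM, hyt]
      exact hHM hy
    rcases main_sl2 hodd p Mt hnegM hpM with hsq | h | h | h
    · exfalso
      apply hxy
      have := hsq xt hxtM yt hytM
      have e := congrArg (fun g : SL2 => (QuotientGroup.mk g : PSL2)) this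
      simp only [QuotientGroup.mk_mul, hxt, hyt] at e
      exact e
    · right; left
      omega
    · right; right; left
      omega
    · right; right; right
      omega

end Cfsg.Agent.Helper14.SubF
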